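import Cfsg.Agent.H11.SimDSpec

/-! # S3694, chapter D: steps D3 and D4. -/

set_option autoImplicit false

namespace H60.SimD4

open Subgroup Cfsg H98 Matrix H0.Sim H11.SimD

theorem jobD_D4 : JobD4 := by
  intro nil mG n F _ _ u q Θ H Q E g W₁ W₂ c
  have i1 : W₁ ≤ IS (mat E) := c.bs.e1 ▸ inf_le_left
  have k1 : W₁ ≤ KS (mat E) := c.bs.e1 ▸ inf_le_right
  have i2 : IS (mat E) ≤ W₂ := c.bs.e2 ▸ le_sup_left
  have k2 : KS (mat E) ≤ W₂ := c.bs.e2 ▸ le_sup_right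
  have two : ∀ X : Submodule F (Fin n → F), (∀ h ∈ H, Sb h X) → W₁ ≤ X → X ≤ W₂ →
      X = W₁ ∨ X = W₂ := by
    intro X hX h1 h2
    rcases c.irr X hX with e | e | e | e
    · exact absurd (le_bot_iff.mp (e ▸ h1)) c.bs.n1
    · exact Or.inl e
    · exact Or.inr e
    · exact absurd (top_le_iff.mp (e ▸ h2)) c.bs.n2
  have hQ : ∀ y ∈ Q, ∃ k : ℕ, y ^ ringChar F ^ k ∈ center (GL (Fin n) F) := fun y hy => by
    obtain ⟨k, hk⟩ := c.cf.pQ y hy
    exact ⟨k, hk.2⟩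
  have tb : (⊤ : Submodule F (Fin n → F)) ≠ ⊥ := fun e => c.bs.n1 (le_bot_iff.mp (e ▸ le_top))
  have nK := (nil n F Q hQ ⊤ fun _ _ _ _ => Submodule.mem_top).1 tb
  have nI := (nil n F Q hQ ⊥ fun y _ v hv => by
    rw [(Submodule.mem_bot F).mp hv, mulVec_zero]
    exact Submodule.zero_mem _).2 tb.symm
  rw [top_inf_eq] at nK
  rw [bot_sup_eq] at nI
  have a1 : W₁ ≤ KS (mat Q) := by
    rcases c.irr _ fun h hh => St.sb_KS (st_of_iv c.cf.inn c.cf.ivQ hh) with e | e | e | e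
    · exact absurd e nK
    · exact e.ge
    · exact c.bs.le.trans e.ge
    · exact e ▸ le_top
  have b1 : IS (mat Q) ≤ W₂ := by
    rcases c.irr _ fun h hh => St.sb_IS (st_of_iv c.cf.inn c.cf.ivQ hh) with e | e | e | e
    · exact e ▸ bot_le
    · exact e.le.trans c.bs.le
    · exact e.le
    · exact absurd e nI
  obtain ⟨m1, m2, -⟩ := mG n F E g
  have a : W₁ ≤ mg g (KS (mat E)) := m2 ▸ a1.trans (KS_anti (mat_mono c.cf.BQ))
  have b : mg g (IS (mat E)) ≤ W₂ := m1 ▸ (IS_mono (mat_mono c.cf.BQ)).trans b1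
  have hI := two _ (fun h hh => St.sb_IS (st_of_iv c.cf.inn c.cf.ivE hh)) i1 i2
  have hK := two _ (fun h hh => St.sb_KS (st_of_iv c.cf.inn c.cf.ivE hh)) k1 k2
  have e1 := c.bs.e1
  have e2 := c.bs.e2
  rcases hI with hI | hI <;> rcases hK with hK | hK
  · rw [hI, hK, sup_idem] at e2
    exact ⟨hI, hK.trans e2.symm, hI ▸ b⟩
  · exact ⟨hI, hK, hI ▸ b⟩
  · exact (c.not_both (mg_eq_of_ge (hK ▸ a)) (mg_eq_of_le (hI ▸ b))).elim
  · rw [hI, hK, inf_idem] at e1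
    exact ⟨hI.trans e1.symm, hK, (mg_mono g i1).trans b⟩

end H60.SimD4
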