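/- Maximality of the stabiliser of an orthogonal decomposition into members of dimension `≥ 3`:
mixed reflections. -/
import Cfsg.Agent.H60.DecAS

set_option autoImplicit false

namespace H60

open QuadraticMap H56 Module Submodule Cfsg.Geo

variable {F V : Type*} [Field F] [AddCommGroup V] [Module F V] {Q : QuadraticForm F V}

theorem exists_binary [Finite F] (h2 : (2 : F) ≠ 0) {a b : F} (ha : a ≠ 0) (hb : b ≠ 0) (c : F) :
    ∃ x y : F, a * (x * x) + b * (y * y) = c := by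
  have := Fintype.ofFinite F
  obtain ⟨x, y, h⟩ := FiniteField.exists_root_sum_quadratic (R := F)
    (f := Polynomial.C a * Polynomial.X ^ 2) (g := Polynomial.C b * Polynomial.X ^ 2 - Polynomial.C c)
    (by compute_degree!) (by compute_degree!) (FiniteField.odd_card_of_char_ne_two fun e => h2 (by
      have := ringChar.Nat.cast_ringChar (R := F)
      rw [e] at this
      exact_mod_cast this))
  refine ⟨x, y, ?_⟩
  simp only [Polynomial.eval_mul, Polynomial.eval_C, Polynomial.eval_pow, Polynomial.eval_X,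
    Polynomial.eval_sub] at h
  linear_combination h

theorem exists_conic [Finite F] (h2 : (2 : F) ≠ 0) (h4 : 4 ≤ Nat.card F) {ν σ κ : F} (hν : ν ≠ 0)
    (hσ : σ ≠ 0) (hκ : κ ≠ 0) (hns : ∀ s, ν - κ ≠ s * s * σ) :
    ∃ c μ : F, c ≠ 0 ∧ ν * (c * c) - σ * (μ * μ) = κ ∧ (μ ≠ 0 ∨ 2 * κ ≠ ν) := by
  obtain ⟨c, μ, h⟩ := exists_binary h2 hν (neg_ne_zero.2 hσ) κ
  by_cases hc : c = 0
  · subst hc
    have hμ : μ ≠ 0 := by rintro rfl; exact hκ (by linear_combination -h)
    have key : ∀ m : F, m ≠ 0 → ν * (m * m) ≠ σ → (ν * (m * m) ≠ -σ ∨ 2 * κ ≠ ν) →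
        ∃ c μ : F, c ≠ 0 ∧ ν * (c * c) - σ * (μ * μ) = κ ∧ (μ ≠ 0 ∨ 2 * κ ≠ ν) := fun m hm h1 h3 => by
      have h5 : ν * (m * m) - σ ≠ 0 := sub_ne_zero.2 h1
      refine ⟨2 * σ * μ * m / (ν * (m * m) - σ), μ * (ν * (m * m) + σ) / (ν * (m * m) - σ),
        div_ne_zero (by simp [*]) h5, ?_, h3.imp_left fun h3 => div_ne_zero (mul_ne_zero hμ
          fun e => h3 (by linear_combination e)) h5⟩
      obtain ⟨d, hd⟩ : ∃ d, d = ν * (m * m) - σ := ⟨_, rfl⟩
      rw [← hd] at h5 ⊢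
      field_simp
      rw [hd, ← h]
      ring
    by_cases hsq : ∃ m : F, ν * (m * m) = σ
    · obtain ⟨m₀, hm₀⟩ := hsq
      obtain ⟨m, hm, h1⟩ := exists_ne_zero_sq_ne h4 (σ / ν)
      refine key m hm (fun e => h1 (by rw [← e]; field_simp)) ?_
      by_contra hcon
      push Not at hcon
      have hm0 : m₀ ≠ 0 := by rintro rfl; exact hσ (by linear_combination -hm₀)
      refine hns (μ * m / m₀) ?_
      have e1 : m * m = -(m₀ * m₀) := mul_left_cancel₀ hν (by linear_combination hcon.1 + hm₀)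
      field_simp
      linear_combination (-(m₀ ^ 2)) * hcon.2 - (m₀ ^ 2) * h - μ ^ 2 * σ * e1
    · push Not at hsq
      obtain ⟨m, hm, h1⟩ := exists_ne_zero_sq_ne h4 (-σ / ν)
      exact key m hm (hsq m) (Or.inl fun e => h1 (by rw [← e]; field_simp))
  by_cases hμ : μ ≠ 0 ∨ 2 * κ ≠ ν
  · exact ⟨c, μ, hc, by linear_combination h, hμ⟩
  push Not at hμ
  obtain ⟨rfl, hμ⟩ := hμ
  obtain ⟨m, hm, h1⟩ := exists_ne_zero_sq_ne h4 (-ν / σ)
  have h3 : ν - σ * (m * m) ≠ 0 := fun e => hns (c * m) (by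
    linear_combination -hμ - h + (c * c) * e)
  refine ⟨c * (ν + σ * (m * m)) / (ν - σ * (m * m)), 2 * ν * c * m / (ν - σ * (m * m)),
    div_ne_zero (mul_ne_zero hc fun e => h1 ?_) h3, ?_, Or.inl (div_ne_zero (by simp [*]) h3)⟩
  · field_simp
    linear_combination e
  · obtain ⟨d, hd⟩ : ∃ d, d = ν - σ * (m * m) := ⟨_, rfl⟩
    rw [← hd] at h3 ⊢
    field_simp
    rw [hd, ← h]
    ring

variable [FiniteDimensional F V] {ι : Type*} {k : ℕ} {D : ι → Submodule F V} {M : Subgroup (O Q)}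

theorem OrthDec.sum_pr [Fintype ι] (h : OrthDec Q k D) (x : V) : ∑ i, h.pr i x = x := by
  classical
  refine (sub_eq_zero.1 (h.eq_zero_of_perp fun l => ?_)).symm
  rw [← h.pr_eq_zero, map_sub, map_sum, Finset.sum_eq_single l
    (fun i _ hi => h.pr_of_ne hi (h.pr_mem i x)) (by simp), h.pr_of_mem (h.pr_mem l x), sub_self]

theorem OrthDec.Q_sum (h : OrthDec Q k D) {c : ι → V} (hc : ∀ i, c i ∈ D i) (s : Finset ι) :
    Q (∑ i ∈ s, c i) = ∑ i ∈ s, Q (c i) := by
  classical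
  induction s using Finset.induction_on with
  | empty => simp
  | insert a s ha ih =>
    rw [Finset.sum_insert ha, Finset.sum_insert ha, Q_add, ih]
    have : ∑ i ∈ s, c i ∈ perp Q (D a) := sum_mem fun i hi =>
      h.mem_perp_of (by rintro rfl; exact ha hi) (hc i)
    rw [mem_perp.1 this _ (hc a), add_zero]

theorem OrthDec.exists_Q_pr_ne [Finite ι] (h : OrthDec Q k D) {x : V} (hx : Q x ≠ 0) :
    ∃ j, Q (h.pr j x) ≠ 0 := by
  have := Fintype.ofFinite ι
  by_contra hc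
  push Not at hc
  exact hx (by rw [← h.sum_pr x, h.Q_sum fun i => h.pr_mem i x]; simp [hc])

theorem OrthDec.Q_eq_add (h : OrthDec Q k D) (j : ι) (x : V) :
    Q x = Q (h.pr j x) + Q (x - h.pr j x) := by
  conv_lhs => rw [← add_sub_cancel (h.pr j x) x]
  rw [Q_add, mem_perp.1 (h.sub_pr_mem j x) _ (h.pr_mem j x), add_zero]

variable [Finite F] [Finite ι] [Nontrivial ι]

namespace DecM

omit [Finite ι] in
theorem exists_RR (h : DecM k D M) {i : ι} {w x : V} (hw : w ∈ D i) (hQw : Q w ≠ 0)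
    (hx : x ∈ RR M w) (j : ι) : ∃ l, l ≠ j ∧ ∃ w' ∈ D l, Q w' ≠ 0 ∧ x ∈ RR M w' := by
  obtain ⟨l, hl⟩ := _root_.exists_ne j
  obtain ⟨w', hw', hQ⟩ := h.exists_Q_eq l hw
  exact ⟨l, hl, w', hw', by rwa [hQ], RR.trans hx (h.mem_RR hw hw' hQw (by rwa [hQ]) (by rw [hQ]))⟩

omit [Finite F] [Finite ι] [Nontrivial ι] in
/-- A reflection orthogonal to a singular vector of a member. -/
theorem mem_of_orth (h : DecM k D M) {j l : ι} (hl : l ≠ j) {w x u : V} (hw : w ∈ D l)
    (hx : x ∈ RR M w) (hu : u ∈ D j) (hA : AS M u ≤ D j) (hA' : D j ⊓ ort Q u ≤ AS M u)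
    (hux : polar Q u x = 0) (hn : h.pr j x ∉ span F {u}) : x ∈ D j := by
  obtain ⟨s, hs, hus, hxs⟩ : ∃ s ∈ D j, polar Q u s = 0 ∧ polar Q x s ≠ 0 := by
    by_contra hc
    push Not at hc
    obtain ⟨c, hc⟩ := (h.nd j).exists_smul hu (h.pr_mem j x) fun v hv huv => pc (by
      rw [h.polar_pr hv]; exact pc (hc v hv huv))
    exact hn (mem_span_singleton.2 ⟨c, hc.symm⟩)
  have h1 := hA (apply_mem_AS_of_fix hx.2 (by
    rw [O.mul_apply, refl_apply_of_orth (h.orth l j hl w hw u hu), refl_apply_of_orth (pc hux)])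
    (hA' ⟨hs, hus⟩))
  rw [O.mul_apply, refl_apply_of_orth (h.orth l j hl w hw s hs)] at h1
  exact mem_of_refl_mem hs h1 hx.1 hxs

omit [Finite ι] [Nontrivial ι] in
/-- A reflection with a singular component. -/
theorem mem_of_sing (h : DecM k D M) (h4 : ∃ c : F, c ≠ 0 ∧ c * c ≠ 1) {j l : ι} (hl : l ≠ j)
    {w x : V} (hw : w ∈ D l) (hx : x ∈ RR M w) (h0 : h.pr j x ≠ 0) (hQa : Q (h.pr j x) = 0)
    (hA : AS M (h.pr j x) ≤ D j) : x ∈ D j := by
  set a := h.pr j x with ha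
  have haD : a ∈ D j := h.pr_mem j x
  have hz := h.sub_pr_mem j x
  rw [← ha] at hz
  obtain ⟨f, hf, hQf, haf⟩ := (h.nd j).exists_partner haD h0 hQa
  have hef : IsHyp Q a f := ⟨hQa, hQf, haf⟩
  have hax : polar Q a x = 0 := by rw [← h.polar_pr haD, ← ha, pself hQa]
  obtain ⟨c, hc0, hc⟩ := h4
  have h1 : x + (c * c - 1) • a ∈ RR M w := by
    have := RR.apply hx (h.tor_sq_mem haD hf hef hc0)
    rw [tor_apply_of_orth (h.orth j l hl.symm a haD w hw) (h.orth j l hl.symm f hf w hw),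
      tor_apply hef (mul_ne_zero hc0 hc0), hax, ← h.polar_pr hf, ← ha, hef.fe] at this
    simpa using this
  have h2 := RR.smul_mem_AA hQa hax hx h1
  have h3 : ((c * c - 1) / Q x) • (x - a) ∈ AA M a := by
    rw [smul_sub]; exact sub_mem h2 (smul_self_mem_AA M hQa _)
  have h5 : x - a ∈ AS M a := mem_AS_of_sq (div_ne_zero (sub_ne_zero.2 hc) hx.1) fun d => by
    by_cases hd : d = 0
    · simp [hd]
    have := apply_mem_AA (h.tor_sq_mem haD hf hef hd) h3
    rw [tor_apply_e hef (mul_ne_zero hd hd), map_smul, tor_apply_of_orth (hz a haD) (hz f hf)] at this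
    rw [mul_smul]
    exact smul_mem_AA_of_smul (mul_ne_zero hd hd) this
  simpa using add_mem (hA h5) haD

omit [Finite ι] [Nontrivial ι] in
/-- A reflection `a + z` with `a` in a member and `z` singular. -/
theorem eq_zero_of_sing (h : DecM k D M) (h2 : (2 : F) ≠ 0) (hk : 3 ≤ k) {j : ι} {a z : V}
    (ha : a ∈ D j) (h0 : a ≠ 0) (hz : z ∈ perp Q (D j)) (hQz : Q z = 0) (haz : a ∈ AA M z)
    (hA : ∀ e ∈ D j, e ≠ 0 → Q e = 0 → AS M e ≤ D j) : z = 0 := by
  obtain ⟨y, hy, hay⟩ := (h.nd j).exists_polar_ne ha h0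
  obtain ⟨e, he, hQe, hae⟩ := ((h.nd j).hasHyp (by rw [h.dim]; exact hk)).exists_sing_polar_ne hy hay
  obtain ⟨b, hb, hQb⟩ := (h.nd j).exists_Q_ne_of_lt h.hQ (W := D j ⊓ ort Q e) inf_le_left (by
    have := finrank_le_inf_ort (Q := Q) (D j) e
    rw [h.dim] at *
    omega)
  have heb : polar Q e b = 0 := hb.2
  have h1 : ∀ c : F, eich Q e (c • b) a - a ∈ AA M z := fun c =>
    apply_sub_mem_AA (h.EOin_le' j (eich_mem_EOin he (smul_mem _ c hb.1)))
      (eich_apply_of_orth_orth (hz e he) (hz _ (smul_mem _ c hb.1))) haz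
  have h3 : e ∈ AS M z := mem_AS_of_sq (l := -2 * Q b * polar Q e a)
    (mul_ne_zero (mul_ne_zero (neg_ne_zero.2 h2) hQb) (by rwa [polar_comm])) fun c => by
    have := add_mem (h1 c) (h1 (-c))
    rw [eich_apply hQe (by simp [heb]), eich_apply hQe (by simp [heb])] at this
    convert this using 1
    simp only [Q_smul, polar_smul_left, smul_eq_mul]
    module
  exact (h.nd j).eq_zero (hA e he (by rintro rfl; simp at hae) hQe (AS_swap hQz hQe h3)) hz

/-- **No mixed reflections**, `k ≥ 3`. -/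
theorem mem_of_RR (h : DecM k D M) (hk : 3 ≤ k) (h3 : k = 3 → (2 : F) ≠ 0 ∧ 4 ≤ Nat.card F)
    {i : ι} {w x : V} (hw : w ∈ D i) (hQw : Q w ≠ 0) (hx : x ∈ RR M w) : ∃ j, x ∈ D j := by
  have hA : ∀ j, ∀ e ∈ D j, e ≠ 0 → Q e = 0 → AS M e ≤ D j := fun j e he h0 hQe =>
    h.AS_le (by omega) (fun i hs => by have := hs.2.1; rw [h.dim] at this; omega) (Or.inl hk)
      he h0 hQe
  have hA' : ∀ j, ∀ e ∈ D j, D j ⊓ ort Q e ≤ AS M e := fun j e he x hx =>
    mem_AS_of_le (h.EOin_le' j) he hx.1 hx.2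
  obtain ⟨j, hj⟩ := h.exists_Q_pr_ne hx.1
  obtain ⟨l, hl, w, hw, hQw, hx⟩ := h.exists_RR hw hQw hx j
  refine ⟨j, ?_⟩
  set a := h.pr j x with ha
  have haD : a ∈ D j := h.pr_mem j x
  by_cases hg : ∃ u ∈ D j ⊓ ort Q a, u ≠ 0 ∧ Q u = 0
  · obtain ⟨u, hu, hu0, hQu⟩ := hg
    refine h.mem_of_orth hl hw hx hu.1 (hA j u hu.1 hu0 hQu) (hA' j u hu.1)
      (by rw [← h.polar_pr hu.1]; exact pc hu.2) fun hn => ?_
    obtain ⟨c, hc⟩ := mem_span_singleton.1 hn
    exact hj (by rw [ha, ← hc, Q_smul, hQu, mul_zero])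
  push Not at hg
  have hk3 : k = 3 := by
    by_contra hne
    obtain ⟨u, hu, hu0, hQu⟩ := exists_sing (Q := Q) (D j ⊓ ort Q a) (by
      have := finrank_le_inf_ort (Q := Q) (D j) a
      rw [h.dim] at this
      omega)
    exact hg u hu hu0 hQu
  obtain ⟨h2, h4⟩ := h3 hk3
  have hz := h.sub_pr_mem j x
  have hQx := h.Q_eq_add j x
  rw [← ha] at hz hQx
  set z := x - a with hzdef
  have hxa : x = a + z := by rw [hzdef, add_sub_cancel]
  have ha0 : a ≠ 0 := by rintro e; exact hj (by simp [e])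
  by_cases hκ : Q z = 0
  · have haR : a ∈ RR M w := by
      rw [hκ, add_zero] at hQx
      refine RR.trans (w := w) ?_ ⟨hQw, by simp⟩
      refine h.mem_RR haD hw hj hQw ?_
      have := ((mem_commutator_iff h.hQ h.hE _).1 (h.le' hx.2)).2
      rw [map_mul, spinor_refl, spinor_refl, hQx, mul_eq_one_iff_eq_inv, SqCl.inv_eq] at this
      exact this
    have h1 := RR.smul_mem_AA hκ (pc (hz a haD)) haR (c := 1) (by rwa [one_smul, ← hxa])
    rw [hxa, h.eq_zero_of_sing h2 hk (smul_mem _ _ haD) (smul_ne_zero (by simpa using hj) ha0)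
      hz hκ h1 (hA j), add_zero]
    exact haD
  obtain ⟨e, he, he0, hQe⟩ := exists_sing (Q := Q) (D j) (by rw [h.dim]; exact hk)
  have hae : polar Q a e ≠ 0 := fun h0 => hg e ⟨he, h0⟩ he0 hQe
  obtain ⟨c, ⟨⟨hc, hac⟩, hec⟩, hc0⟩ := Submodule.exists_mem_ne_zero_of_ne_bot
    (p := D j ⊓ ort Q a ⊓ ort Q e) fun e0 => by
      have := finrank_le_inf_ort (Q := Q) (D j) a
      have := finrank_le_inf_ort (Q := Q) (D j ⊓ ort Q a) e
      rw [e0, finrank_bot, h.dim] at *
      omega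
  have hσ : Q c ≠ 0 := hg c ⟨hc, hac⟩ hc0
  simp only [SetLike.mem_coe, mem_ort] at hac hec
  obtain ⟨c₁, μ, hc₁, hμ, hor⟩ := exists_conic h2 h4 hx.1 hσ hκ fun s hs => by
    have hs' : Q a = s * s * Q c := by linear_combination hs - hQx
    have hs0 : s ≠ 0 := by rintro rfl; exact hj (by simpa using hs')
    refine hg ((2 * Q a) • e - polar Q a e • a + (s * polar Q a e) • c)
      ⟨add_mem (sub_mem (smul_mem _ _ he) (smul_mem _ _ haD)) (smul_mem _ _ hc), ?_⟩ (fun h0 => ?_) ?_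
    · simp [polar_self', hac]; ring
    · have := congrArg (polar Q e) h0
      simp [pself hQe, hec, polar_comm Q e a, hae] at this
    · simp only [Q_add, Q_sub, Q_smul, polar_sub_left, polar_smul_left, polar_smul_right, hQe, hac,
        hec, polar_comm Q e a, smul_eq_mul]
      rw [hs']; ring
  set β := (Q a - Q z) / polar Q a e with hβ
  have hβ' : β * polar Q a e = Q a - Q z := div_mul_cancel₀ _ hae
  set a' := β • e + μ • c with ha'
  have ha'D : a' ∈ D j := add_mem (smul_mem _ _ he) (smul_mem _ _ hc)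
  have haa' : polar Q a a' = Q a - Q z := by simp [ha', hac, hβ']
  have hQx' : Q (a' - a) = c₁ * c₁ * Q x := by
    rw [Q_sub, polar_comm Q a' a, haa', ha', Q_add, Q_smul, Q_smul, hQe]
    simp only [polar_smul_left, polar_smul_right, hec, smul_eq_mul]
    linear_combination -hμ
  have h1 : a' - a ∈ RR M w := h.mem_RR (sub_mem ha'D haD) hw
    (by rw [hQx']; exact mul_ne_zero (mul_ne_zero hc₁ hc₁) hx.1) hQw (by
      have := ((mem_commutator_iff h.hQ h.hE _).1 (h.le' hx.2)).2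
      rw [map_mul, spinor_refl, spinor_refl, mul_eq_one_iff_eq_inv, SqCl.inv_eq] at this
      rw [hQx', sqcl_mul_self_mul hc₁, this])
  have h5 : a' + z ∈ RR M w := by
    have := RR.refl_mem hx h1
    rw [refl_apply, polar_comm, ← h.polar_pr (sub_mem ha'D haD), ← ha, polar_sub_left,
      polar_comm Q a' a, haa', polar_self', show Q a - Q z - 2 * Q a = -Q x by rw [hQx]; ring,
      mul_neg, inv_mul_cancel₀ hx.1] at this
    convert this using 1
    rw [hzdef]; module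
  have hpr : h.pr j (a' + z) = a' := by rw [map_add, h.pr_of_mem ha'D, h.pr_eq_zero.2 hz, add_zero]
  have h6 : a' + z ∈ D j := by
    by_cases hμ0 : μ = 0
    · have hβ0 : β ≠ 0 := fun e0 => hor.resolve_left (not_not.2 hμ0) (by
        rw [e0, zero_mul] at hβ'
        linear_combination -hQx + hβ')
      have hne : a' ≠ 0 := by simp [ha', hμ0, hβ0, he0]
      have hQa' : Q a' = 0 := by simp [ha', hμ0, Q_smul, hQe]
      exact h.mem_of_sing (exists_ne_zero_sq_ne h4 1) hl hw h5 (by rwa [hpr]) (by rwa [hpr])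
        (by rw [hpr]; exact hA j a' ha'D hne hQa')
    · refine h.mem_of_orth hl hw h5 he (hA j e he he0 hQe) (hA' j e he)
        (by simp [ha', pself hQe, hec, mem_perp.1 hz e he]) fun hn => ?_
      rw [hpr] at hn
      obtain ⟨t, ht⟩ := mem_span_singleton.1 hn
      have := congrArg Q ht
      simp [ha', Q_add, Q_smul, hQe, hec, hμ0, hσ] at this
  rw [hxa]
  exact add_mem haD (by simpa using sub_mem h6 ha'D)

end DecM

end H60
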