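/- Commutators in `SL_n(q)` (row S2444): job statements and assembly. -/
import Cfsg.Agent.H60.OreKit

set_option autoImplicit false

namespace H60.Ore
open Polynomial Module H53

universe u

/-- Even and odd part of `χ` are coprime. -/
def Good {F : Type u} [Field F] (χ : F[X]) : Prop :=
  χ.Monic ∧ χ.coeff 0 ≠ 0 ∧ ∃ e o : F[X], χ = expand F 2 e + X * expand F 2 o ∧ IsCoprime e o

/-- The master lemma and its consequences for cyclic blocks. -/
structure Kit (F : Type u) [Field F] [Fintype F] : Prop where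
  ml : ∀ (f p χ : F[X]) (β : F), f.Monic → p.Monic → Good χ → f.natDegree = χ.natDegree + 1 →
    p.natDegree = f.natDegree → β * dt χ = dt p * dt f →
    (χ.eval β ≠ 0 ∨ (β = 1 ∧ p.eval 1 = 0 ∧ f.eval 1 = 0)) →
    E (edc f) (edc p) ((X - C β) ::ₘ edc χ) (β * dt χ) True
  ml' : ∀ (f p χ : F[X]) (a : F), f.Monic → f.coeff 0 ≠ 0 → p.Monic → Good χ →
    f.natDegree = χ.natDegree + 1 → p.natDegree = f.natDegree → a * dt χ * dt f = dt p →
    χ.eval a ≠ 0 → E (edc f) ((X - C a) ::ₘ edc χ) (edc p) (dt p) False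
  tr : ∀ (f χ : F[X]) (a : F), f.Monic → Good χ → f.natDegree = χ.natDegree + 1 → χ.eval a ≠ 0 →
    χ.eval (dt f * a) ≠ 0 → E (edc f) {X - C a} {X - C (dt f * a)} (dt f * a * dt χ) True
  two : ∀ (f : F[X]) (a z : F), f.Monic → f.natDegree = 2 → z ≠ 0 → z ≠ a → z ≠ dt f * a →
    E (edc f) {X - C a} {X - C (dt f * a)} (dt f * a * z) True
  flex : ∀ f : F[X], f.Monic → f.coeff 0 ≠ 0 → 3 ≤ f.natDegree →
    ¬ (Fintype.card F = 3 ∧ f.natDegree = 3 ∧ dt f = -1) → Flex (edc f)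

/-- Admissible multisets of blocks. -/
def Adm {F : Type u} [Field F] (m : Multiset F[X]) : Prop := ∀ P ∈ m, IsPP P ∧ P.coeff 0 ≠ 0

def JobKit : Prop := ∀ (F : Type u) [Field F] [Fintype F], Kit F

def JobF2 : Prop := ∀ (F : Type u) [Field F] [Fintype F], Fintype.card F = 2 → Kit F →
  ∀ m : Multiset F[X], Adm m → 3 ≤ (m.map natDegree).sum → Cm m

/-- The blocks with an irreducible quadratic of determinant `-1` over the field with 3 elements. -/
def E3 (F : Type u) [Field F] : Prop := ∀ τ : F, τ ≠ 0 →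
  Flex {X ^ 2 - C τ * X - 1, X ^ 2 - C τ * X - 1} ∧
  ∀ j, Odd j → 3 ≤ j → Flex {X ^ 2 - C τ * X - 1, (X ^ 2 - C τ * X - 1) ^ j}

def JobE3 : Prop := ∀ (F : Type u) [Field F] [Fintype F], Fintype.card F = 3 → Kit F → E3 F

def JobF3 : Prop := ∀ (F : Type u) [Field F] [Fintype F], Fintype.card F = 3 → Kit F → E3 F →
  ∀ m : Multiset F[X], Adm m → 3 ≤ (m.map natDegree).sum → dm m = 1 → Cm m

def JobSc : Prop := ∀ (F : Type u) [Field F] [Fintype F] (l : F) (n : ℕ), l ^ n = 1 →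
  Cm (Multiset.replicate n (X - C l))

def JobR1 : Prop := ∀ (F : Type u) [Field F] [Fintype F], 4 ≤ Fintype.card F → ∀ l μ : F, l ≠ 0 →
  l ≠ 1 → μ ≠ 0 → Flex ((X - C l) ::ₘ edc ((X - C l) * (X - C μ)))

def JobQ4 : Prop := JobSc.{u} → JobR1.{u} → ∀ (F : Type u) [Field F] [Fintype F],
  4 ≤ Fintype.card F → Kit F → ∀ m : Multiset F[X], Adm m → dm m = 1 → Cm m

theorem main (hk : JobKit.{u}) (h2 : JobF2.{u}) (he : JobE3.{u}) (h3 : JobF3.{u}) (hs : JobSc.{u})
    (hr : JobR1.{u}) (h4 : JobQ4.{u}) {F : Type u} [Field F] [Fintype F] (n : ℕ)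
    (hn : 2 ≤ n) (hex : n = 2 → 4 ≤ Fintype.card F) (g : Matrix.SpecialLinearGroup (Fin n) F) :
    ∃ a b : Matrix.SpecialLinearGroup (Fin n) F, g = a * b * a⁻¹ * b⁻¹ := by
  have hA : Adm (med g.1) := fun P hP => ⟨med_isPP _ P hP, (isUnit_iff_med _).1
    ((Matrix.isUnit_iff_isUnit_det _).2 (by rw [g.2]; exact isUnit_one)) P hP⟩
  have hd : dm (med g.1) = 1 := by rw [med, dm_ed, LinearMap.det_toLin', g.2]
  have hs' : ((med g.1).map natDegree).sum = n := by rw [sum_natDegree_med, Fintype.card_fin]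
  have := Fintype.one_lt_card (α := F)
  by_cases c4 : 4 ≤ Fintype.card F
  · exact h4 hs hr F c4 (hk F) _ hA hd n g rfl
  have n3 : 3 ≤ ((med g.1).map natDegree).sum := by
    rw [hs']; by_contra h; exact c4 (hex (by omega))
  by_cases c2 : Fintype.card F = 2
  · exact h2 F c2 (hk F) _ hA n3 n g rfl
  · have c3 : Fintype.card F = 3 := by omega
    exact h3 F c3 (hk F) (he F c3 (hk F)) _ hA n3 hd n g rfl

end H60.Ore
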