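import Cfsg.Agent.H42.IVSpec
import Cfsg.Agent.H2.Fitting

/-! The semidirect product step of the tower on involutory automorphisms. -/

set_option autoImplicit false

namespace H60.IvTop

open Subgroup Nat H42.IV

universe u

/-- A finite set of elements of odd order that contains `1` and is closed under inversion has odd
cardinality. -/
theorem odd_card {G : Type*} [Group G] [Finite G] (p : G → Prop) (h1 : p 1)
    (hinv : ∀ g, p g → p g⁻¹) (hodd : ∀ g, p g → Odd (orderOf g)) :
    Odd (Nat.card {g : G // p g}) := by
  classical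
  have : Fintype {g : G // p g} := Fintype.ofFinite _
  let f : Function.End {g : G // p g} := fun g => ⟨g.1⁻¹, hinv _ g.2⟩
  have hf : f ^ 2 ^ 1 = 1 := by
    funext g
    apply Subtype.ext
    change g.1⁻¹⁻¹ = g.1
    exact inv_inv _
  have h := Equiv.Perm.card_fixedPoints_modEq (p := 2) (n := 1) hf
  have hc : Fintype.card f.fixedPoints = 1 := by
    rw [Fintype.card_eq_one_iff]
    refine ⟨⟨⟨1, h1⟩, Subtype.ext inv_one⟩, ?_⟩
    rintro ⟨⟨g, hg⟩, hfix⟩
    have h2 : g⁻¹ = g := congrArg Subtype.val hfix
    have h3 : g ^ 2 = 1 := by rw [pow_two]; nth_rewrite 1 [← h2]; exact inv_mul_cancel g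
    have h4 : orderOf g ∣ 2 := orderOf_dvd_of_pow_eq_one h3
    have h5 : orderOf g = 1 := by
      rcases (Nat.dvd_prime Nat.prime_two).1 h4 with h | h
      · exact h
      · have := hodd g hg
        rw [h] at this
        exact absurd this (by decide)
    exact Subtype.ext (Subtype.ext (orderOf_eq_one_iff.1 h5))
  rw [hc] at h
  rw [Nat.card_eq_fintype_card, Nat.odd_iff]
  exact h

/-- The index of the Fitting subgroup does not grow on passing to a subgroup. -/
theorem index_le {G H : Type*} [Group G] [Group H] [Finite G] [Finite H] (f : G →* H)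
    (hf : Function.Injective f) :
    (Cfsg.fittingSubgroup G).index ≤ (Cfsg.fittingSubgroup H).index := by
  set F := Cfsg.fittingSubgroup H
  have : Group.IsNilpotent (F.comap f) := by
    refine Subgroup.isNilpotent_of_ker_le_center (f.subgroupComap F) ?_
    intro x hx
    have : x = 1 := by
      apply Subtype.ext
      apply hf
      have h : f x = 1 := congrArg Subtype.val (MonoidHom.mem_ker.1 hx)
      simpa using h
    rw [this]
    exact one_mem _
  have h1 : F.comap f ≤ Cfsg.fittingSubgroup G := H2.le_fitting _
  have h2 : (Cfsg.fittingSubgroup G).index ≤ (F.comap f).index :=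
    Nat.le_of_dvd (Nat.pos_of_ne_zero index_ne_zero_of_finite) (index_dvd_of_le h1)
  refine h2.trans ?_
  rw [index_comap, ← relIndex_top_right]
  exact relIndex_le_of_le_right le_top (by rw [relIndex_top_right]; exact index_ne_zero_of_finite)

theorem jobTop : JobTop.{u} := by
  intro hR G _ _ _ α hα hgen
  let Z := zpowers α
  let H := G ⋊[Z.subtype] Z
  have : Finite H := Finite.of_equiv _ (SemidirectProduct.equivProd : H ≃ G × Z).symm
  let z : Z := ⟨α, mem_zpowers α⟩
  let a : H := SemidirectProduct.inr z
  have hα2 : α * α = 1 := by rw [← pow_two, ← hα]; exact pow_orderOf_eq_one α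
  have hcardZ : Nat.card Z = 2 := by rw [Nat.card_zpowers, hα]
  have hconj : ∀ g : G, a * SemidirectProduct.inl g * a⁻¹ = SemidirectProduct.inl (α g) := by
    intro g
    have : (SemidirectProduct.inl (α g) : H) = SemidirectProduct.inr z * SemidirectProduct.inl g *
        SemidirectProduct.inr z⁻¹ := SemidirectProduct.inl_aut z g
    rw [map_inv] at this
    exact this.symm
  let S : Set G := {g : G | Odd (orderOf g) ∧ α g = g⁻¹}
  have hJ : J a = (SemidirectProduct.inl : G →* H) '' S := by
    ext x
    constructor
    · rintro ⟨ho, hi⟩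
      have hr : SemidirectProduct.rightHom x = 1 := by
        have h1 : orderOf (SemidirectProduct.rightHom x) ∣ orderOf x := orderOf_map_dvd _ x
        have h2 : orderOf (SemidirectProduct.rightHom x) ∣ 2 := hcardZ ▸ orderOf_dvd_natCard _
        rcases (Nat.dvd_prime Nat.prime_two).1 h2 with h | h
        · exact orderOf_eq_one_iff.1 h
        · rw [h] at h1
          exact absurd (Odd.of_dvd_nat ho h1) (by decide)
      have hx : x ∈ (SemidirectProduct.inl : G →* H).range := by
        rw [SemidirectProduct.range_inl_eq_ker_rightHom]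
        exact hr
      obtain ⟨g, rfl⟩ := hx
      refine ⟨g, ⟨?_, ?_⟩, rfl⟩
      · rwa [orderOf_injective _ SemidirectProduct.inl_injective] at ho
      · rw [hconj, ← map_inv] at hi
        exact SemidirectProduct.inl_injective hi
    · rintro ⟨g, ⟨ho, hi⟩, rfl⟩
      refine ⟨?_, ?_⟩
      · rwa [orderOf_injective _ SemidirectProduct.inl_injective]
      · rw [hconj, hi, map_inv]
  have hSt : St H a := by
    refine ⟨?_, ?_⟩
    · have : z * z = 1 := Subtype.ext hα2
      change SemidirectProduct.inr z * SemidirectProduct.inr z = (1 : H)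
      rw [← map_mul, this, map_one]
    · rw [eq_top_iff]
      intro x _
      rw [← SemidirectProduct.inl_left_mul_inr_right x]
      refine mul_mem ?_ ?_
      · have h1 : (closure S).map (SemidirectProduct.inl : G →* H) ≤ closure (insert a (J a)) := by
          rw [MonoidHom.map_closure, ← hJ]
          exact closure_mono (Set.subset_insert _ _)
        exact h1 ⟨x.left, by rw [hgen]; trivial, rfl⟩
      · obtain ⟨k, hk⟩ := mem_zpowers_iff.1 x.right.2
        have h2 : x.right = z ^ k := Subtype.ext hk.symm
        rw [h2, map_zpow]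
        exact zpow_mem (subset_closure (Set.mem_insert _ _)) k
  have hcard : (J a).ncard = Nat.card {g : G // Odd (orderOf g) ∧ α g = g⁻¹} := by
    rw [hJ, Set.ncard_image_of_injective _ SemidirectProduct.inl_injective]
    rfl
  have hodd : Odd (Nat.card {g : G // Odd (orderOf g) ∧ α g = g⁻¹}) := by
    refine odd_card _ ⟨by simp, by simp⟩ ?_ (fun g hg => hg.1)
    rintro g ⟨ho, hi⟩
    exact ⟨by rwa [orderOf_inv], by rw [map_inv, hi]⟩
  obtain ⟨h, hh⟩ := hodd
  have h1 : 1 ≤ h := by
    by_contra h0
    have h0 : h = 0 := by omega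
    rw [h0] at hh
    have hsub := (Nat.card_eq_one_iff_unique.1 hh).1
    have hS : closure S ≤ ⊥ := by
      rw [closure_le]
      intro g hg
      have := hsub.elim ⟨g, hg⟩ ⟨1, by simp, by simp⟩
      exact congrArg Subtype.val this
    rw [hgen] at hS
    exact absurd (le_bot_iff.1 hS) top_ne_bot
  have key := hR H a h h1 hSt (by rw [hcard, hh])
  rw [hh]
  exact (index_le _ SemidirectProduct.inl_injective).trans_lt key

end H60.IvTop
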