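import Cfsg.Agent.H52.SimXSSpec

/-! # S3694, chapter XS: the two rings are invariant. -/

set_option autoImplicit false

namespace H60.XsIv

open Subgroup Cfsg H98 Matrix H0.Sim H52.XS

theorem gen {n : ℕ} {F : Type} [Field F] [Fintype F] (E : Subgroup (GL (Fin n) F))
    (f : Mt n F → Mt n F) (s : F → F) (ha : ∀ a b, f (a + b) = f a + f b)
    (hm : (∀ a b, f (a * b) = f a * f b) ∨ ∀ a b, f (a * b) = f b * f a) (h1 : f 1 = 1)
    (hs : ∀ (c : F) a, f (c • a) = s c • f a) (hi : Function.Injective f)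
    (hE : ∀ m ∈ mat E, f m ∈ mat E) :
    (∀ m ∈ AE E, f m ∈ AE E) ∧ ∀ m ∈ CE E, f m ∈ CE E := by
  constructor
  · intro m hm'
    induction hm' using Algebra.adjoin_induction with
    | mem x hx => exact Algebra.subset_adjoin (hE x hx)
    | algebraMap r =>
      rw [Algebra.algebraMap_eq_smul_one, hs, h1]
      exact Subalgebra.smul_mem _ (one_mem _) _
    | add x y _ _ k1 k2 =>
      rw [ha]
      exact add_mem k1 k2
    | mul x y _ _ k1 k2 =>
      rcases hm with h | h
      · rw [h]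
        exact mul_mem k1 k2
      · rw [h]
        exact mul_mem k2 k1
  · intro m hm'
    have hb : Set.BijOn f (mat E) (mat E) :=
      ((Set.toFinite (mat E)).injOn_iff_bijOn_of_mapsTo hE).mp hi.injOn
    refine (Subalgebra.mem_centralizer_iff F).mpr fun e he => ?_
    obtain ⟨d, hd, rfl⟩ := hb.surjOn he
    have k := congrArg f ((Subalgebra.mem_centralizer_iff F).mp hm' d hd)
    rcases hm with h | h
    · rwa [h, h] at k
    · rw [h, h] at k
      exact k.symm

theorem job : JobIv := by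
  intro th' ad' n F _ _ u q p Θ H Q E c
  have key : ∀ j ∈ Θ, (∀ m ∈ AE E, th j m ∈ AE E) ∧ ∀ m ∈ CE E, th j m ∈ CE E := by
    intro j hj
    obtain ⟨h1, h2, h3, h4, h5, -⟩ := th' n F j
    refine gen E (th j) j.σ h1 ?_ h3 h4 h5.1 (c.ivE j hj)
    cases h : j.a
    · exact Or.inl fun a b => by simpa [h] using h2 a b
    · exact Or.inr fun a b => by simpa [h] using h2 a b
  refine ⟨fun j hj => (key j hj).1, fun j hj => (key j hj).2, ?_⟩
  rintro rfl
  obtain ⟨h1, h2, h3, h4, h5, -, h6⟩ := ad' n F q (by simpa using c.par.card)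
  refine gen E (ad q) (· ^ q) h1 (Or.inr h2) h4 h5 (Function.LeftInverse.injective h3) ?_
  rintro _ ⟨e, he, rfl⟩
  have hU : e ∈ GU n F q := by simpa [Gam] using c.HG (c.QH (c.EQ he))
  exact ⟨e⁻¹, inv_mem he, (Units.eq_inv_of_mul_eq_one_right ((h6 e).mp hU)).symm⟩

end H60.XsIv
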