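import Cfsg.Agent.H53.SimXASpec

/-! # S3694, chapter XA: the part of an element on a block. -/

set_option autoImplicit false

namespace H60.XaPT

open Subgroup Cfsg H98 Matrix H0.Sim H53.XA

theorem mulp {R : Type*} [Ring R] {f b : R} (a : R) (hf : f * f = f) (hb : b * f = f * b) :
    (a * f + (1 - f)) * (b * f + (1 - f)) = a * b * f + (1 - f) := by
  have h1 : f * b * f = b * f := by rw [← hb, mul_assoc, hf]
  calc _ = a * (f * b * f) + a * f - a * (f * f) + b * f - f * b * f + 1 - f - f + f * f := by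
        noncomm_ring
    _ = _ := by rw [h1, hf]; noncomm_ring

variable {n : ℕ} {F : Type} [Field F] {u : Bool} {q : ℕ} {f : Mt n F}

theorem ip_sub [Fintype F] (fq : Fq F u q) (h : Ip u q f) : Ip u q (1 - f) := by
  refine ⟨by rw [sub_mul, one_mul, mul_sub, mul_one, h.sq, sub_self, sub_zero], ?_⟩
  rintro rfl
  have hF : Fintype.card F = q ^ 2 := by simpa [Fq] using fq
  rw [ad_sub hF, ad_one hF, h.fx rfl]

/-- The part of `y` on the block `f`. -/
def pu (hf : f * f = f) (y : Cz u q f) : GL (Fin n) F :=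
  ⟨((y : GL (Fin n) F) : Mt n F) * f + (1 - f),
    (((y⁻¹ : Cz u q f) : GL (Fin n) F) : Mt n F) * f + (1 - f),
    by rw [mulp _ hf (y⁻¹).2.2]; simp,
    by rw [mulp _ hf y.2.2]; simp⟩

theorem pu_mem [Fintype F] (fq : Fq F u q) (h : Ip u q f) (y : Cz u q f) : pu h.sq y ∈ Gf u q f := by
  have h1 := (ip_sub fq h).sq
  have h2 : f * (1 - f) = 0 := by rw [mul_sub, mul_one, h.sq, sub_self]
  have h3 : (1 - f) * f = 0 := by rw [sub_mul, one_mul, h.sq, sub_self]
  refine ⟨?_, ?_, ?_⟩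
  · cases u
    · simp [Gam]
    · have hF : Fintype.card F = q ^ 2 := by simpa [Fq] using fq
      have k : ad q ((y : GL (Fin n) F) : Mt n F) =
          (((y⁻¹ : Cz true q f) : GL (Fin n) F) : Mt n F) :=
        Units.eq_inv_of_mul_eq_one_right ((mem_gu hF).mp y.2.1)
      refine (mem_gu hF).mpr ?_
      show ad q (((y : GL (Fin n) F) : Mt n F) * f + (1 - f)) * _ = 1
      rw [ad_add hF, ad_mul hF, (ip_sub fq h).fx rfl, h.fx rfl, k, ← (y⁻¹).2.2]
      exact (pu h.sq y).inv_val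
  · show (1 - f) * (((y : GL (Fin n) F) : Mt n F) * f + (1 - f)) = 1 - f
    rw [y.2.2, mul_add, ← mul_assoc, h3, zero_mul, zero_add, h1]
  · show (((y : GL (Fin n) F) : Mt n F) * f + (1 - f)) * (1 - f) = 1 - f
    rw [add_mul, mul_assoc, h2, mul_zero, zero_add, h1]

theorem hom [Fintype F] (fq : Fq F u q) (h : Ip u q f) : ∃ π : Cz u q f →* Gf u q f, ∀ y : Cz u q f,
    ((π y : GL (Fin n) F) : Mt n F) = ((y : GL (Fin n) F) : Mt n F) * f + (1 - f) :=
  ⟨MonoidHom.mk' (fun y => ⟨pu h.sq y, pu_mem fq h y⟩) fun _ b =>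
    Subtype.ext (Units.ext (mulp _ h.sq b.2.2).symm), fun _ => rfl⟩

theorem cz_sub {x : GL (Fin n) F} : x ∈ Cz u q (1 - f) ↔ x ∈ Cz u q f := by
  refine and_congr_right fun _ => ?_
  rw [mul_sub, sub_mul, mul_one, one_mul, sub_right_inj]

theorem gf_le : Gf u q f ≤ Cz u q f := fun _ hx =>
  cz_sub.mp ⟨hx.1, hx.2.2.trans hx.2.1.symm⟩

theorem conj_mem {x y : GL (Fin n) F} (hy : y ∈ Cz u q f) (hx : x ∈ Gf u q f) :
    y * x * y⁻¹ ∈ Gf u q f := by
  have h1 := (cz_sub.mpr hy).2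
  have h2 := (cz_sub.mpr (inv_mem hy)).2
  refine ⟨mul_mem (mul_mem hy.1 hx.1) (inv_mem hy.1), ?_, ?_⟩
  · rw [Units.val_mul, Units.val_mul, ← mul_assoc, ← mul_assoc, ← h1, mul_assoc _ (1 - f), hx.2.1, h1,
      mul_assoc, Units.mul_inv, mul_one]
  · rw [Units.val_mul, Units.val_mul, mul_assoc, h2, ← mul_assoc, mul_assoc _ _ (1 - f), hx.2.2, h1,
      mul_assoc, Units.mul_inv, mul_one]

theorem job : PT := by
  intro n F _ _ u q f fq h
  refine ⟨ip_sub fq h, hom fq h, gf_le, fun x hx => cz_sub.mp (gf_le hx), fun y hy => ?_, ?_⟩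
  · refine mem_normalizer_iff.mpr fun x => ⟨conj_mem hy, fun k => ?_⟩
    have := conj_mem (inv_mem hy) k
    rwa [show y⁻¹ * (y * x * y⁻¹) * y⁻¹⁻¹ = x by group] at this
  · obtain ⟨π, h1⟩ := hom fq h
    obtain ⟨ρ, h2⟩ := hom fq (ip_sub fq h)
    rw [← Nat.card_prod]
    refine Nat.card_le_card_of_injective
      (fun y : Cz u q f => (π y, ρ ⟨y, cz_sub.mpr y.2⟩)) fun a b e => ?_
    have e1 := congrArg (fun z => ((z.1 : GL (Fin n) F) : Mt n F)) e
    have e2 := congrArg (fun z => ((z.2 : GL (Fin n) F) : Mt n F)) e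
    simp only [h1, h2, add_left_inj] at e1 e2
    refine Subtype.ext (Units.ext ?_)
    calc ((a : GL (Fin n) F) : Mt n F)
        = ((a : GL (Fin n) F) : Mt n F) * f + ((a : GL (Fin n) F) : Mt n F) * (1 - f) := by
          rw [← mul_add, add_sub_cancel, mul_one]
      _ = _ := by rw [e1, e2, ← mul_add, add_sub_cancel, mul_one]

end H60.XaPT
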