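/- C3 tower (row S5227), slot L6a: the abstract counting argument. -/
import Cfsg.Agent.H20.C3Spec

set_option autoImplicit false
set_option linter.unusedSectionVars false

namespace H60.C3

open H20.C3 Subgroup MulAction

theorem free_dvd {G Ω : Type} [Group G] [Finite G] [Finite Ω] [MulAction G Ω] (o : Ω)
    (h1 : ∀ g : G, g • o = o) (h2 : ∀ (g : G) ω, ω ≠ o → g • ω = ω → g = 1) :
    ∃ i, Nat.card Ω = i * Nat.card G + 1 := by
  let S : SubMulAction G Ω := ⟨{ω | ω ≠ o}, fun g ω h e => h (by rw [← h1 g⁻¹, ← e, inv_smul_smul])⟩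
  have e := selfEquivOrbitsQuotientProd (G := G) (X := S) fun b =>
    eq_bot_iff.2 fun g hg => h2 g b b.2 (congrArg Subtype.val hg)
  classical
  refine ⟨Nat.card (Quotient (orbitRel G S)), ?_⟩
  rw [← Nat.card_congr (Equiv.optionSubtypeNe o), Finite.card_option, ← Nat.card_prod, ← Nat.card_congr e]
  rfl

section Abs
variable {X V : Type} [Group X] [Finite X] [AddCommGroup V] [Finite V] [DistribMulAction X V]

/-- the abstract configuration -/
structure Cf (W : AddSubgroup V) (v : F3 → F3 → X) : Prop where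
  faith : ∀ g : X, (∀ w : V, g • w = w) → g = 1
  cV : Nat.card V = 729
  cW : Nat.card W = 27
  mul : ∀ x y x' y', v x y * v x' y' = v (x + x') (y + y')
  fix : ∀ x y, ¬ (x = 0 ∧ y = 0) → ∀ w, v x y • w = w ↔ w ∈ W
  nw : ∀ g : X, (∀ w ∈ W, g • w ∈ W) → ∀ b d, ∃ b' d', g * v b d * g⁻¹ = v b' d'

/-- the stabilizer of `W` -/
def St (X : Type) [Group X] [DistribMulAction X V] (W : AddSubgroup V) : Subgroup X where
  carrier := {g | ∀ w, g • w ∈ W ↔ w ∈ W}
  one_mem' w := by rw [one_smul]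
  mul_mem' {a b} ha hb w := by rw [mul_smul, ha, hb]
  inv_mem' {a} ha w := by rw [← ha, smul_inv_smul]

/-- the elements of `W` that `y` keeps in `W` -/
def Cy (W : AddSubgroup V) (y : X) : AddSubgroup V := W ⊓ W.comap (DistribSMul.toAddMonoidHom V y)

theorem mem_Cy {W : AddSubgroup V} {y : X} {w : V} : w ∈ Cy W y ↔ w ∈ W ∧ y • w ∈ W := Iff.rfl

variable {W : AddSubgroup V} {v : F3 → F3 → X}

theorem Cf.zero (c : Cf W v) : v 0 0 = 1 := by simpa using c.mul 0 0 0 0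

theorem Cf.fx (c : Cf W v) (x y : F3) {w : V} (h : w ∈ W) : v x y • w = w := by
  by_cases e : x = 0 ∧ y = 0
  · rw [e.1, e.2, c.zero, one_smul]
  · exact (c.fix x y e w).2 h

theorem Cf.eq_one (c : Cf W v) {x y : F3} (h : v x y = 1) : x = 0 ∧ y = 0 := by
  by_contra e
  have : W = ⊤ := eq_top_iff.2 fun w _ => (c.fix x y e w).1 (by rw [h, one_smul])
  have h2 := c.cW
  rw [this, AddSubgroup.card_top, c.cV] at h2
  omega

/-- the parametrization as a homomorphism -/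
def Cf.φ (c : Cf W v) : Multiplicative (F3 × F3) →* X :=
  MonoidHom.mk' (fun p => v p.toAdd.1 p.toAdd.2) fun _ _ => (c.mul _ _ _ _).symm

theorem Cf.inj (c : Cf W v) : Function.Injective c.φ :=
  (injective_iff_map_eq_one _).2 fun _ h => Multiplicative.toAdd.injective (Prod.ext (c.eq_one h).1 (c.eq_one h).2)

theorem card_M : Nat.card (Multiplicative (F3 × F3)) = 9 := by simp

theorem Cf.cube (c : Cf W v) (x y : F3) : v x y ^ 3 = 1 := by
  have h : ∀ x : F3, x + x + x = 0 := by decide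
  rw [pow_three', c.mul, c.mul, h, h, c.zero]

theorem Cf.memV (c : Cf W v) {w0 : V} (h0 : w0 ∈ W) (h27 : ¬ 27 ∣ Nat.card (stabilizer X w0)) {t : X}
    (h1 : t • w0 = w0) (h3 : t ^ 3 = 1) (hW : ∀ w ∈ W, t • w ∈ W) : ∃ b d, t = v b d := by
  have : Fact (Nat.Prime 3) := ⟨Nat.prime_three⟩
  have c9 : Nat.card c.φ.range = 3 ^ 2 := by
    rw [← Nat.card_congr (MonoidHom.ofInjective c.inj).toEquiv, card_M]; rfl
  have hP : IsPGroup 3 ↥(c.φ.range ⊔ zpowers t) := by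
    refine IsPGroup.to_sup_of_normal_left' (.of_card c9) ?_ ((zpowers_le).2 (mem_normalizer_fintype ?_))
    · exact fun ⟨_, k, rfl⟩ => ⟨1, Subtype.ext (by
        show (t ^ k) ^ 3 ^ 1 = 1
        rw [pow_one, ← zpow_natCast, ← zpow_mul, mul_comm, zpow_mul, zpow_natCast, h3, one_zpow])⟩
    · rintro _ ⟨p, rfl⟩
      obtain ⟨b, d, e⟩ := c.nw t hW p.toAdd.1 p.toAdd.2
      exact ⟨.ofAdd (b, d), e.symm⟩
  obtain ⟨n, hn⟩ := hP.exists_card_eq
  have hle : c.φ.range ⊔ zpowers t ≤ stabilizer X w0 :=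
    sup_le (by rintro _ ⟨p, rfl⟩; exact c.fx _ _ h0) (zpowers_le.2 h1)
  have hn2 : n ≤ 2 := by
    by_contra h
    exact h27 (((pow_dvd_pow 3 (by omega : 3 ≤ n)).trans hn.symm.dvd).trans (card_dvd_of_le hle))
  have e := eq_of_le_of_card_ge (le_sup_left : c.φ.range ≤ c.φ.range ⊔ zpowers t)
    (by rw [hn, c9]; exact Nat.pow_le_pow_right (by omega) hn2)
  obtain ⟨p, hp⟩ : t ∈ c.φ.range := e ▸ mem_sup_right (mem_zpowers t)
  exact ⟨_, _, hp.symm⟩

theorem Cf.memSt (c : Cf W v) {w0 : V} (h0 : w0 ∈ W) (h27 : ¬ 27 ∣ Nat.card (stabilizer X w0)) {g : X}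
    {x y : F3} (hxy : ¬ (x = 0 ∧ y = 0)) (h1 : (g⁻¹ * v x y * g) • w0 = w0) (hW : g⁻¹ * v x y * g ∈ St X W) :
    g ∈ St X W := by
  obtain ⟨b, d, e⟩ := c.memV h0 h27 h1 (by
    have := conj_pow (a := g⁻¹) (b := v x y) (i := 3)
    rwa [inv_inv, c.cube, mul_one, inv_mul_cancel] at this) fun w hw => (hW w).2 hw
  have hbd : ¬ (b = 0 ∧ d = 0) := fun h => hxy (c.eq_one (by
    rw [h.1, h.2, c.zero, mul_assoc, inv_mul_eq_one] at e
    exact mul_eq_right.1 e.symm))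
  intro w
  rw [← c.fix x y hxy, ← c.fix b d hbd, ← e, mul_smul, mul_smul, inv_smul_eq_iff]

theorem Cf.no_prime (c : Cf W v) {w0 : V} (hne : w0 ≠ 0) {x : X} (hx : x • w0 = w0) {r : ℕ}
    (hr : r = 7 ∨ r = 19 ∨ r = 37) (ho : orderOf x = r) : False := by
  have : Fact r.Prime := ⟨by rcases hr with rfl | rfl | rfl <;> norm_num⟩
  have hP : IsPGroup r (zpowers x) := .of_card (n := 1) (by rw [Nat.card_zpowers, ho, pow_one])
  have h1 := hP.card_modEq_card_fixedPoints V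
  let F := FixedPoints.addSubgroup (zpowers x) V
  have h2 : Nat.card F ∣ 3 ^ 6 := (AddSubgroup.card_addSubgroup_dvd_card F).trans c.cV.dvd
  obtain ⟨m, hm, e⟩ := (Nat.dvd_prime_pow Nat.prime_three).1 h2
  have e' : Nat.card (fixedPoints (zpowers x) V) = 3 ^ m := e
  have h3 : m ≠ 0 := by
    rintro rfl
    have : w0 ∈ F := fun g => (zpowers_le.2 (show x ∈ stabilizer X w0 from hx)) g.2
    rw [AddSubgroup.card_eq_one.1 e] at this
    exact hne this
  have h4 : m ≠ 6 := by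
    rintro rfl
    have hF : F = ⊤ := AddSubgroup.eq_top_of_card_eq _ (e.trans c.cV.symm)
    have : x = 1 := c.faith x fun w => (hF ▸ AddSubgroup.mem_top w : w ∈ F) ⟨x, mem_zpowers x⟩
    rw [this, orderOf_one] at ho
    omega
  rw [e', c.cV] at h1
  have h5 : m < 6 := by omega
  rcases hr with rfl | rfl | rfl <;> interval_cases m <;> revert h1 h3 <;> decide

theorem Cf.abs (pg : JobPG) (c : Cf W v) {w0 : V} (hne : w0 ≠ 0)
    (h27 : ¬ 27 ∣ Nat.card (stabilizer X w0)) (hy : ∃ y : X, w0 ∈ Cy W y ∧ y ∉ St X W)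
    (no : ∀ g b d, g * v 0 1 * g⁻¹ = v b d → b = 0) : False := by
  classical
  obtain ⟨y, ⟨h0, hy1⟩, hmax⟩ := Set.exists_max_image {y : X | w0 ∈ Cy W y ∧ y ∉ St X W}
    (fun y => Nat.card (Cy W y)) (Set.toFinite _) hy
  let K := fixingSubgroup X (Cy W y : Set V)
  have hK : ∀ k : K, ∀ w ∈ Cy W y, (k : X) • w = w := fun k => (mem_fixingSubgroup_iff X).1 k.2
  have hK27 : ¬ 27 ∣ Nat.card K := fun h =>
    h27 (h.trans (card_dvd_of_le fun k hk => hK ⟨k, hk⟩ w0 h0))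
  let u : F3 → F3 → K := fun a b => ⟨v a b, (mem_fixingSubgroup_iff X).2 fun w hw => c.fx a b hw.1⟩
  let N := (St X W).subgroupOf K
  have hst : ∀ g : K, g • ((1 : K) : K ⧸ N) = (1 : K) ↔ (g : X) ∈ St X W := fun g => by
    rw [Quotient.smul_coe, eq_comm, QuotientGroup.eq, inv_one, one_mul, smul_eq_mul, mul_one, mem_subgroupOf]
  have hfix : ∀ a b, u a b • ((1 : K) : K ⧸ N) = (1 : K) := fun a b => (hst _).2 fun w =>
    ⟨fun h => by
      have := c.fx (-a) (-b) h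
      rw [← mul_smul, c.mul, neg_add_cancel, neg_add_cancel, c.zero, one_smul] at this
      rwa [this], fun h => by rwa [c.fx a b h]⟩
  have hfree : ∀ a b (ω : K ⧸ N), ω ≠ (1 : K) → u a b • ω = ω → a = 0 ∧ b = 0 := by
    intro a b ω h1 h2
    induction ω using QuotientGroup.induction_on with | H k => ?_
    by_contra e
    rw [Quotient.smul_coe, eq_comm, QuotientGroup.eq, smul_eq_mul, ← mul_assoc] at h2
    refine h1 (QuotientGroup.eq.2 ?_).symm
    rw [inv_one, one_mul]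
    exact c.memSt h0.1 h27 e (hK (k⁻¹ * u a b * k) w0 h0) h2
  have hmov : ∃ g : K, g • ((1 : K) : K ⧸ N) ≠ (1 : K) := by
    have ht : ∀ w ∈ Cy W y, (y⁻¹ * v 1 0 * y) • w = w := fun w hw => by
      rw [mul_smul, mul_smul, c.fx 1 0 (mem_Cy.1 hw).2, inv_smul_smul]
    exact ⟨⟨_, (mem_fixingSubgroup_iff X).2 ht⟩, fun h =>
      hy1 (c.memSt h0.1 h27 (by decide) (ht w0 h0) ((hst _).1 h))⟩
  have hC : Nat.card (Cy W y) ≤ 9 := by
    obtain ⟨m, hm, e⟩ := (Nat.dvd_prime_pow Nat.prime_three (m := 3)).1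
      ((AddSubgroup.card_dvd_of_le (inf_le_left : Cy W y ≤ W)).trans c.cW.dvd)
    have h3 : m ≠ 3 := by
      rintro rfl
      have e1 := AddSubgroup.eq_of_le_of_card_ge (inf_le_left : Cy W y ≤ W) (by rw [c.cW]; exact e.ge)
      have e2 : ∀ w ∈ W, y • w ∈ W := fun w hw => (e1.ge hw).2
      refine hy1 fun w => ⟨fun h => ?_, e2 w⟩
      obtain ⟨w', hw'⟩ := Finite.injective_iff_surjective.1 (show Function.Injective
        fun a : W => (⟨y • a.1, e2 _ a.2⟩ : W) from fun a b h => Subtype.ext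
          (MulAction.injective y (congrArg Subtype.val h))) ⟨_, h⟩
      exact MulAction.injective y (congrArg Subtype.val hw') ▸ w'.2
    exact e.trans_le (Nat.pow_le_pow_right (n := 3) (by omega) (by omega : m ≤ 2))
  have hcnt : Nat.card (K ⧸ N) * ((W : Set V) \ Cy W y).ncard ≤ 729 := by
    rw [← c.cV, ← Nat.card_coe_set_eq, ← Nat.card_prod]
    refine Nat.card_le_card_of_injective (fun p => (p.1.out : X) • p.2.1) ?_
    rintro ⟨ω, a, ha⟩ ⟨ω', a', ha'⟩ e
    have e1 : ((ω'.out⁻¹ * ω.out : K) : X) • a = a' := by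
      rw [coe_mul, coe_inv, mul_smul, inv_smul_eq_iff]; exact e
    have e2 : ω' = ω := by
      by_contra h
      have h1 : ((ω'.out⁻¹ * ω.out : K) : X) ∉ St X W := fun k => h (by
        rw [← ω.out_eq', ← ω'.out_eq']; exact QuotientGroup.eq.2 k)
      have h2 : Cy W y ≤ Cy W ((ω'.out⁻¹ * ω.out : K) : X) := fun w hw =>
        mem_Cy.2 ⟨hw.1, by rw [hK _ w hw]; exact hw.1⟩
      exact ha.2 ((AddSubgroup.eq_of_le_of_card_ge h2 (hmax _ ⟨h2 h0, h1⟩)).ge (mem_Cy.2 ⟨ha.1, e1 ▸ ha'.1⟩))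
    subst e2
    rw [inv_mul_cancel, coe_one, one_smul] at e1
    subst e1
    rfl
  have hdiff : 18 ≤ ((W : Set V) \ Cy W y).ncard := by
    rw [Set.ncard_sdiff (fun w hw => hw.1), ← Nat.card_coe_set_eq, ← Nat.card_coe_set_eq]
    have := c.cW
    simp only [SetLike.coe_sort_coe]
    omega
  obtain ⟨i, hi⟩ : ∃ i, Nat.card (K ⧸ N) = i * 9 + 1 := by
    let := MulAction.compHom (K ⧸ N) (c.φ.codRestrict K fun p => (u _ _).2)
    rw [← card_M]
    exact free_dvd (G := Multiplicative (F3 × F3)) ((1 : K) : K ⧸ N) (fun p => hfix _ _) fun p ω h1 h2 =>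
      Multiplicative.toAdd.injective (Prod.ext (hfree _ _ ω h1 h2).1 (hfree _ _ ω h1 h2).2)
  have hpr : ∀ r, r = 7 ∨ r = 19 ∨ r = 37 → ¬ r ∣ Nat.card (K ⧸ N) := fun r hr h => by
    have : Fact r.Prime := ⟨by rcases hr with rfl | rfl | rfl <;> norm_num⟩
    obtain ⟨x, hx⟩ := exists_prime_orderOf_dvd_card' r (h.trans N.index_dvd_card)
    exact c.no_prime hne (hK x w0 h0) hr ((orderOf_coe x).trans hx)
  have h10 : Nat.card (K ⧸ N) = 10 := by
    obtain ⟨g, hg⟩ := hmov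
    have : Nontrivial (K ⧸ N) := ⟨_, _, hg⟩
    have h1 := Finite.one_lt_card (α := K ⧸ N)
    have h2 := (Nat.mul_le_mul_left (Nat.card (K ⧸ N)) hdiff).trans hcnt
    have h7 := hpr 7 (by simp)
    have h19 := hpr 19 (by simp)
    have h37 := hpr 37 (by simp)
    rw [hi] at h1 h2 h7 h19 h37 ⊢
    have h5 : i < 5 := by omega
    interval_cases i <;> omega
  refine pg K (K ⧸ N) (1 : K) u h10 (fun a b a' b' => Subtype.ext (c.mul a b a' b')) hfix hfree hmov hK27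
    fun g hg => ?_
  obtain ⟨a, b, e⟩ := c.nw g (fun w => ((hst g).1 hg w).2) 1 0
  obtain ⟨a', t, e'⟩ := c.nw g (fun w => ((hst g).1 hg w).2) 0 1
  obtain rfl := no _ _ _ e'
  exact ⟨a, b, t, Subtype.ext e, Subtype.ext e'⟩

end Abs

section Con
open Matrix
variable {X : Type} [Group X] [Finite X] {ρ : X →* Matrix (Fin 6) (Fin 6) F3} {j : F3 → F3 → F3 → X}
  {H : Subgroup X}

/-- the action on vectors -/
@[reducible] def act (ρ : X →* Matrix (Fin 6) (Fin 6) F3) : DistribMulAction X (Fin 6 → F3) where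
  smul g w := ρ g *ᵥ w
  one_smul w := by show ρ 1 *ᵥ w = w; rw [map_one, one_mulVec]
  mul_smul a b w := by show ρ (a * b) *ᵥ w = ρ a *ᵥ ρ b *ᵥ w; rw [map_mul, mulVec_mulVec]
  smul_zero g := mulVec_zero _
  smul_add g := mulVec_add _

/-- the subspace `W` -/
def W6 : AddSubgroup (Fin 6 → F3) where
  carrier := {w | w 0 = 0 ∧ w 1 = 0 ∧ w 2 = 0}
  zero_mem' := ⟨rfl, rfl, rfl⟩
  add_mem' {a b} ha hb := by simp [ha.1, ha.2.1, ha.2.2, hb.1, hb.2.1, hb.2.2]
  neg_mem' {a} ha := by simp [ha.1, ha.2.1, ha.2.2]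

theorem card_W6 : Nat.card W6 = 27 := by
  have e : W6 ≃ F3 × F3 × F3 :=
    { toFun w := (w.1 3, w.1 4, w.1 5)
      invFun p := ⟨![0, 0, 0, p.1, p.2.1, p.2.2], rfl, rfl, rfl⟩
      left_inv w := Subtype.ext (funext fun i => by
        fin_cases i
        exacts [w.2.1.symm, w.2.2.1.symm, w.2.2.2.symm, rfl, rfl, rfl])
      right_inv _ := rfl }
  simp [Nat.card_congr e]

theorem uM_mul (a b d A B D : F3) : uM a b d * uM A B D = uM (a + A) (b + B) (d + D + a * B) := by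
  ext i k
  fin_cases i <;> fin_cases k <;> simp [uM, Matrix.mul_apply, Fin.sum_univ_succ] <;> ring

theorem uM_zero : uM 0 0 0 = 1 := by decide +kernel

theorem uM_inj {a b d A B D : F3} (h : uM a b d = uM A B D) : a = A ∧ b = B ∧ d = D :=
  ⟨congrFun (congrFun h 2) 1, congrFun (congrFun h 1) 0, congrFun (congrFun h 2) 0⟩

theorem fix_V (x y : F3) (h : ¬ (x = 0 ∧ y = 0)) (w : Fin 6 → F3) : uM 0 x y *ᵥ w = w ↔ w ∈ W6 := by
  show _ ↔ w 0 = 0 ∧ w 1 = 0 ∧ w 2 = 0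
  simp only [funext_iff, Fin.forall_fin_succ]
  simp [uM, mulVec, dotProduct, Fin.sum_univ_succ, ← add_assoc]
  generalize w 0 = p, w 1 = q, w 2 = r
  revert x y p q r
  decide +kernel

theorem fix_U (w : Fin 6 → F3) (h : ∀ a b d, uM a b d *ᵥ w = w) (h0 : w ≠ 0) : w = vz ∨ w = -vz := by
  obtain ⟨h1, h2, h3⟩ := (fix_V 1 0 (by decide) w).1 (h 0 1 0)
  have h4 := congrFun (h 1 0 0) 4
  have h5 := congrFun (h 1 0 0) 5
  simp [uM, mulVec, dotProduct, Fin.sum_univ_succ, ← add_assoc] at h4 h5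
  simp only [ne_eq, funext_iff, Fin.forall_fin_succ] at h0 ⊢
  simp [vz, h1, h2, h3] at h0 ⊢
  simp only [h4, true_and, true_implies, zero_add] at h0 h5 ⊢
  revert h0 h5
  generalize w 4 = q, w 5 = r
  revert q r
  decide

theorem jmul (s : SEm uM ρ j H) (a b d A B D : F3) : j a b d * j A B D = j (a + A) (b + B) (d + D + a * B) :=
  s.inj (by rw [map_mul, s.rj, s.rj, s.rj, uM_mul])

theorem jzero (s : SEm uM ρ j H) : j 0 0 0 = 1 := s.inj (by rw [s.rj, uM_zero, map_one])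

theorem jinv (s : SEm uM ρ j H) (a b d : F3) : (j a b d)⁻¹ = j (-a) (-b) (a * b - d) :=
  inv_eq_of_mul_eq_one_right (by rw [jmul s, ← jzero s]; congr 1 <;> ring)

/-- the Sylow subgroup -/
def sU (s : SEm uM ρ j H) : Subgroup X where
  carrier := Set.range fun p : F3 × F3 × F3 => j p.1 p.2.1 p.2.2
  one_mem' := ⟨0, jzero s⟩
  mul_mem' := by rintro _ _ ⟨p, rfl⟩ ⟨q, rfl⟩; exact ⟨(_, _, _), (jmul s _ _ _ _ _ _).symm⟩
  inv_mem' := by rintro _ ⟨p, rfl⟩; exact ⟨(_, _, _), (jinv s _ _ _).symm⟩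

theorem card_sU (s : SEm uM ρ j H) : Nat.card (sU s) = 3 ^ 3 := by
  have := Nat.card_range_of_injective (f := fun p : F3 × F3 × F3 => j p.1 p.2.1 p.2.2) fun p q h => by
    obtain ⟨h1, h2, h3⟩ := uM_inj (((s.rj _ _ _).symm.trans (congrArg ρ h)).trans (s.rj _ _ _))
    exact Prod.ext h1 (Prod.ext h2 h3)
  exact this.trans (by simp)

theorem conj27 (s : SEm uM ρ j H) (P : Subgroup X) (hP : Nat.card P = 3 ^ 3) :
    ∃ h : X, ∀ a b d, h * j a b d * h⁻¹ ∈ P := by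
  have : Fact (Nat.Prime 3) := ⟨Nat.prime_three⟩
  have k : ∀ Q : Subgroup X, Nat.card Q = 3 ^ 3 → ¬ 3 ∣ Q.index := fun Q e h =>
    s.syl (by rw [← Q.card_mul_index, e]; exact mul_dvd_mul_left (3 ^ 3) h)
  obtain ⟨h, e⟩ := MulAction.exists_smul_eq X ((IsPGroup.of_card (card_sU s)).toSylow (k _ (card_sU s)))
    ((IsPGroup.of_card hP).toSylow (k _ hP))
  refine ⟨h, fun a b d => ?_⟩
  have e' := congrArg (fun Q : Sylow 3 X => (Q : Subgroup X)) e
  simp only [Sylow.coe_subgroup_smul, IsPGroup.toSylow_coe] at e'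
  rw [← e']
  exact smul_mem_pointwise_smul _ (MulAut.conj h) _ (show j a b d ∈ sU s from ⟨(a, b, d), rfl⟩)

theorem jobL6a : JobL6a := by
  intro pg nw X _ _ ρ j H s hz
  by_contra no
  let := act ρ
  have hs : ∀ (g : X) (w : Fin 6 → F3), g • w = ρ g *ᵥ w := fun _ _ => rfl
  have c : Cf W6 (j 0) :=
    { faith g h := s.inj (by
        rw [map_one]
        exact Matrix.toLin'.injective (LinearMap.ext fun w => by simpa [hs] using h w))
      cV := by simp
      cW := card_W6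
      mul x y x' y' := by simp [jmul s]
      fix x y h w := by rw [hs, s.rj, fix_V x y h]
      nw g h := nw X ρ j H s g fun w h1 h2 h3 => h w ⟨h1, h2, h3⟩ }
  have ti : ∀ g ∉ H, ∀ a b d, g⁻¹ * j a b d * g ∈ H → a = 0 ∧ b = 0 ∧ d = 0 := fun g hg a b d h =>
    s.ti g⁻¹ (by rwa [inv_mem_iff]) a b d (by rwa [inv_inv])
  obtain ⟨y, hy, w0, h0, hne⟩ : ∃ y ∉ H, ∃ w0 ∈ Cy W6 y, w0 ≠ 0 := by
    by_contra hn
    push Not at hn
    obtain ⟨g, hg⟩ : ∃ g, g ∉ H := by
      by_contra h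
      push Not at h
      exact s.ne (eq_top_iff.2 fun g _ => h g)
    let c0 : Fin 6 → F3 := ![1, 0, 0, 0, 0, 0]
    let f : sU s × ↥((W6 : Set (Fin 6 → F3)) \ {0}) → Fin 6 → F3 := fun p => (p.1 : X) • g • p.2.1
    have hf : Function.Injective f := by
      rintro ⟨u, a, ha⟩ ⟨u', a', ha'⟩ e
      have e1 : (g⁻¹ * ((u'⁻¹ * u : sU s) : X) * g) • a = a' := by
        rw [coe_mul, coe_inv, mul_smul, mul_smul, mul_smul, inv_smul_eq_iff, inv_smul_eq_iff]; exact e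
      obtain ⟨p, hp⟩ := (u'⁻¹ * u).2
      have e2 : u'⁻¹ * u = 1 := by
        by_contra h
        refine ha.2 (hn _ (fun k => h (Subtype.ext ?_)) a (mem_Cy.2 ⟨ha.1, e1 ▸ ha'.1⟩))
        obtain ⟨h1, h2, h3⟩ := ti g hg _ _ _ (by rw [← hp] at k; exact k)
        rw [← hp]
        simp only [h1, h2, h3, jzero s, coe_one]
      rw [e2, coe_one, mul_one, inv_mul_cancel, one_smul] at e1
      obtain rfl := inv_mul_eq_one.1 e2
      subst e1
      rfl
    have hr : Set.range f ⊆ (insert c0 (W6 : Set (Fin 6 → F3)))ᶜ := by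
      rintro _ ⟨⟨u, a, ha⟩, rfl⟩ (h | h)
      · have e : f (⟨j 1 0 0, ⟨(1, 0, 0), rfl⟩⟩ * u, ⟨a, ha⟩) = f (u, ⟨a, ha⟩) := by
          show (j 1 0 0 * (u : X)) • g • a = _
          rw [mul_smul, h]
          refine (congrArg _ h).trans ?_
          rw [hs, s.rj]
          decide +kernel
        have e2 := congrArg ρ (congrArg Subtype.val (mul_eq_right.1 (congrArg Prod.fst (hf e))))
        rw [coe_one, map_one, s.rj, ← uM_zero] at e2
        exact absurd (uM_inj e2).1 (by decide)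
      · obtain ⟨p, hp⟩ := u.2
        refine ha.2 (hn (u * g) (fun k => hg ?_) a (mem_Cy.2 ⟨ha.1, by rw [mul_smul]; exact h⟩))
        exact (H.mul_mem_cancel_left (hp ▸ s.le _ _ _)).1 k
    have h1 := Set.ncard_le_ncard hr
    have h2 := Set.ncard_add_ncard_compl (insert c0 (W6 : Set (Fin 6 → F3)))
    have h3 : (W6 : Set (Fin 6 → F3)).ncard = 27 := card_W6
    rw [Set.ncard_insert_of_notMem (fun h => absurd h.1 (by decide)), h3, c.cV] at h2
    rw [← Nat.card_coe_set_eq, Nat.card_range_of_injective hf, Nat.card_prod, card_sU, Nat.card_coe_set_eq,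
      Set.ncard_sdiff_singleton_of_mem W6.zero_mem, h3] at h1
    omega
  have ht : (y⁻¹ * j 0 1 0 * y) • w0 = w0 := by rw [mul_smul, mul_smul, c.fx 1 0 (mem_Cy.1 h0).2, inv_smul_smul]
  refine c.abs pg hne (fun h => ?_) ⟨y, h0, fun h => ?_⟩ fun g b d e => by_contra fun k => no ⟨g, b, d, k, e⟩
  · have : Fact (Nat.Prime 3) := ⟨Nat.prime_three⟩
    obtain ⟨P, hP⟩ := Sylow.exists_subgroup_card_pow_prime 3 (n := 3) h
    obtain ⟨h, hh⟩ := conj27 s (P.map (stabilizer X w0).subtype) (by rw [card_subtype, hP])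
    have h1 : ∀ a b d, uM a b d *ᵥ (h⁻¹ • w0) = h⁻¹ • w0 := fun a b d => by
      obtain ⟨x, -, e⟩ := hh a b d
      have e2 : (h * j a b d * h⁻¹) • w0 = w0 := e ▸ x.2
      rw [← s.rj, ← hs, eq_inv_smul_iff, ← mul_smul, ← mul_smul, e2]
    have h2 : ∀ k : X, k • w0 = w0 → h⁻¹ * k * h ∈ H := fun k hk => hz _ (Or.inl (by
      have e : (h⁻¹ * k * h) • h⁻¹ • w0 = h⁻¹ • w0 := by rw [mul_smul, smul_inv_smul, mul_smul, hk]
      rcases fix_U _ h1 (fun e0 => hne (by rw [← smul_inv_smul h w0, e0, smul_zero])) with e1 | e1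
      · rwa [e1] at e
      · rwa [e1, smul_neg, neg_inj] at e))
    have h3 : h ∈ H := by_contra fun k => absurd (ti h k 0 1 0 (h2 _ (c.fx 1 0 h0.1))).2.1 one_ne_zero
    have h4 := H.mul_mem (H.mul_mem h3 (h2 _ ht)) (H.inv_mem h3)
    exact absurd (ti y hy 0 1 0 (by simpa [mul_assoc] using h4)).2.1 one_ne_zero
  · obtain ⟨b, d, e⟩ := c.nw y (fun w => (h w).2) 1 0
    exact absurd (s.ti y hy 0 1 0 (e ▸ s.le _ _ _)).2.1 (by decide)

end Con

end H60.C3
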