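import Cfsg.Agent.H48.DP1Spec

/-! S3275, chapter (1), slot UA. -/

set_option autoImplicit false
set_option linter.unusedSectionVars false

namespace H60.DUA

open Subgroup H98 H48.DP
open scoped commutatorElement

universe u

variable {G : Type u} [Group G] [Finite G]

theorem no_closure {S : Set G} {g : G} (h : ∀ k ∈ S, g * k * g⁻¹ ∈ closure S) :
    g ∈ No (closure S) :=
  mem_normalizer_of_cj_le (cj_le_iff.2 ((closure_le _).2 fun k hk => mem_cj.2 (by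
    simpa using h k hk)))

theorem comm_closure {S : Set G} {g k : G} (h : ∀ k ∈ S, Commute g k) (hk : k ∈ closure S) :
    Commute g k := by
  induction hk using closure_induction with
  | mem _ h' => exact h _ h'
  | one => exact Commute.one_right g
  | mul _ _ _ _ h1 h2 => exact h1.mul_right h2
  | inv _ _ h1 => exact h1.inv_right

theorem mem_pair {a b h : G} (ab : Commute a b) (hh : h ∈ closure ({a, b} : Set G)) :
    ∃ i j : ℤ, h = a ^ i * b ^ j := by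
  induction hh using closure_induction with
  | mem _ h' => rcases h' with rfl | rfl; exacts [⟨1, 0, by simp⟩, ⟨0, 1, by simp⟩]
  | one => exact ⟨0, 0, by simp⟩
  | mul _ _ _ _ h1 h2 =>
    obtain ⟨i, j, rfl⟩ := h1
    obtain ⟨k, l, rfl⟩ := h2
    exact ⟨i + k, j + l, by
      rw [zpow_add, zpow_add, (ab.zpow_zpow k j).symm.mul_mul_mul_comm]⟩
  | inv _ _ h1 =>
    obtain ⟨i, j, rfl⟩ := h1
    exact ⟨-i, -j, by rw [mul_inv_rev, zpow_neg, zpow_neg, (ab.zpow_zpow i j).inv_inv.eq]⟩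

theorem zp2 {c : G} (h : c * c = 1) (i : ℤ) : c ^ i = 1 ∨ c ^ i = c := by
  have h2 : c ^ (2 : ℤ) = 1 := by rw [zpow_two, h]
  obtain ⟨k, rfl | rfl⟩ := Int.even_or_odd' i
  · left; rw [zpow_mul, h2, one_zpow]
  · right; rw [zpow_add, zpow_mul, h2, one_zpow, one_mul, zpow_one]

/-- the norm for `⟨x⟩` -/
def Nm (x q : G) : G := q * (x * q * x⁻¹) * (x * (x * q * x⁻¹) * x⁻¹)

variable {L : Subgroup G} {a b s x y t : G} (U : UQ L a b s x y t t)
include U

theorem ab : Commute a b := U.ab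
theorem aa : a ^ 2 * a ^ 2 = 1 := by rw [← pow_add, U.a4]
theorem bb : b ^ 2 * b ^ 2 = 1 := by rw [← pow_add, U.b4]
theorem tt : t * t = 1 := by rw [← pow_two, ← U.t2, pow_orderOf_eq_one]
theorem tL {l : G} (h : l ∈ L) : Commute l t := U.rc l h
theorem aH : a ∈ Hs a b := subset_closure (by simp)
theorem bH : b ∈ Hs a b := subset_closure (by simp)
theorem aV : a ^ 2 ∈ V0 a b := subset_closure (by simp)
theorem bV : b ^ 2 ∈ V0 a b := subset_closure (by simp)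
theorem HL : Hs a b ≤ L := (closure_le _).2 (by rintro _ (rfl | rfl); exacts [U.aL, U.bL])
theorem VH : V0 a b ≤ Hs a b :=
  (closure_le _).2 (by rintro _ (rfl | rfl); exacts [pow_mem (aH U) 2, pow_mem (bH U) 2])
theorem tH : t ∉ Hs a b := fun h => U.nz 1 (by simpa using HL U h)
theorem sb : s * b * s⁻¹ = a := by
  rw [← U.sa, show s * (s * a * s⁻¹) * s⁻¹ = s * s * a * (s * s)⁻¹ by group, U.s2]; simp
theorem xa2 : x * a ^ 2 * x⁻¹ = b ^ 2 := by rw [← conj_pow, U.xa]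
theorem xb2 : x * b ^ 2 * x⁻¹ = a ^ 2 * b ^ 2 := by
  rw [← conj_pow, U.xb, inv_pow, (ab U).mul_pow, inv_eq_iff_mul_eq_one,
    ((ab U).pow_pow 2 2).symm.mul_mul_mul_comm, aa U, bb U, one_mul]
theorem xz : x * (a ^ 2 * b ^ 2) * x⁻¹ = a ^ 2 := by
  rw [← conj_mul, xa2 U, xb2 U, ← mul_assoc, ← ((ab U).pow_pow 2 2).eq, mul_assoc, bb U, mul_one]
theorem sa2 : s * a ^ 2 * s⁻¹ = b ^ 2 := by rw [← conj_pow, U.sa]
theorem sb2 : s * b ^ 2 * s⁻¹ = a ^ 2 := by rw [← conj_pow, sb U]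
theorem xH : x ∈ No (Hs a b) := no_closure (by
  rintro _ (rfl | rfl)
  · rw [U.xa]; exact bH U
  · rw [U.xb]; exact inv_mem (mul_mem (aH U) (bH U)))
theorem sH : s ∈ No (Hs a b) := no_closure (by
  rintro _ (rfl | rfl)
  · rw [U.sa]; exact bH U
  · rw [sb U]; exact aH U)
theorem xV : x ∈ No (V0 a b) := no_closure (by
  rintro _ (rfl | rfl)
  · rw [xa2 U]; exact bV U
  · rw [xb2 U]; exact mul_mem (aV U) (bV U))
theorem sV : s ∈ No (V0 a b) := no_closure (by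
  rintro _ (rfl | rfl)
  · rw [sa2 U]; exact bV U
  · rw [sb2 U]; exact aV U)
theorem VE : V0 a b ≤ Es a b t := closure_mono (Set.subset_insert _ _)
theorem ct {g : G} (h : g ∈ L) : g * t * g⁻¹ = t := by rw [(tL U h).eq, mul_inv_cancel_right]

theorem noQ {g : G} (h : g ∈ L) (h' : g ∈ No (V0 a b)) : g ∈ No (Qs a b t) := by
  have : g ∈ No (Es a b t) := no_closure (by
    rintro _ (rfl | h1)
    · rw [ct U h]; exact subset_closure (by simp)
    · exact VE U (conj_mem_of_mem_normalizer h' (subset_closure h1)))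
  exact le_normalizer_inf ((zpowers_le.2 this).trans (normalizer_le_normalizer_normalizer _))
    (le_normalizer_centralizer (zpowers_le.2 h')) (mem_zpowers g)

theorem xQ {q : G} (h : q ∈ Qs a b t) : x * q * x⁻¹ ∈ Qs a b t :=
  conj_mem_of_mem_normalizer (noQ U U.xL (xV U)) h
theorem sQ {q : G} (h : q ∈ Qs a b t) : s * q * s⁻¹ ∈ Qs a b t :=
  conj_mem_of_mem_normalizer (noQ U U.sL (sV U)) h

theorem YQ : Ys a b t ≤ Qs a b t := by
  rw [← U.cE]
  exact le_inf (le_normalizer_of_le_centralizer le_rfl) (centralizer_anti (VE U))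
theorem HQ : Hs a b ≤ Qs a b t := (Subgroup.closure_mono (by
  rintro _ (rfl | rfl) <;> simp)).trans (YQ U)
theorem tQ : t ∈ Qs a b t := YQ U (subset_closure (by simp))

theorem memV {v : G} (h : v ∈ V0 a b) : v = 1 ∨ v = a ^ 2 ∨ v = b ^ 2 ∨ v = a ^ 2 * b ^ 2 := by
  obtain ⟨i, j, rfl⟩ := mem_pair ((ab U).pow_pow 2 2) h
  rcases zp2 (aa U) i with h1 | h1 <;> rcases zp2 (bb U) j with h2 | h2 <;> simp [h1, h2]

theorem invH {h : G} (hh : h ∈ Hs a b) (h2 : h * h = 1) : h ∈ V0 a b := by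
  obtain ⟨i, j, rfl⟩ := mem_pair (ab U) hh
  rw [((ab U).zpow_zpow i j).symm.mul_mul_mul_comm, ← zpow_add, ← zpow_add] at h2
  obtain ⟨h3, h4⟩ := U.ind _ _ h2
  obtain ⟨k, rfl⟩ : 2 ∣ i := by omega
  obtain ⟨l, rfl⟩ : 2 ∣ j := by omega
  rw [zpow_mul, zpow_mul, zpow_ofNat, zpow_ofNat]
  exact mul_mem (zpow_mem (aV U) k) (zpow_mem (bV U) l)

theorem fixH {h : G} (hh : h ∈ Hs a b) (h2 : x * h * x⁻¹ = h) : h = 1 := by
  obtain ⟨i, j, rfl⟩ := mem_pair (ab U) hh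
  rw [← conj_mul, ← conj_zpow, ← conj_zpow, U.xa, U.xb, inv_zpow', (ab U).mul_zpow] at h2
  have c := fun m n : ℤ => ((ab U).zpow_zpow m n).eq
  have h3 : a ^ (i + j) * b ^ (j + j - i) = 1 := by
    calc a ^ (i + j) * b ^ (j + j - i) = a ^ j * (a ^ i * b ^ j) * b ^ (j - i) := by group
      _ = a ^ j * (b ^ i * a ^ (-j)) * b ^ (-i) := by rw [← h2]; group
      _ = 1 := by rw [← c]; group
  obtain ⟨h4, h5⟩ := U.ind _ _ h3
  obtain ⟨k, rfl⟩ : 4 ∣ i := by omega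
  obtain ⟨l, rfl⟩ : 4 ∣ j := by omega
  rw [zpow_mul, zpow_mul, zpow_ofNat, zpow_ofNat, U.a4, U.b4]; simp

theorem memY {q : G} (hq : q ∈ Qs a b t) (h : q * t * q⁻¹ = t) :
    q ∈ Hs a b ∨ ∃ h ∈ Hs a b, q = h * t := by
  have h1 : q ∈ Ys a b t := by
    rw [← U.cE]
    refine fun k hk => (comm_closure ?_ hk).symm.eq
    rintro _ (rfl | h1)
    · exact mul_inv_eq_iff_eq_mul.1 h
    · exact (hq.2 _ (subset_closure h1)).symm
  clear hq h
  have c := fun h (hh : h ∈ Hs a b) => (tL U (HL U hh)).eq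
  induction h1 using closure_induction with
  | mem _ h' =>
    rcases h' with rfl | rfl | rfl
    exacts [.inl (aH U), .inl (bH U), .inr ⟨1, one_mem _, (one_mul _).symm⟩]
  | one => exact .inl (one_mem _)
  | mul _ _ _ _ h1 h2 =>
    rcases h1 with h1 | ⟨h, h1, rfl⟩ <;> rcases h2 with h2 | ⟨k, h2, rfl⟩
    · exact .inl (mul_mem h1 h2)
    · exact .inr ⟨_, mul_mem h1 h2, (mul_assoc _ _ _).symm⟩
    · exact .inr ⟨_, mul_mem h1 h2, by rw [mul_assoc, ← c _ h2, mul_assoc]⟩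
    · left
      rw [c _ h2, mul_assoc, ← mul_assoc t, tt U, one_mul]
      exact mul_mem h1 h2
  | inv _ _ h1 =>
    rcases h1 with h1 | ⟨h, h1, rfl⟩
    · exact .inl (inv_mem h1)
    · exact .inr ⟨_, inv_mem h1, by
        rw [mul_inv_rev, inv_eq_of_mul_eq_one_right (tt U), c _ (inv_mem h1)]⟩

theorem vx {q v : G} {g : G} (hg : g ∈ L) (h : q * t * q⁻¹ = t * v) :
    g * q * g⁻¹ * t * (g * q * g⁻¹)⁻¹ = t * (g * v * g⁻¹) := by
  have h1 := ct U (inv_mem hg)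
  calc g * q * g⁻¹ * t * (g * q * g⁻¹)⁻¹ = g * q * (g⁻¹ * t * g⁻¹⁻¹) * q⁻¹ * g⁻¹ := by group
    _ = g * (q * t * q⁻¹) * g⁻¹ := by rw [h1]; group
    _ = g * t * g⁻¹ * (g * v * g⁻¹) := by rw [h]; group
    _ = _ := by rw [ct U hg]

variable (P : ∀ q ∈ Qs a b t, Commute q a ∧ Commute q b)
include P

theorem cen {q h : G} (hq : q ∈ Qs a b t) (hh : h ∈ Hs a b) : h * q = q * h :=
  (comm_closure (by rintro _ (rfl | rfl); exacts [(P q hq).1, (P q hq).2]) hh).symm.eq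

theorem vm {q q' v v' : G} (hq : q ∈ Qs a b t) (hv' : v' ∈ Hs a b) (h : q * t * q⁻¹ = t * v)
    (h' : q' * t * q'⁻¹ = t * v') : q * q' * t * (q * q')⁻¹ = t * (v * v') := by
  calc q * q' * t * (q * q')⁻¹ = q * (q' * t * q'⁻¹) * q⁻¹ := by group
    _ = q * t * (v' * q⁻¹) := by rw [h']; group
    _ = _ := by rw [cen U P (inv_mem hq) hv', ← mul_assoc, h, mul_assoc]

theorem nm_t {q h : G} (hq : q ∈ Qs a b t) (hh : h ∈ Hs a b) :
    ∃ k ∈ Hs a b, Nm x (q * (h * t)) = Nm x q * k * t := by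
  have h1 := conj_mem_of_mem_normalizer (xH U) hh
  have h2 := conj_mem_of_mem_normalizer (xH U) h1
  have q1 := xQ U hq
  have q2 := xQ U q1
  have hv := VH U (U.nE _ (inv_mem q1).1).1
  have e : ∀ p k : G, x * (p * (k * t)) * x⁻¹ = x * p * x⁻¹ * (x * k * x⁻¹ * t) := fun p k => by
    conv_rhs => rw [← ct U U.xL]
    group
  refine ⟨_, mul_mem (mul_mem (mul_mem hh hv) h1) h2, ?_⟩
  rw [Nm, Nm, e, e]
  have c1 := cen U P q1 hh
  have c2 := cen U P q2 (mul_mem (mul_mem hh hv) h1)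
  have c3 := (tL U (HL U h1)).eq
  generalize x * (x * h * x⁻¹) * x⁻¹ = h'' at *
  generalize x * (x * q * x⁻¹) * x⁻¹ = q'' at *
  generalize x * h * x⁻¹ = h' at *
  generalize x * q * x⁻¹ = q' at *
  calc q * (h * t) * (q' * (h' * t)) * (q'' * (h'' * t))
      = q * (h * q') * (q'⁻¹ * t * q'⁻¹⁻¹ * t) * h' * q'' * h'' * t := by rw [c3]; group
    _ = q * q' * (h * (q'⁻¹ * t * q'⁻¹⁻¹ * t) * h' * q'') * h'' * t := by rw [c1]; group
    _ = _ := by rw [c2]; group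

theorem step1 (h : ∃ e ∈ Qs a b t, e * e = 1 ∧ e * t * e⁻¹ ≠ t) :
    ∃ e ∈ Qs a b t, e * e = 1 ∧ e * t * e⁻¹ = t * a ^ 2 := by
  obtain ⟨e, he, e2, h⟩ := h
  have sq : ∀ p : G, p * p = 1 → x * p * x⁻¹ * (x * p * x⁻¹) = 1 := fun p hp => by
    rw [conj_mul, hp]; simp
  have hv := (U.nE e he.1).1
  have e1 : e * t * e⁻¹ = t * (e * t * e⁻¹ * t) := by
    rw [← (tL U (HL U (VH U hv))).eq, mul_assoc _ t t, tt U, mul_one]
  rcases memV U hv with k | k | k | k <;> rw [k] at e1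
  · exact (h (e1.trans (mul_one t))).elim
  · exact ⟨e, he, e2, e1⟩
  · exact ⟨_, xQ U (xQ U he), sq _ (sq _ e2), by rw [vx U U.xL (vx U U.xL e1), xb2 U, xz U]⟩
  · exact ⟨_, xQ U he, sq _ e2, by rw [vx U U.xL e1, xz U]⟩

theorem step2 (h : ∃ e ∈ Qs a b t, e * e = 1 ∧ e * t * e⁻¹ = t * a ^ 2) :
    ∃ e ∈ Qs a b t, e * e = 1 ∧ e * t * e⁻¹ = t * a ^ 2 ∧ Nm x e ∈ Hs a b := by
  obtain ⟨e, he, e2, h⟩ := h
  have h1 := vx U U.xL h
  rw [xa2 U] at h1
  have h2 := vx U U.xL h1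
  rw [xb2 U] at h2
  have h3 := vm U P (mul_mem he (xQ U he)) (VH U (mul_mem (aV U) (bV U)))
    (vm U P he (VH U (bV U)) h h1) h2
  rw [((ab U).pow_pow 2 2).symm.mul_mul_mul_comm, aa U, bb U, one_mul, mul_one] at h3
  rcases memY U (mul_mem (mul_mem he (xQ U he)) (xQ U (xQ U he))) h3 with k | ⟨h0, k0, k3⟩
  · exact ⟨e, he, e2, h, k⟩
  have ai := inv_mem (aH U)
  obtain ⟨k, k1, k2⟩ := nm_t U P he ai
  have c1 := cen U P he ai
  have c2 := (tL U (HL U ai)).eq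
  have ei := inv_eq_of_mul_eq_one_right e2
  refine ⟨e * (a⁻¹ * t), mul_mem he (mul_mem (HQ U ai) (tQ U)), ?_, ?_, ?_⟩
  · calc e * (a⁻¹ * t) * (e * (a⁻¹ * t)) = e * a⁻¹ * t * (e * a⁻¹) * t := by group
      _ = a⁻¹ * (e * t * e⁻¹) * a⁻¹ * t := by rw [ei]; nth_rw 1 [← c1]; group
      _ = a⁻¹ * t * a * t := by rw [h]; group
      _ = 1 := by rw [c2, mul_assoc t, inv_mul_cancel, mul_one, tt U]
  · calc e * (a⁻¹ * t) * t * (e * (a⁻¹ * t))⁻¹ = e * (a⁻¹ * t * a⁻¹⁻¹) * e⁻¹ := by group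
      _ = _ := by rw [ct U (HL U ai), h]
  · rw [k2, Nm, k3, mul_assoc, mul_assoc, (tL U (HL U k1)).eq, ← mul_assoc t, tt U, one_mul]
    exact mul_mem k0 k1

theorem main (h : ∃ e ∈ Qs a b t, e * e = 1 ∧ e * t * e⁻¹ ≠ t) : ∃ e, UA L a b s x y t e := by
  obtain ⟨e, he, e2, h, hn⟩ := step2 U P (step1 U P h)
  have sq : ∀ g p : G, p * p = 1 → g * p * g⁻¹ * (g * p * g⁻¹) = 1 := fun g p hp => by
    rw [conj_mul, hp]; simp
  have x3 : x * (x * (x * e * x⁻¹) * x⁻¹) * x⁻¹ = e := by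
    rw [show x * (x * (x * e * x⁻¹) * x⁻¹) * x⁻¹ = x ^ 3 * e * (x ^ 3)⁻¹ by
      simp [pow_succ, mul_assoc], U.x3]; simp
  obtain ⟨e', he'⟩ : ∃ e', e' = x * e * x⁻¹ := ⟨_, rfl⟩
  obtain ⟨n, hn'⟩ : ∃ n, n = Nm x e := ⟨_, rfl⟩
  have q1 : e' ∈ Qs a b t := he' ▸ xQ U he
  have s1 : e' * e' = 1 := he' ▸ sq x e e2
  have i0 := inv_eq_of_mul_eq_one_right e2
  have i1 := inv_eq_of_mul_eq_one_right s1
  have e3 : x * e' * x⁻¹ = e'⁻¹ * e⁻¹ * n := by rw [hn', Nm, ← he']; group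
  rw [← hn'] at hn
  have c0 := cen U P he hn
  have c1 := cen U P q1 hn
  have cm : Commute e e' := commutatorElement_eq_one_iff_commute.1 (fixH U (U.der.1 _ he _ q1) (by
    calc x * ⁅e, e'⁆ * x⁻¹ = ⁅x * e * x⁻¹, x * e' * x⁻¹⁆ := by
          simp only [commutatorElement_def]; group
      _ = e⁻¹ * (n * e'⁻¹) * n⁻¹ * e * e' := by
          rw [← he', e3, commutatorElement_def]; group
      _ = e⁻¹ * e'⁻¹ * e * e' := by rw [i1, c1]; group
      _ = _ := by rw [commutatorElement_def, i0, i1]))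
  have nV : n ∈ V0 a b := invH U hn (by
    have := sq x e' s1
    rw [e3, i0, i1] at this
    calc n * n = e' * (e * e' * e) * n * n := by rw [cm.eq, mul_assoc e' e e, e2, mul_one, s1, one_mul]
      _ = e' * e * (e' * (e * n)) * n := by group
      _ = e' * e * n * (e' * e * n) := by rw [← c0, ← mul_assoc e' n, ← c1]; group
      _ = 1 := this)
  have v1 := vx U U.xL h
  have v2 := vx U U.sL h
  rw [xa2 U, ← he'] at v1
  rw [sa2 U] at v2
  have v3 := vm U P q1 (VH U (bV U)) v1 v2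
  rw [bb U, mul_one] at v3
  obtain ⟨f, hf⟩ : ∃ f, f = s * e * s⁻¹ := ⟨_, rfl⟩
  have qf : f ∈ Qs a b t := hf ▸ sQ U he
  rw [← hf] at v3
  have hk : e' * f ∈ Hs a b := by
    refine (memY U (mul_mem q1 qf) v3).resolve_right ?_
    rintro ⟨k, k1, k2⟩
    obtain ⟨m, m1, m2⟩ := nm_t U P q1 k1
    have f1 : e' * (k * t) = f := by rw [← k2, ← mul_assoc, s1, one_mul]
    have xs : ∀ p : G, x * (s * p * s⁻¹) * x⁻¹ = s * (x⁻¹ * p * x) * s⁻¹ := fun p => by
      have : x * s = s * x⁻¹ := by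
        rw [← U.sx, ← mul_assoc, ← mul_assoc, U.s2, one_mul, inv_eq_of_mul_eq_one_right U.s2]
      calc x * (s * p * s⁻¹) * x⁻¹ = x * s * p * (x * s)⁻¹ := by group
        _ = _ := by rw [this]; group
    have y1 : x⁻¹ * e * x = x * e' * x⁻¹ := by rw [he']; nth_rw 1 [← x3]; group
    have n1 : Nm x f = s * n * s⁻¹ := by
      rw [Nm, hf, xs, xs, y1, show x⁻¹ * (x * e' * x⁻¹) * x = e' by group, conj_mul, conj_mul, e3,
        i0, i1, mul_assoc e' e n, ← c0, ← mul_assoc e' n, ← c1]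
      congr 2
      calc e * (n * e' * e) * e' = e * n * (e' * (e * e')) := by group
        _ = n := by rw [cm.eq, ← mul_assoc e' e', s1, one_mul, ← c0, mul_assoc, e2, mul_one]
    have n2 : Nm x e' = x * n * x⁻¹ := by rw [hn', he', Nm, Nm]; group
    rw [f1, n1, n2] at m2
    refine tH U ?_
    rw [eq_inv_mul_of_mul_eq m2.symm]
    exact mul_mem (inv_mem (mul_mem (conj_mem_of_mem_normalizer (xH U) hn) m1))
      (conj_mem_of_mem_normalizer (sH U) hn)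
  obtain ⟨k, hk'⟩ : ∃ k, k = e' * f := ⟨_, rfl⟩
  rw [← hk'] at hk
  have f1 : f = e' * k := by rw [hk', ← mul_assoc, s1, one_mul]
  have kV : k ∈ V0 a b := invH U hk (by
    have := sq s e e2
    rwa [← hf, f1, mul_assoc, ← mul_assoc k, cen U P q1 hk, mul_assoc, ← mul_assoc, s1,
      one_mul] at this)
  have VA : V0 a b ≤ As a b s e := closure_mono (by rintro _ (rfl | rfl) <;> simp)
  have eA : e ∈ As a b s e := subset_closure (by simp)
  have fA : f ∈ As a b s e := subset_closure (by simp [hf])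
  have eA' : e' ∈ As a b s e := by
    rw [eq_mul_inv_of_mul_eq f1.symm]; exact mul_mem fA (inv_mem (VA kV))
  refine ⟨e, U.toUS, e2, (P e he).1, (P e he).2, h, ?_, no_closure ?_⟩
  · rw [← hf, f1]; exact cm.mul_right (cen U P he hk).symm
  · rintro _ (rfl | rfl | rfl | rfl)
    · exact VA (conj_mem_of_mem_normalizer (xV U) (aV U))
    · exact VA (conj_mem_of_mem_normalizer (xV U) (bV U))
    · exact he' ▸ eA'
    · have : x * (s * e * s⁻¹) * x⁻¹ = e'⁻¹ * e⁻¹ * n * (x * k * x⁻¹) := by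
        rw [← hf, f1, ← conj_mul, e3]
      rw [this]
      exact mul_mem (mul_mem (mul_mem (inv_mem eA') (inv_mem eA)) (VA nV))
        (VA (conj_mem_of_mem_normalizer (xV U) kV))

omit U P in
theorem jobUA : JobUA.{u} := by
  rintro G _ _ L a b s x y r t U ⟨rfl, P⟩ h
  exact main U P h

end H60.DUA
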