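import Cfsg.Agent.H40.E82Spec
import Cfsg.Agent.H62.E8Form
import Cfsg.Agent.H63.WWord

/-! Tower E82 (S5915): job Reg, regular semisimple elements. -/

set_option autoImplicit false
set_option linter.unusedSectionVars false

namespace H60.E82R

open Cfsg.Lie H63 H64 H65 H46 H14.E8 Matrix Module H40.E8F H40.E82 H56.SL2M
open scoped MatrixGroups

section gen
variable {D : ChevalleyDatum} [RS D] [Tab D] [Comm D] {k : Type} [Field k]

theorem act_zero (g : GL D.Idx k) : act g (0 : D.Idx → k) = 0 := mulVec_zero _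

/-- More than `rank` independent coordinate vectors. -/
theorem card_le {ι σ : Type} [Fintype ι] [Fintype σ] [DecidableEq σ] (f : ι → σ)
    (hf : Function.Injective f) (z : GL σ k) (F : Submodule k (σ → k))
    (hm : ∀ j, (z : Matrix σ σ k) *ᵥ Pi.single (f j) (1 : k) ∈ F) :
    Fintype.card ι ≤ finrank k F := by
  have hk : LinearMap.ker (Matrix.mulVecLin (z : Matrix σ σ k)) = ⊥ :=
    LinearMap.ker_eq_bot'.2 fun v hv => by
      have : ((z⁻¹ : GL σ k) : Matrix σ σ k) *ᵥ ((z : Matrix σ σ k) *ᵥ v) = v := by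
        rw [mulVec_mulVec, Units.inv_mul, one_mulVec]
      rw [← this, show (z : Matrix σ σ k) *ᵥ v = 0 from hv, mulVec_zero]
  have l0 : LinearIndependent k fun j => (Pi.single (f j) (1 : k) : σ → k) :=
    (Pi.linearIndependent_single_one σ k).comp f hf
  have l1 : LinearIndependent k fun j => (z : Matrix σ σ k) *ᵥ Pi.single (f j) (1 : k) :=
    l0.map' _ hk
  have li : LinearIndependent k fun j => (⟨_, hm j⟩ : F) := LinearIndependent.of_comp F.subtype l1
  exact li.fintype_card_le_finrank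

/-- A fixed space of dimension the rank forces regularity. -/
theorem reg_of_dim {g z : GL D.Idx k} {c : Fin D.rank → kˣ} (e : g = z * tor D k c * z⁻¹)
    (F : Submodule k (D.Idx → k)) (hF : ∀ v, act g v = v → v ∈ F) (hd : finrank k F = D.rank)
    (r : Rt D) : chi D c r ≠ 1 := by
  intro hr
  obtain ⟨f, h0, h1⟩ : ∃ f : Option (Fin D.rank) → D.Idx, f none = Sum.inr r ∧
    ∀ i, f (some i) = Sum.inl i := ⟨fun j => j.elim (Sum.inr r) Sum.inl, rfl, fun _ => rfl⟩
  have hf : Function.Injective f := by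
    rintro (_ | i) (_ | j) h
    · rfl
    · rw [h0, h1] at h; exact absurd h Sum.inr_ne_inl
    · rw [h0, h1] at h; exact absurd h Sum.inl_ne_inr
    · rw [h1, h1] at h; exact congrArg some (Sum.inl_injective h)
  have ht : ∀ j, act (tor D k c) (Pi.single (f j) (1 : k)) = Pi.single (f j) (1 : k) := fun j => by
    funext y
    rcases y with i | s
    · exact tor_inl c _ i
    · rw [tor_inr]
      by_cases h : s = r
      · rw [h, hr, Units.val_one, one_mul]
      · have : (Sum.inr s : D.Idx) ≠ f j := by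
          rcases j with _ | j
          · rw [h0]; exact fun h' => h (Sum.inr_injective h')
          · rw [h1]; exact Sum.inr_ne_inl
        rw [Pi.single_eq_of_ne this, mul_zero]
  have := card_le f hf z F fun j => hF (act z _) (by rw [e, act_mul, act_mul, act_inv_act, ht])
  rw [hd, Fintype.card_option, Fintype.card_fin] at this
  exact Nat.not_succ_le_self _ this

theorem inH_of_fix {g z : GL D.Idx k} {c : Fin D.rank → kˣ} (e : g = z * tor D k c * z⁻¹)
    (hreg : ∀ r : Rt D, chi D c r ≠ 1) {a : D.Idx → k} (ha : act g a = a) : InH (act z⁻¹ a) := by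
  intro r
  have h1 : act (tor D k c) (act z⁻¹ a) = act z⁻¹ a := by
    conv_rhs => rw [← ha, e, act_mul, act_mul, act_inv_act]
  have h2 := congrFun h1 (Sum.inr r)
  rw [tor_inr] at h2
  by_contra h
  exact hreg r (Units.ext ((mul_eq_right₀ h).1 h2))

theorem B_inH_inH {a b : D.Idx → k} (ha : InH a) (hb : InH b) : B D k a b = 0 := by
  rw [inH_iff_sum ha, map_sum, LinearMap.sum_apply]
  refine Finset.sum_eq_zero fun i _ => ?_
  rw [map_smul, LinearMap.smul_apply, inH_iff_sum hb, map_sum,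
    Finset.sum_eq_zero fun j _ => ?_, smul_zero]
  rw [map_smul, B_h_bv i.2 (by have := j.2; omega), wtv, if_neg (by omega), Int.cast_zero,
    zero_smul, smul_zero]

theorem rv_negR (v : D.Idx → k) (r : Rt D) : rv v (negR r : Rt D) = - rv v r := by
  rw [rv, rv, ← Finset.sum_neg_distrib]
  refine Finset.sum_congr rfl fun i _ => ?_
  rw [negR_val, cartan_neg, Int.cast_neg, neg_mul]

theorem eq_of_rv {ci : Fin D.rank → Fin D.rank → ℤ} (hc : ∀ i l : Fin D.rank,
      ∑ j : Fin D.rank, D.cartan i (D.simple j) * ci j l = if i = l then 1 else 0)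
    {v w : D.Idx → k} (hv : InH v) (hw : InH w) (h : ∀ r : Rt D, rv v r = rv w r) : v = w := by
  have key : ∀ (x : D.Idx → k) (l : Fin D.rank),
      ∑ j : Fin D.rank, rv x (D.simple j) * (ci j l : k) = x (Sum.inl l) := fun x l => by
    simp only [rv, Finset.sum_mul]
    rw [Finset.sum_comm, Finset.sum_congr rfl (g := fun i => if i = l then x (.inl i) else 0)
      fun i _ => ?_]
    · simp
    · have := congrArg (fun z : ℤ => (z : k) * x (.inl i)) (hc i l)
      simp only [Int.cast_sum, Int.cast_mul, Finset.sum_mul, Int.cast_ite, Int.cast_one,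
        Int.cast_zero, ite_mul, one_mul, zero_mul] at this
      rw [← this]
      exact Finset.sum_congr rfl fun j _ => mul_right_comm _ _ _
  funext y
  rcases y with l | r
  · rw [← key v, ← key w]
    exact Finset.sum_congr rfl fun j _ => congrArg (· * _) (h (simpleR j))
  · rw [hv, hw]

/-- An element inverting a regular element of the torus centralises the Cartan subalgebra. -/
theorem fix_of_inv [CharP k 2] (hk : cker D kˣ = ⊥) {ci : Fin D.rank → Fin D.rank → ℤ}
    (hc : ∀ i l : Fin D.rank,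
      ∑ j : Fin D.rank, D.cartan i (D.simple j) * ci j l = if i = l then 1 else 0)
    {w₀ : (H64.wdata D).W} (h₀ : ∀ r, w₀.1 r = negR r) {c : Fin D.rank → kˣ} {n : ℕ} (hn : n ≠ 0)
    (hcn : c ^ n = 1) (hreg : ∀ r : Rt D, chi D c r ≠ 1) {u : GL D.Idx k} (hu : u ∈ D.group k)
    (e : u * tor D k c = tor D k c⁻¹ * u) {h : D.Idx → k} (hh : InH h) : act u h = h := by
  have hB := stB_xU D k
  have hN := torOK_xU.mem_N_of_regular hB (group_eq (D := D) (F := k) ▸ hu) hreg e
  obtain ⟨w, hw⟩ := hB.rgd.exists_act hN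
  have h1 := torOK_xU.chi_conj hB hN hw e
  have h2 : w₀ * w = 1 := H67.eq_one_of_Wc hk hn hcn (fun r => by
    rw [H64.WData.mul_apply, h₀, chi_negR, ← h1 r, eq_comm, eq_inv_iff_mul_eq_one, ← H67.chi_mul,
      inv_mul_cancel, H67.chi_one]) fun r _ h => absurd h (hreg r)
  have h3 : ∀ r, w.1 r = negR r := fun r => by
    have := congrArg (fun x : (H64.wdata D).W => x.1 r) h2
    simp only [H64.WData.mul_apply, h₀, H64.WData.one_apply] at this
    exact negR_eq_iff.1 this
  refine eq_of_rv hc ((mon_of_N hN hw).2 h hh) hh fun r => ?_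
  rw [← (jobN D k u w hN hw).2.2 h r, h3, rv_negR, CharTwo.neg_eq]

theorem main [CharP k 2] (hk : cker D kˣ = ⊥) {ci : Fin D.rank → Fin D.rank → ℤ}
    (hc : ∀ i l : Fin D.rank,
      ∑ j : Fin D.rank, D.cartan i (D.simple j) * ci j l = if i = l then 1 else 0)
    {w₀ : (H64.wdata D).W} (h₀ : ∀ r, w₀.1 r = negR r) {g z : GL D.Idx k} (hz : z ∈ D.group k)
    {c : Fin D.rank → kˣ} {n : ℕ} (e : g = z * tor D k c * z⁻¹) (hn : n ≠ 0) (hcn : c ^ n = 1)
    (F : Submodule k (D.Idx → k)) (hF : ∀ v, v ∈ F ↔ act g v = v) (hd : finrank k F = D.rank) :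
    (∀ a ∈ F, ∀ b ∈ F, B D k a b = 0) ∧
      ∀ u ∈ D.group k, g * u * g = u → ∀ a ∈ F, act u a = a := by
  have hreg := reg_of_dim e F (fun v => (hF v).2) hd
  refine ⟨fun a ha b hb => ?_, fun u hu h a ha => ?_⟩
  · have h1 := isAut_of_mem hz (act z⁻¹ a) (act z⁻¹ b)
    change act z _ = B D k (act z _) (act z _) at h1
    rw [act_act_inv, act_act_inv, B_inH_inH (inH_of_fix e hreg ((hF a).1 ha))
      (inH_of_fix e hreg ((hF b).1 hb)), act_zero] at h1
    exact h1.symm
  · have h1 : z⁻¹ * u * z * tor D k c = tor D k c⁻¹ * (z⁻¹ * u * z) := by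
      rw [map_inv]
      conv_rhs => rw [← h, e]
      group
    have h2 := fix_of_inv hk hc h₀ hn hcn hreg (mul_mem (mul_mem (inv_mem hz) hu) hz) h1
      (inH_of_fix e hreg ((hF a).1 ha))
    rw [act_mul, act_mul, act_act_inv] at h2
    rw [← act_act_inv z (act u a), h2, act_act_inv]

theorem ex_w0 (l : List ℕ) (hl : ∀ i ∈ l, i < D.rank) (h : scalW D (-1) l = true) :
    ∃ w₀ : (H64.wdata D).W, ∀ r, w₀.1 r = negR r :=
  ⟨wW D l, apply_eq_negR fun i => rt_inj (by
    rw [(scalW_iff hl).1 h, rt_negR, neg_one_smul])⟩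

theorem mem_fx_adj {E : Type} [Field E] (g : D.group E) (v : D.Idx → AlgebraicClosure E) :
    v ∈ fx (adj D E g) ↔ act (H67.toAlg D E g).1 v = v := by
  rw [End.mem_eigenspace_iff, one_smul]; rfl

end gen

attribute [local instance] H65.tabE8 H65.commE8

theorem w0_E8 : ∃ w₀ : (H64.wdata chevE8).W, ∀ r, w₀.1 r = negR r :=
  ex_w0 (List.replicate 15 (List.range 8)).flatten (by decide +kernel) (by decide +kernel)

theorem jobReg : JobReg := by
  intro g z hz c n e hn hcn hd
  obtain ⟨w₀, h₀⟩ := w0_E8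
  obtain ⟨h1, h2⟩ := main (kerE8.cker_eq_bot _) H62.E8Form.cinv_spec h₀ hz e hn hcn (fx (ad2 g))
    (mem_fx_adj g) hd
  refine ⟨h1, fun u hu a ha => h2 (al u) (H67.toAlg chevE8 (ZMod 2) u).2 ?_ a ha⟩
  have := congrArg (fun x => (H67.toAlg chevE8 (ZMod 2) x).1) hu
  rwa [map_mul, map_mul] at this

end H60.E82R
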