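import Cfsg.Agent.H51.KSSpec

/-! KS-T1A: the centres of transvections form one of two orbits. -/

set_option autoImplicit false
set_option linter.unusedSectionVars false

namespace H60.KS

open Module Submodule H53.CK H51.KL H54 H26.MS H51.KS

universe u v

variable {F : Type u} [Field F] {V : Type v} [AddCommGroup V] [Module F V]
  {B : LinearMap.BilinForm F V} {K : Subgroup (V ≃ₗ[F] V)} {x y u w z : V}

/-- `v` is `0` or the centre of a transvection in `K` -/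
def Pv (S : Sy B) (K : Subgroup (V ≃ₗ[F] V)) (v : V) : Prop := ∃ a : F, a ≠ 0 ∧ ee S.alt v 0 a ∈ K

theorem Pv.zero (S : Sy B) : Pv S K 0 := ⟨1, one_ne_zero, by
  rw [show ee S.alt 0 0 1 = 1 from LinearEquiv.ext fun v => by simp [tv_apply]]; exact one_mem _⟩

theorem Pv.smul {S : Sy B} (h : Pv S K x) (c : F) : Pv S K (c • x) := by
  rcases eq_or_ne c 0 with rfl | hc
  · rw [zero_smul]; exact Pv.zero S
  obtain ⟨a, ha, h⟩ := h
  refine ⟨a / c ^ 2, div_ne_zero ha (pow_ne_zero 2 hc), ?_⟩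
  rwa [ee_scale S.alt (map_zero _), smul_zero, mul_div_cancel₀ _ (pow_ne_zero 2 hc)]

theorem Pv.map {S : Sy B} (hK : K ≤ Isom B) (h : Pv S K x) {g : V ≃ₗ[F] V} (hg : g ∈ K) :
    Pv S K (g x) := h.imp fun a ha => ⟨ha.1, by simpa using mem_conj S.alt (hK hg) hg ha.2⟩

section

variable {S : Sy B} (hK : K ≤ Isom B)
  (hE : ∀ x u, B x u ≠ 0 → Pv S K x → Pv S K u → ∃ j ∈ K, IL B x u j)
include hK hE

theorem lemZ (hx : Pv S K x) (hu : Pv S K u) (h : B x u ≠ 0) (h1 : B x z = 0) (h2 : B u z = 0)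
    {c : F} (hc : c ≠ 0) (hy : Pv S K (c • x + z)) : Pv S K z := by
  obtain ⟨j, hj, j1, -, j3⟩ := hE x u h hx hu
  obtain ⟨b, hb, k1⟩ := hy
  obtain ⟨a, ha, k3⟩ := hu
  have k2 := mem_conj S.alt (hK hj) hj k1
  have zx : B z x = 0 := S.alt.isRefl _ _ h1
  rw [map_add, map_smul, j1, j3 z h1 h2, map_zero, smul_neg, ← neg_smul, ← one_smul F z,
    tv_comb S.alt zx, neg_sq] at k2
  rw [← one_smul F z, tv_comb S.alt zx] at k1
  have k4 := mul_mem k1 (inv_mem k2)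
  rw [mul_inv_rev, mul_assoc, mul_inv_cancel_left, ee_inv S.alt (by simp [zx]),
    ee_mul S.alt (by simp [zx]) (by simp [zx])] at k4
  have k5 := mem_conj S.alt (ee_mem _ _ _ _) k3 k4
  rw [show ee S.alt u 0 a z = z by rw [tv_apply, h2]; simp] at k5
  refine ⟨_, ?_, two_mul_mem_Rz S.alt ⟨by simp [zx], _, k4⟩
    ⟨by simp [tv_apply, zx, S.alt.isRefl _ _ h2], _, k5⟩⟩
  have e : (b * c * 1) • x + -((b * -c * 1) • x) = (2 * b * c) • x := by module
  rw [e, tv_apply]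
  simp only [map_add, map_smul, LinearMap.smul_apply, smul_eq_mul, S.alt.self_eq_zero,
    ← S.alt.neg_eq x u]
  simp [S.two, ha, hb, hc, h]

theorem lemPR (hx : Pv S K x) (hu : Pv S K u) (h : B x u ≠ 0) (h1 : B x z = 0) (h2 : B u z = 0)
    (α β : F) (hy : Pv S K (α • x + β • u + z)) : Pv S K z := by
  obtain ⟨j, hj, j1, j2, j3⟩ := hE x u h hx hu
  have k := hy.map hK hj
  rw [map_add, map_add, map_smul, map_smul, j1, j2, j3 z h1 h2,
    show α • -x + β • -u + z = (-1 : F) • (α • x + β • u + z) + (2 : F) • z by module] at k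
  have e : ∀ r, Pv S K r → B (α • x + β • u + z) r ≠ 0 → B r z = 0 → Pv S K z := fun r hr r1 r2 => by
    simpa [S.two] using (lemZ hK hE hy hr r1 (by simp [h1, h2, S.alt.self_eq_zero]) (by simp [r2])
      (by simp) k).smul 2⁻¹
  by_cases ha : α = 0
  · by_cases hb : β = 0
    · simpa [ha, hb] using hy
    · exact e x hx (by simp [ha, hb, h, S.alt.isRefl _ _ h1, ← S.alt.neg_eq x u]) h1
  · exact e u hu (by simp [ha, h, S.alt.isRefl _ _ h2, S.alt.self_eq_zero]) h2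

end

/-- projection to the perp of a hyperbolic line -/
def pr (B : LinearMap.BilinForm F V) (x u v : V) : V := v - (B v u / B x u) • x + (B v x / B x u) • u

theorem pr_symm (hA : B.IsAlt) (x u y w : V) : B (pr B x u y) w = B y (pr B x u w) := by
  simp only [pr, map_add, map_sub, map_smul, LinearMap.add_apply, LinearMap.sub_apply,
    LinearMap.smul_apply, smul_eq_mul, ← hA.neg_eq x w, ← hA.neg_eq u w]
  ring

theorem pr_perp (y : V) (h1 : B x w = 0) (h2 : B u w = 0) : B (pr B x u y) w = B y w := by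
  simp [pr, h1, h2]

theorem pr_dec (hA : B.IsAlt) (h : B x u ≠ 0) (v : V) : B x (pr B x u v) = 0 ∧ B u (pr B x u v) = 0 :=
  decomp hA h v

theorem pr_eq (B : LinearMap.BilinForm F V) (x u v : V) :
    v = (B v u / B x u) • x + (-(B v x / B x u)) • u + pr B x u v := by
  rw [pr]; module

/-- The abstract situation. -/
structure Dt (B : LinearMap.BilinForm F V) (P : V → Prop) : Prop where
  alt : B.IsAlt
  zero : P 0
  smul : ∀ {x}, P x → ∀ c : F, P (c • x)
  prj : ∀ {x u z}, P x → P u → B x u ≠ 0 → B x z = 0 → B u z = 0 → ∀ α β : F,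
    P (α • x + β • u + z) → P z
  sp : ∀ w, (∀ y, P y → B y w = 0) → w = 0

/-- `x`, `y` have a common partner -/
def Rl (B : LinearMap.BilinForm F V) (P : V → Prop) (x y : V) : Prop :=
  ∃ u, P u ∧ B x u ≠ 0 ∧ B y u ≠ 0

theorem Rl.symm {P : V → Prop} (h : Rl B P x y) : Rl B P y x := h.imp fun _ k => ⟨k.1, k.2.2, k.2.1⟩

namespace Dt

variable {P : V → Prop} (D : Dt B P)
include D

theorem neg (h : P x) : P (-x) := by simpa using D.smul h (-1)

theorem ppr (hx : P x) (hu : P u) (h : B x u ≠ 0) (hy : P y) : P (pr B x u y) :=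
  D.prj hx hu h (pr_dec D.alt h y).1 (pr_dec D.alt h y).2 _ _ (pr_eq B x u y ▸ hy)

theorem partner (hx : x ≠ 0) : ∃ u, P u ∧ B x u ≠ 0 := by
  by_contra! k
  exact hx (D.sp x fun y hy => D.alt.isRefl _ _ (k y hy))

theorem sum (hx : P x) (hy : P y) (hu : P u) (h0 : B x y = 0) (h1 : B x u ≠ 0)
    (h2 : B (x + y) u = 0) : P (x + y) :=
  D.prj hx hu h1 (by simp [h0, D.alt.self_eq_zero]) (D.alt.isRefl _ _ h2) (-1) 0 (by simpa using hy)

theorem hy [FiniteDimensional F V] (hn : 3 ≤ finrank F V) (hx : P x) (hu : P u) (h : B x u ≠ 0) :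
    ∃ y y', P y ∧ P y' ∧ B x y = 0 ∧ B u y = 0 ∧ B x y' = 0 ∧ B u y' = 0 ∧ B y y' ≠ 0 := by
  by_contra! k
  have d := pr_dec D.alt h
  have e : ∀ y, P y → pr B x u y = 0 := fun y hy => D.sp _ fun y' hy' => by
    rw [← pr_perp y' (d y).1 (d y).2]
    exact k _ _ (D.ppr hx hu h hy') (D.ppr hx hu h hy) (d y').1 (d y').2 (d y).1 (d y).2
  obtain ⟨v, hv⟩ := H38.KL.exists_notMem (U := span F {x, u}) (by
    classical
    have := (finrank_span_finset_le_card (R := F) ({x, u} : Finset V)).trans Finset.card_le_two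
    rw [Set.finrank, Finset.coe_pair] at this
    omega)
  have : pr B x u v = 0 := D.sp _ fun y hy => by rw [← pr_symm D.alt, e y hy]; simp
  exact hv (mem_span_pair.2 ⟨_, _, by conv_rhs => rw [pr_eq B x u v, this, add_zero]⟩)

theorem add_of [FiniteDimensional F V] (hn : 3 ≤ finrank F V)
    (h : ∀ x y, P x → P y → B x y = 0 → P (x + y)) (hx : P x) (hu : P u) : P (x + u) := by
  by_cases k : B x u = 0
  · exact h x u hx hu k
  obtain ⟨y, y', p1, p2, a1, a2, a3, a4, a5⟩ := D.hy hn hx hu k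
  have r := D.alt.isRefl
  refine D.prj p1 p2 a5 (by simp [r _ _ a1, r _ _ a2]) (by simp [r _ _ a3, r _ _ a4]) 1
    (-(B x u / B y y')) ?_
  rw [show (1 : F) • y + -(B x u / B y y') • y' + (x + u) =
    (x + y) + (u + -(B x u / B y y') • y') by module]
  refine h _ _ (h _ _ hx p1 a1) (h _ _ hu (D.smul p2 _) (by simp [a4])) ?_
  simp only [map_add, map_smul, LinearMap.add_apply, smul_eq_mul, a3, r _ _ a2]
  field_simp
  ring

section

variable (hc : ∀ c, ¬ P c → ∃ x y, P x ∧ P y ∧ B x y = 0 ∧ c = x + y)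
include hc

theorem h2 (hx : P x) (hu : P u) (h : B x u ≠ 0) : P (x + u) := by
  by_contra k
  obtain ⟨x', y', p1, p2, p3, e⟩ := hc _ k
  have d := pr_dec D.alt h
  have e1 : pr B x u x' = 0 := D.sp _ fun y hy => by
    rw [← pr_symm D.alt]
    refine D.alt.isRefl _ _ (by_contra fun k' => k (e ▸ D.sum p1 p2 (D.ppr hx hu h hy) p3 k' ?_))
    rw [← e, map_add, LinearMap.add_apply]
    rw [(d y).1, (d y).2, add_zero]
  have e2 := pr_eq B x u x'
  rw [e1, add_zero] at e2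
  generalize B x' u / B x u = α at e2
  generalize -(B x' x / B x u) = β at e2
  have e3 : y' = x + u - x' := by rw [e]; abel
  rw [e3, map_sub, D.alt.self_eq_zero, e2] at p3
  simp only [map_add, map_smul, LinearMap.add_apply, LinearMap.smul_apply, smul_eq_mul,
    D.alt.self_eq_zero, ← D.alt.neg_eq x u] at p3
  obtain rfl : α = β := mul_right_cancel₀ h (by linear_combination p3)
  by_cases ha : α = 0
  · exact k (by simpa [e3, e2, ha] using p2)
  · exact k (by simpa [e2, smul_smul, ha] using D.smul p1 α⁻¹)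

theorem rl_add (hx : P x) (hy : P y) (h : Rl B P x y) : P (x + y) := by
  by_cases k : B x y = 0
  swap
  · exact D.h2 hc hx hy k
  obtain ⟨u, hu, h1, h2⟩ := h
  by_cases k' : B (x + y) u = 0
  · exact D.sum hx hy hu k h1 k'
  rw [show x + y = (x + u) + (y + -u) by abel]
  refine D.h2 hc (D.h2 hc hx hu h1) (D.h2 hc hy (D.neg hu) (by simpa using h2)) fun e => k' ?_
  simp only [map_add, map_neg, LinearMap.add_apply, k, D.alt.self_eq_zero, ← D.alt.neg_eq y u] at e ⊢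
  linear_combination -e

theorem rl_trans (hy : P y) (h : Rl B P x y) (h' : Rl B P y w) : Rl B P x w := by
  obtain ⟨u, hu, a1, a2⟩ := h
  obtain ⟨u', hu', a3, a4⟩ := h'
  by_cases b1 : B w u = 0
  · by_cases b2 : B x u' = 0
    · exact ⟨u + u', D.rl_add hc hu hu' ⟨y, hy, mt (D.alt.isRefl _ _) a2, mt (D.alt.isRefl _ _) a3⟩,
        by simpa [b2] using a1, by simpa [b1] using a4⟩
    · exact ⟨u', hu', b2, a4⟩
  · exact ⟨u, hu, a1, b1⟩

omit hc in
theorem rl_or {a b : V} (h : a + b ≠ 0) : Rl B P a (a + b) ∨ Rl B P b (a + b) := by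
  obtain ⟨u, hu, k⟩ := D.partner h
  by_cases k' : B a u = 0
  · exact .inr ⟨u, hu, by simpa [k'] using k, k⟩
  · exact .inl ⟨u, hu, k', k⟩

/-- the class of `x` -/
def cls (hx : P x) : Submodule F V where
  carrier := {y | P y ∧ (y ≠ 0 → Rl B P x y)}
  zero_mem' := ⟨D.zero, fun h => (h rfl).elim⟩
  smul_mem' c y hy := ⟨D.smul hy.1 c, fun h =>
    (hy.2 (right_ne_zero_of_smul h)).imp fun _ k =>
      ⟨k.1, k.2.1, by simpa [left_ne_zero_of_smul h] using k.2.2⟩⟩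
  add_mem' {a b} ha hb := by
    rcases eq_or_ne a 0 with rfl | a0
    · simpa using hb
    rcases eq_or_ne b 0 with rfl | b0
    · simpa using ha
    exact ⟨D.rl_add hc ha.1 hb.1 (D.rl_trans hc hx (ha.2 a0).symm (hb.2 b0)), fun h =>
      (D.rl_or h).elim (D.rl_trans hc ha.1 (ha.2 a0)) (D.rl_trans hc hb.1 (hb.2 b0))⟩

theorem mem_cls (hx : P x) : y ∈ D.cls hc hx ↔ P y ∧ (y ≠ 0 → Rl B P x y) := Iff.rfl

theorem two_cls {x₁ x₂ x₃ : V} (h1 : x₁ ≠ 0) (h2 : x₂ ≠ 0) (h3 : x₃ ≠ 0) :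
    Rl B P x₁ x₂ ∨ Rl B P x₁ x₃ ∨ Rl B P x₂ x₃ := by
  by_contra! k
  obtain ⟨k1, k2, k3⟩ := k
  obtain ⟨u₁, p1, q1⟩ := D.partner h1
  obtain ⟨u₂, p2, q2⟩ := D.partner h2
  obtain ⟨u₃, p3, q3⟩ := D.partner h3
  have n : ∀ {a b u : V}, ¬ Rl B P a b → P u → B a u ≠ 0 → B b u = 0 := fun h hu ha =>
    by_contra fun hb => h ⟨_, hu, ha, hb⟩
  obtain ⟨a, b, pa, pb, e⟩ : ∃ a b, P a ∧ P b ∧ x₁ + x₂ + x₃ = a + b := by
    by_cases h : P (x₁ + x₂ + x₃)
    · exact ⟨_, 0, h, D.zero, (add_zero _).symm⟩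
    · obtain ⟨a, b, pa, pb, -, e⟩ := hc _ h
      exact ⟨a, b, pa, pb, e⟩
  have o : ∀ {x u : V}, P u → B x u ≠ 0 → B (x₁ + x₂ + x₃) u = B x u → Rl B P x a ∨ Rl B P x b :=
    fun {x u} hu h e' => by
      by_cases k : B a u = 0
      · exact .inr ⟨u, hu, h, by rw [e] at e'; simpa [← e', k] using h⟩
      · exact .inl ⟨u, hu, h, k⟩
  have o1 := o p1 q1 (by simp [n k1 p1 q1, n k2 p1 q1])
  have o2 := o p2 q2 (by simp [n (mt Rl.symm k1) p2 q2, n k3 p2 q2])
  have o3 := o p3 q3 (by simp [n (mt Rl.symm k2) p3 q3, n (mt Rl.symm k3) p3 q3])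
  have ta : ∀ {x y : V}, Rl B P x a → Rl B P y a → Rl B P x y := fun h h' =>
    D.rl_trans hc pa h h'.symm
  have tb : ∀ {x y : V}, Rl B P x b → Rl B P y b → Rl B P x y := fun h h' =>
    D.rl_trans hc pb h h'.symm
  rcases o1 with o1 | o1 <;> rcases o2 with o2 | o2 <;> rcases o3 with o3 | o3 <;>
    first | exact k1 (ta o1 o2) | exact k1 (tb o1 o2) | exact k2 (ta o1 o3) | exact k2 (tb o1 o3)
          | exact k3 (ta o2 o3) | exact k3 (tb o2 o3)

end

end Dt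

theorem half_sub [FiniteDimensional F V] (S : Sy B) (hK : K ≤ Isom B) {O : Set V} (T : Two K O)
    (h : span F O ≠ ⊤) : Half F O := by
  have inv : ∀ g ∈ K, ∀ v ∈ span F O, g v ∈ span F O := fun g hg v hv =>
    (span_le (p := (span F O).comap (g : V →ₗ[F] V))).2 (fun y hy => subset_span (T.map g hg y hy)) hv
  obtain ⟨d, hd⟩ : ∃ d, d ∉ span F O := by
    by_contra! k
    exact h (eq_top_iff'.2 k)
  have d0 : d ≠ 0 := fun e => hd (e ▸ zero_mem _)
  have dO : d ∉ O := fun e => hd (subset_span e)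
  have e : ∀ v, v ∈ O ↔ v ∈ span F O ∧ v ≠ 0 := fun v =>
    ⟨fun hv => ⟨subset_span hv, fun k => T.zero (k ▸ hv)⟩, fun hv => by_contra fun k => by
      obtain ⟨g, hg, k'⟩ := T.tr' v d hv.2 d0 k dO
      obtain ⟨c, hc, e⟩ := exists_coef hv.2 k'
      exact smul_notMem hd hc (e ▸ inv g hg v hv.1)⟩
  have mv : ∀ m ∈ B.orthogonal (span F O), ∀ y, m ≠ 0 → (∃ g ∈ K, g m ∈ F ∙ y) →
      y ∈ B.orthogonal (span F O) := by
    rintro m hm y m0 ⟨g, hg, k⟩ w hw
    obtain ⟨c, hc, e⟩ := exists_coef m0 k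
    have := hK hg (g⁻¹ w) m
    rw [H38.KL.app_inv, e, hm _ (inv _ (inv_mem hg) w hw)] at this
    simpa [hc] using this
  have le : B.orthogonal (span F O) ≤ span F O := fun m hm => by_contra fun k => by
    have m0 : m ≠ 0 := fun e => k (e ▸ zero_mem _)
    have a : ∀ y, y ∉ span F O → y ∈ B.orthogonal (span F O) := fun y hy =>
      mv m hm y m0 (T.tr' m y m0 (fun e => hy (e ▸ zero_mem _)) (fun e => k (subset_span e))
        fun e => hy (subset_span e))
    obtain ⟨x, hx⟩ := T.ex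
    refine T.zero (S.nd.1 x (fun y => ?_) ▸ hx)
    by_cases hy : y ∈ span F O
    · have := a (y + d) fun e => hd ((add_mem_cancel_left hy).1 e)
      simpa [a d hd x (subset_span hx)] using this x (subset_span hx)
    · exact a y hy x (subset_span hx)
  have r := LinearMap.BilinForm.finrank_orthogonal S.nd (span F O)
  have r' := finrank_lt h
  obtain ⟨m, hm, m0⟩ := exists_mem_ne_zero_of_ne_bot (p := B.orthogonal (span F O)) fun k => by
    rw [k, finrank_bot] at r; omega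
  have ge : span F O ≤ B.orthogonal (span F O) := span_le.2 fun y hy =>
    mv m hm y m0 (T.tr m ((e m).2 ⟨le hm, m0⟩) y hy)
  rw [le_antisymm le ge] at r
  exact .inl ⟨span F O, by omega, e⟩

theorem jobT1a : JobT1a.{u, v} := by
  intro jIL F _ _ V _ _ _ B S K O hn hK T hO
  by_cases h : span F O = ⊤
  swap
  · exact half_sub S hK T h
  have hE : ∀ x u, B x u ≠ 0 → Pv S K x → Pv S K u → ∃ j ∈ K, IL B x u j := by
    rintro x u h ⟨a, ha, h1⟩ ⟨b, hb, h2⟩
    exact (jIL F V B S K hK).1 x u h a b ha hb h1 h2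
  have pO : ∀ y ∈ O, Pv S K y := fun y hy => (hO y fun e => T.zero (e ▸ hy)).1 hy
  have top : ∀ W : Submodule F V, (∀ y ∈ O, y ∈ W) → ∀ v, v ∈ W := fun W hW v =>
    span_le.2 hW (h ▸ mem_top : v ∈ span F O)
  have D : Dt B (Pv S K) := ⟨S.alt, Pv.zero S, Pv.smul, lemPR hK hE, fun w hw =>
    S.nd.2 w (top (LinearMap.ker (B.flip w)) fun y hy => hw y (pO y hy))⟩
  obtain ⟨x₁, x₂, p1, p2, b12, k⟩ : ∃ x y, Pv S K x ∧ Pv S K y ∧ B x y = 0 ∧ ¬ Pv S K (x + y) := by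
    by_contra! k
    obtain ⟨c, c0, hc⟩ := T.ex'
    exact hc ((hO c c0).2 (top ⟨⟨⟨{v | Pv S K v}, D.add_of hn k⟩, D.zero⟩, fun c _ h => D.smul h c⟩
      pO c))
  have c0 : x₁ + x₂ ≠ 0 := fun e => k (e ▸ D.zero)
  have hc : ∀ c, ¬ Pv S K c → ∃ x y, Pv S K x ∧ Pv S K y ∧ B x y = 0 ∧ c = x + y := fun c hc => by
    have c1 : c ≠ 0 := fun e => hc (e ▸ D.zero)
    obtain ⟨g, hg, e⟩ := T.tr' _ c c0 c1 (fun e => k (pO _ e)) fun e => hc (pO _ e)
    obtain ⟨t, ht, e⟩ := exists_coef c0 e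
    exact ⟨t⁻¹ • g x₁, t⁻¹ • g x₂, (p1.map hK hg).smul _, (p2.map hK hg).smul _,
      by simp [hK hg x₁ x₂, b12], by rw [← smul_add, ← map_add, e, inv_smul_smul₀ ht]⟩
  have n1 : x₁ ≠ 0 := fun e => k (by simpa [e] using p2)
  have n2 : x₂ ≠ 0 := fun e => k (by simpa [e] using p1)
  have nr : ¬ Rl B (Pv S K) x₁ x₂ := fun e => k (D.rl_add hc p1 p2 e)
  have cov : ∀ v, v ∈ O ↔ (v ∈ D.cls hc p1 ∨ v ∈ D.cls hc p2) ∧ v ≠ 0 := fun v =>
    ⟨fun hv => have v0 : v ≠ 0 := fun e => T.zero (e ▸ hv)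
      ⟨((D.two_cls hc n1 n2 v0).resolve_left nr).imp (fun e => ⟨pO v hv, fun _ => e⟩)
        fun e => ⟨pO v hv, fun _ => e⟩, v0⟩,
     fun hv => (hO v hv.2).2 (hv.1.elim And.left And.left)⟩
  have dis : D.cls hc p1 ⊓ D.cls hc p2 = ⊥ := eq_bot_iff.2 fun v hv => by_contra fun v0 =>
    nr (D.rl_trans hc hv.1.1 (hv.1.2 v0) (hv.2.2 v0).symm)
  have le : ∀ {x y : V} (px : Pv S K x) (py : Pv S K y), x ≠ 0 → y ≠ 0 →
      finrank F (D.cls hc px) ≤ finrank F (D.cls hc py) := fun {x y} px py x0 y0 => by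
    obtain ⟨g, hg, e⟩ := T.tr x ((hO x x0).2 px) y ((hO y y0).2 py)
    obtain ⟨t, ht, e⟩ := exists_coef x0 e
    rw [← LinearEquiv.finrank_map_eq g]
    refine finrank_mono ?_
    rintro _ ⟨v, hv, rfl⟩
    refine ⟨hv.1.map hK hg, fun v0 => ?_⟩
    obtain ⟨u, hu, u1, u2⟩ := hv.2 (by simpa using v0)
    refine ⟨g u, hu.map hK hg, fun e' => u1 ?_, fun e' => u2 (hK hg v u ▸ e')⟩
    rw [← hK hg x u, e, map_smul, LinearMap.smul_apply, e', smul_zero]
  have r := finrank_sup_add_finrank_inf_eq (D.cls hc p1) (D.cls hc p2)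
  rw [dis, eq_top_iff'.2 (top (D.cls hc p1 ⊔ D.cls hc p2) fun y hy =>
    ((cov y).1 hy).1.elim mem_sup_left mem_sup_right), finrank_top, finrank_bot] at r
  have l1 := le p1 p2 n1 n2
  have l2 := le p2 p1 n2 n1
  exact .inr ⟨_, _, by omega, by omega, dis, cov⟩

end H60.KS
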