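import Cfsg.Agent.Base

set_option autoImplicit false

open scoped Pointwise

namespace H60.LatC

variable {G : Type*} [Group G]

theorem compl_of_interval [Finite G] (T X M : Subgroup G)
    (hTX : T ≤ X)
    (hint : ∀ Y : Subgroup G, T ≤ Y → Y ≤ X → ∃ C : Subgroup G, T ≤ C ∧ C ≤ X ∧ Y ⊔ C = X ∧ Y ⊓ C = T)
    (huniq : ∀ M' : Subgroup G, IsCoatom M' → X ≤ M' → M' = M)
    (H : Subgroup G) (hH : ¬ H ≤ M) :
    ∃ C : Subgroup G, T ≤ C ∧ H ⊔ C = ⊤ ∧ H ⊓ C = H ⊓ T := by
  obtain ⟨C, hTC, hCX, hs, hi⟩ := hint ((H ⊓ X) ⊔ T) le_sup_right (sup_le inf_le_right hTX)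
  refine ⟨C, hTC, ?_, ?_⟩
  · rcases eq_top_or_exists_le_coatom (H ⊔ C) with h | ⟨M', hM', hle⟩
    · exact h
    · exfalso
      have : X ≤ M' := by
        rw [← hs]
        exact sup_le (sup_le (inf_le_left.trans (le_sup_left.trans hle))
          (hTC.trans (le_sup_right.trans hle))) (le_sup_right.trans hle)
      exact hH (huniq M' hM' this ▸ le_sup_left.trans hle)
  · apply le_antisymm
    · refine le_inf inf_le_left ?_
      rw [← hi]
      exact le_inf ((le_inf inf_le_left (inf_le_right.trans hCX)).trans le_sup_left) inf_le_right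
    · exact inf_le_inf_left _ hTC

/-- complement up to conjugation -/
theorem compl_conj (H T : Subgroup G) (g : G) (hT : T.map (MulAut.conj g).toMonoidHom = T)
    (h : ∃ C : Subgroup G, T ≤ C ∧ H.map (MulAut.conj g).toMonoidHom ⊔ C = ⊤ ∧
      H.map (MulAut.conj g).toMonoidHom ⊓ C = T) :
    ∃ C : Subgroup G, T ≤ C ∧ H ⊔ C = ⊤ ∧ H ⊓ C = T := by
  obtain ⟨C, hTC, hs, hi⟩ := h
  let e := (MulAut.conj g).mapSubgroup
  have he : ∀ K : Subgroup G, e K = K.map (MulAut.conj g).toMonoidHom := fun K => rfl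
  refine ⟨e.symm C, ?_, ?_, ?_⟩
  · rw [← e.le_iff_le, e.apply_symm_apply, he, hT]; exact hTC
  · apply e.injective
    rw [e.map_sup, e.apply_symm_apply, e.map_top, he]; exact hs
  · apply e.injective
    rw [e.map_inf, e.apply_symm_apply, he, he, hT]; exact hi

/-- the interval above a normal subgroup of the join with a complemented subgroup -/
theorem interval_of_complemented (X N : Subgroup G) [N.Normal]
    (hK : ComplementedLattice (Subgroup X)) (Y : Subgroup G) (hNY : N ≤ Y) (hY : Y ≤ X ⊔ N) :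
    ∃ C : Subgroup G, N ≤ C ∧ C ≤ X ⊔ N ∧ Y ⊔ C = X ⊔ N ∧ Y ⊓ C = N := by
  obtain ⟨C, hC⟩ := exists_isCompl (Y.subgroupOf X)
  refine ⟨C.map X.subtype ⊔ N, le_sup_right, sup_le_sup_right (Subgroup.map_subtype_le _) _, ?_, ?_⟩
  · apply le_antisymm
    · exact sup_le hY (sup_le_sup_right (Subgroup.map_subtype_le _) _)
    · refine sup_le ?_ (le_sup_right.trans le_sup_right)
      have h1 := congrArg (Subgroup.map X.subtype) hC.sup_eq_top
      rw [Subgroup.map_sup, ← MonoidHom.range_eq_map, Subgroup.range_subtype,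
        Subgroup.subgroupOf_map_subtype] at h1
      exact h1.ge.trans
        (sup_le (inf_le_left.trans le_sup_left) (le_sup_left.trans le_sup_right))
  · apply le_antisymm
    · intro y ⟨hy, hy'⟩
      have : y ∈ ((C.map X.subtype : Set G) * (N : Set G)) := by
        rw [← Subgroup.mul_normal]; exact hy'
      obtain ⟨c, ⟨c', hc', rfl⟩, n, hn, rfl⟩ := this
      have hc : c' ∈ Y.subgroupOf X ⊓ C := by
        refine ⟨?_, hc'⟩
        have := Y.mul_mem hy (Y.inv_mem (hNY hn))
        simpa [Subgroup.mem_subgroupOf] using this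
      rw [hC.inf_eq_bot, Subgroup.mem_bot] at hc
      subst hc
      simpa using hn
    · exact le_inf hNY le_sup_right

theorem compl_of_not_le_core [Finite G] (X M N : Subgroup G) [N.Normal] (hN : N ≤ M.normalCore)
    (hK : ComplementedLattice (Subgroup X)) (hXM : X ≤ M)
    (huniq : ∀ M' : Subgroup G, IsCoatom M' → X ≤ M' → M' = M)
    (H : Subgroup G) (hNH : N ≤ H) (hH : ¬ H ≤ M.normalCore) :
    ∃ C : Subgroup G, N ≤ C ∧ H ⊔ C = ⊤ ∧ H ⊓ C = N := by
  obtain ⟨h, hh, hn⟩ := SetLike.not_le_iff_exists.1 hH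
  have : ∃ g : G, g * h * g⁻¹ ∉ M := by
    by_contra hc
    push Not at hc
    exact hn hc
  obtain ⟨g, hg⟩ := this
  have hNg : N.map (MulAut.conj g).toMonoidHom = N := by
    apply le_antisymm
    · rintro _ ⟨n, hn, rfl⟩
      exact Subgroup.Normal.conj_mem inferInstance n hn g
    · intro n hn
      refine ⟨g⁻¹ * n * g⁻¹⁻¹, Subgroup.Normal.conj_mem inferInstance n hn g⁻¹, ?_⟩
      simp [mul_assoc]
  apply compl_conj H N g hNg
  obtain ⟨C, h1, h2, h3⟩ := compl_of_interval N (X ⊔ N) M le_sup_right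
    (interval_of_complemented X N hK)
    (fun M' hM' hle => huniq M' hM' (le_sup_left.trans hle))
    (H.map (MulAut.conj g).toMonoidHom) (fun hle => hg (hle ⟨h, hh, rfl⟩))
  refine ⟨C, h1, h2, h3.trans (inf_eq_right.2 ?_)⟩
  rw [← hNg]
  exact Subgroup.map_mono hNH

end H60.LatC
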