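import Cfsg.Agent.Base

set_option autoImplicit false

namespace H60.LatC

variable {G Q : Type*} [Group G] [Group Q]

theorem coatom_map_subgroupOf (φ : Q →* G) (hφ : Function.Injective φ) (H : Subgroup Q)
    (hH : IsCoatom H) : IsCoatom ((H.map φ).subgroupOf φ.range) := by
  have : (H.map φ).subgroupOf φ.range = (MonoidHom.ofInjective hφ).mapSubgroup H := by
    ext ⟨_, y, rfl⟩
    constructor
    · rintro ⟨z, hz, e⟩
      exact ⟨z, hz, Subtype.ext e⟩
    · rintro ⟨z, hz, e⟩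
      exact ⟨z, hz, congrArg Subtype.val e⟩
  rw [this]
  exact (OrderIso.isCoatom_iff _ _).2 hH

theorem not_coatom_subgroupOf {H L K : Subgroup G} (h1 : H < L) (h2 : L < K) :
    ¬ IsCoatom (H.subgroupOf K) := by
  intro h
  obtain ⟨x, hx, hx'⟩ := SetLike.exists_of_lt h1
  obtain ⟨y, hy, hy'⟩ := SetLike.exists_of_lt h2
  have : H.subgroupOf K < L.subgroupOf K :=
    lt_of_le_not_ge (Subgroup.comap_mono h1.le) fun hle => hx' (hle (x := ⟨x, h2.le hx⟩) hx)
  have h3 := h.2 _ this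
  have : (⟨y, hy⟩ : K) ∈ L.subgroupOf K := h3 ▸ Subgroup.mem_top _
  exact hy' this

end H60.LatC
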