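import Cfsg.Agent.H36.NGSpec
import Cfsg.Agent.H29.Codeg

/-! Tower NG, slot E1: all elements of order dividing `p + 1` are conjugate involutions. -/

set_option autoImplicit false

namespace H60.NG

open Cfsg H87 H39 H2.PR H36.NG H28

universe u

/-- An irreducible character of degree `m` with `|G| = m k`, `gcd (m, k) = 1`, vanishes on the
elements whose order is not prime to `m`. -/
theorem vanish {G : Type*} [Group G] [Finite G] {m k s : ℕ} (χ : IrrCharacter G) (hd : dg χ = m)
    (hG : Nat.card G = m * k) (hc : m.Coprime k) (hs : s.Prime) (hm : s ∣ m) {g : G}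
    (hg : s ∣ orderOf g) : (χ : G → ℂ) g = 0 := by
  refine H29.eq_zero_of_pow_factorization_dvd hs χ.2 ?_ hg
  change _ ∣ dg χ
  rw [hd, hG, Nat.factorization_mul_of_coprime hc, Finsupp.add_apply,
    Nat.factorization_eq_zero_of_not_dvd (n := k) fun h =>
      hs.one_lt.ne' (Nat.eq_one_of_dvd_coprimes hc hm h), add_zero]
  exact Nat.ordProj_dvd m s

theorem jobE1 : JobE1.{u} := by
  classical
  intro G _ _ p U K n e t h hp P X Y δ ε d x y lam ω A hKF _ _ hd hU he h1 h0
  subst hU he hd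
  have B := A.cf.br
  have hUK := A.cf.UK
  have hle := A.cf.le
  have hn := A.cf.hn
  have hte := B.te
  obtain rfl : t = K := by omega
  obtain rfl : n = t + 2 := by omega
  have hG : Nat.card G = p * (p + 1) * (p + 2) := by rw [A.m1.card, hUK]; ring
  obtain ⟨a, ha⟩ := Finset.card_eq_one.1 h1
  have hda : dg a = p + 1 := by
    have := (Finset.mem_filter.1 (ha ▸ Finset.mem_singleton_self a : a ∈ A1 p 2 X δ)).2.2
    omega
  obtain ⟨θ, hθ⟩ := B.Y_nonempty
  have hY := A.ty.hY θ hθ
  have hpos := dg_pos θ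
  have ht0 : (t : ℤ) ≠ 0 := by omega
  have hε : ε = 1 := B.sε.resolve_right fun h => by
    rw [h, hUK] at hY
    push_cast at hY
    nlinarith [Int.natCast_nonneg t, Int.natCast_nonneg (dg θ)]
  have hdθ : dg θ = p + 2 := by
    rw [hε, hUK] at hY
    have : (dg θ : ℤ) = 2 * t + 3 := mul_left_cancel₀ ht0 (by push_cast at hY; linarith)
    omega
  have c1 : (p + 1).Coprime (p * (p + 2)) :=
    Nat.Coprime.mul_right (by simp) (by rw [show p + 2 = 1 + (p + 1) by ring]; simp)
  have c2 : (p + 2).Coprime (p * (p + 1)) := Nat.Coprime.mul_right (by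
    rw [Nat.coprime_self_add_left, hUK]; simp) (by rw [show p + 2 = 1 + (p + 1) by ring]; simp)
  -- elements of order not prime to `p + 1`
  have K1 : ∀ (g : G) (s : ℕ), g ≠ 1 → ¬ p ∣ orderOf g → s.Prime → s ∣ orderOf g → s ∣ p + 1 →
      (θ : G → ℂ) g = 1 ∧ Nat.card (Subgroup.centralizer ({g} : Set G)) ∣ p + 1 := by
    intro g s g1 gp hs s1 s2
    obtain ⟨k1, k2, z, z1, -, z3, z4⟩ := hKF g g1 gp θ hθ
    rw [ha, Finset.sum_singleton, vanish a hda (by rw [hG]; ring) c1 hs s2 s1] at z3 z4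
    rw [Finset.card_eq_zero.1 h0, Finset.sum_empty] at z4
    have hz : (z : ℂ) = 1 := by linear_combination z4
    refine ⟨z1.trans hz, Dvd.intro_left k1 ?_⟩
    have t0 : (t : ℂ) ≠ 0 := by exact_mod_cast ht0
    have : ((k1 * Nat.card (Subgroup.centralizer ({g} : Set G)) : ℕ) : ℂ) = (p + 1 : ℕ) :=
      mul_left_cancel₀ t0 (by
        rw [hz, hUK] at z3
        rw [hUK]
        push_cast at z3 ⊢
        linear_combination z3)
    exact_mod_cast this
  set T : Finset G := Finset.univ.filter fun g => g ≠ 1 ∧ ¬ p ∣ orderOf g ∧ (θ : G → ℂ) g = 1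
    with hT
  have K2 : ∀ g : G, (θ : G → ℂ) g = (if g = 1 then ((p : ℂ) + 2) else 0) +
      (θ : G → ℂ) g * starRingEnd ℂ (sg p g) + if g ∈ T then 1 else 0 := by
    intro g
    simp only [hT, Finset.mem_filter, Finset.mem_univ, true_and]
    by_cases g1 : g = 1
    · subst g1
      rw [sg_of_not B.not_dvd_one, ← coe_dg, hdθ]; simp
    by_cases gp : p ∣ orderOf g
    · simp [g1, gp, sg_of gp]
    rw [sg_of_not gp, if_neg g1]
    by_cases g2 : (θ : G → ℂ) g = 1
    · simp [g1, gp, g2]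
    obtain ⟨s, hs, s1⟩ := Nat.exists_prime_and_dvd (mt orderOf_eq_one_iff.1 g1)
    have s2 := s1.trans (orderOf_dvd_natCard g)
    rw [hG] at s2
    rcases (hs.dvd_mul.1 s2) with s3 | s3
    · rcases hs.dvd_mul.1 s3 with s4 | s4
      · exact absurd ((Nat.prime_dvd_prime_iff_eq hs hp.out).1 s4 ▸ s1) gp
      · exact absurd (K1 g s g1 gp hs s1 s4).1 g2
    · simp [vanish θ hdθ (by rw [hG]; ring) c2 hs s3 s1]
  have hp0 : (p : ℂ) ≠ 0 := Nat.cast_ne_zero.2 hp.out.ne_zero
  have hTc : T.card = p * (p + 2) := by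
    have e1 := card_mul_classInner (θ : G → ℂ) (one G)
    have e2 := card_mul_classInner (θ : G → ℂ) (sg p)
    have e3 := B.inner_sg_Y hθ
    rw [classInner_irr, if_neg (B.ne_one hθ), mul_zero] at e1
    simp only [map_one, mul_one] at e1
    rw [Finset.sum_congr rfl fun g _ => K2 g, Finset.sum_add_distrib, Finset.sum_add_distrib,
      ← e2, Finset.sum_ite_eq', Finset.sum_boole, hG] at e1
    simp only [Finset.mem_univ, if_true, Finset.filter_mem_eq_inter, Finset.univ_inter] at e1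
    rw [hε] at e3
    have : (T.card : ℂ) = (p * (p + 2) : ℕ) := by
      push_cast at e1 e3 ⊢
      linear_combination -e1 - ((p : ℂ) + 1) * (p + 2) * e3
    exact_mod_cast this
  have ho := A.m1.ord
  have x1 : x ≠ 1 := fun h => by simp [h] at ho
  have xp : ¬ p ∣ orderOf x := fun h => by
    have := Nat.le_of_dvd two_pos (ho ▸ h)
    omega
  obtain ⟨x2, x3⟩ := K1 x 2 x1 xp Nat.prime_two ho.symm.dvd ⟨t + 1, by omega⟩
  set C : Finset G := Finset.univ.filter fun g => IsConj x g with hC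
  have hCT : C ⊆ T := fun g hg => by
    obtain ⟨c, rfl⟩ := isConj_iff.1 (Finset.mem_filter.1 hg).2
    refine Finset.mem_filter.2 ⟨Finset.mem_univ _, fun h => x1 (by simpa using h), ?_, ?_⟩
    · rwa [← MulAut.conj_apply, MulEquiv.orderOf_eq]
    · rw [θ.2.isCharacter.isClassFunction, x2]
  have hCc : C.card * Nat.card (Subgroup.centralizer ({x} : Set G)) = p * (p + 1) * (p + 2) := by
    rw [← hG, ← Subgroup.index_mul_card (Subgroup.centralizer ({x} : Set G)),
      ← H29.card_isConj_eq_index, Nat.card_eq_fintype_card (α := {g // IsConj x g}),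
      Fintype.card_subtype]
  have l1 := Finset.card_le_card hCT
  have l2 := Nat.le_of_dvd (Nat.succ_pos p) x3
  have l3 : p * (p + 2) ≤ C.card := Nat.le_of_mul_le_mul_right (c := p + 1) (by
    calc p * (p + 2) * (p + 1) = _ := by rw [← mul_right_comm, ← hCc]
      _ ≤ _ := Nat.mul_le_mul_left _ l2) (Nat.succ_pos p)
  have hE : C = T := Finset.eq_of_subset_of_card_le hCT (by omega)
  refine ⟨x, ho, ?_, fun g g1 hg => ?_⟩
  · rw [hE, hTc, mul_right_comm p (p + 1)] at hCc
    exact Nat.eq_of_mul_eq_mul_left (Nat.mul_pos hp.out.pos (Nat.succ_pos _)) hCc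
  · have gp : ¬ p ∣ orderOf g := fun h => hp.out.one_lt.ne' (Nat.dvd_one.1
      ((Nat.dvd_add_right dvd_rfl).1 (h.trans hg)))
    obtain ⟨s, hs, s1⟩ := Nat.exists_prime_and_dvd (mt orderOf_eq_one_iff.1 g1)
    have : g ∈ C := hE ▸ Finset.mem_filter.2
      ⟨Finset.mem_univ _, g1, gp, (K1 g s g1 gp hs s1 (s1.trans hg)).1⟩
    exact (Finset.mem_filter.1 this).2

end H60.NG
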