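/- Commutators in `SL_n(q)`: the master lemma for cyclic endomorphisms. -/
import Cfsg.Agent.H60.OreSpec

set_option autoImplicit false

namespace H60.Ore
open Polynomial Module H53

universe u
variable {F : Type u} [Field F]
variable {V : Type*} [AddCommGroup V] [Module F V] [FiniteDimensional F V]

/-- Multiplication by `X` modulo `χ` on polynomials of degree less than that of `χ`. -/
noncomputable def zop (χ : F[X]) : End F F[X] :=
  LinearMap.mulLeft F X - ((lcoeff F χ.natDegree).comp (LinearMap.mulLeft F X)).smulRight χ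

theorem zop_apply (χ h : F[X]) : zop χ h = X * h - C ((X * h).coeff χ.natDegree) * χ := by
  simp [zop, smul_eq_C_mul]

noncomputable def cop (χ : F[X]) : End F F[X] := LinearMap.mulLeft F X * zop χ

theorem cop_apply (χ h : F[X]) : cop χ h = X * zop χ h := rfl

theorem mem_dlt {n : ℕ} {h : F[X]} : h ∈ degreeLT F n ↔ ∀ k, n ≤ k → h.coeff k = 0 := by
  rw [mem_degreeLT, degree_lt_iff_coeff_zero]

theorem X_mul_mem {n : ℕ} {h : F[X]} (hh : h ∈ degreeLT F n) : X * h ∈ degreeLT F (n + 1) :=
  mem_dlt.2 fun k hk => by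
    obtain ⟨j, rfl⟩ : ∃ j, k = j + 1 := ⟨k - 1, by omega⟩
    rw [coeff_X_mul]; exact mem_dlt.1 hh j (by omega)

theorem zop_mem {χ h : F[X]} (hm : χ.Monic) (hh : h ∈ degreeLT F χ.natDegree) :
    zop χ h ∈ degreeLT F χ.natDegree := mem_dlt.2 fun k hk => by
  rw [zop_apply, coeff_sub, coeff_C_mul]
  rcases hk.eq_or_lt with rfl | hk
  · rw [coeff_natDegree, hm.leadingCoeff, mul_one, sub_self]
  · rw [mem_dlt.1 (X_mul_mem hh) k hk, coeff_eq_zero_of_natDegree_lt hk, mul_zero, sub_zero]

theorem finrank_dlt (n : ℕ) : finrank F (degreeLT F n) = n := by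
  rw [(degreeLTEquiv F n).finrank_eq, finrank_fin_fun]

theorem divX_X_mul (h : F[X]) : (X * h).divX = h := by ext; rw [coeff_divX, coeff_X_mul]

theorem aeval_cop (χ h : F[X]) (n : ℕ) : ∀ μ : F[X], μ.natDegree ≤ n → ∃ G : F[X],
    G ∈ degreeLT F n ∧ aeval (cop χ) μ h = h * expand F 2 μ - X * χ * expand F 2 G := by
  induction n with
  | zero =>
    intro μ hμ
    refine ⟨0, zero_mem _, ?_⟩
    rw [eq_C_of_natDegree_le_zero hμ]
    simp [smul_eq_C_mul, mul_comm]
  | succ n ih =>
    intro μ hμ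
    obtain ⟨G, hG, e⟩ := ih μ.divX (by rw [natDegree_divX_eq_natDegree_tsub_one]; omega)
    refine ⟨X * G + C ((X * aeval (cop χ) μ.divX h).coeff χ.natDegree),
      add_mem (X_mul_mem hG) (mem_dlt.2 fun k hk => coeff_C_ne_zero (by omega)), ?_⟩
    conv_lhs => rw [← X_mul_divX_add μ]
    conv_rhs => rw [← X_mul_divX_add μ]
    rw [map_add, map_mul, aeval_X, aeval_C, LinearMap.add_apply, End.mul_apply, cop_apply,
      zop_apply, divX_add, divX_C, add_zero, divX_X_mul]
    generalize (X * aeval (cop χ) μ.divX h).coeff χ.natDegree = c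
    simp only [map_add, map_mul, expand_X, expand_C, e, Module.algebraMap_end_apply, smul_eq_C_mul]
    ring

theorem contract_X_expand (a : F[X]) : contract 2 (X * expand F 2 a) = 0 := by
  rw [contract_mul_expand two_ne_zero]
  have : contract 2 (X : F[X]) = 0 := by
    ext k; rw [coeff_contract two_ne_zero, coeff_X]; simp; omega
  rw [this, zero_mul]

/-- The operator `cop χ` has no torsion. -/
theorem torsion_free {χ : F[X]} (hχ : Good χ) {μ h : F[X]} (h0 : aeval (cop χ) μ h = 0)
    (hh : h ≠ 0) : μ = 0 := by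
  by_contra hμ
  obtain ⟨-, c0, e, o, rfl, co⟩ := hχ
  obtain ⟨G, hG, e1⟩ := aeval_cop (expand F 2 e + X * expand F 2 o) h _ μ le_rfl
  rw [h0, eq_comm, sub_eq_zero] at e1
  have d1 : μ ∣ X * o * G := by
    have : h * expand F 2 μ = X * expand F 2 (e * G) + expand F 2 (X * o * G) := by
      rw [e1]; simp only [map_mul, expand_X]; ring
    have := congrArg (contract 2) this
    rw [contract_mul_expand two_ne_zero, contract_add two_ne_zero, contract_X_expand,
      contract_expand _ two_ne_zero, zero_add] at this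
    exact ⟨_, this.symm.trans (mul_comm _ _)⟩
  have d2 : μ ∣ e * G := by
    have : X * h * expand F 2 μ = X * expand F 2 (X * o * G) + expand F 2 (X * (e * G)) := by
      rw [mul_assoc, e1]; simp only [map_mul, expand_X]; ring
    have := congrArg (contract 2) this
    rw [contract_mul_expand two_ne_zero, contract_add two_ne_zero, contract_X_expand,
      contract_expand _ two_ne_zero, zero_add] at this
    obtain ⟨k, hk⟩ : X ∣ contract 2 (X * h) := by
      rw [X_dvd_iff, coeff_contract two_ne_zero]; simp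
    rw [hk, mul_assoc] at this
    exact ⟨k, (mul_left_cancel₀ X_ne_zero this).symm.trans (mul_comm _ _)⟩
  have cX : IsCoprime e X := by
    refine (irreducible_X.coprime_iff_not_dvd.2 fun hd => c0 ?_).symm
    rw [X_dvd_iff] at hd
    simp [coeff_expand, hd]
  obtain ⟨s, t, hst⟩ := cX.mul_right co
  have d : μ ∣ G := by
    have : G = s * (e * G) + t * (X * o * G) := by linear_combination -G * hst
    rw [this]; exact dvd_add (d2.mul_left _) (d1.mul_left _)
  have : G = 0 := eq_zero_of_dvd_of_degree_lt d (by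
    rw [degree_eq_natDegree hμ]; exact mem_degreeLT.1 hG)
  rw [this, map_zero, mul_zero] at e1
  exact mul_ne_zero hh ((expand_ne_zero two_pos).2 hμ) e1

theorem exists_start {χ : F[X]} (hm : χ.Monic) : ∃ e : F[X], e ≠ 0 ∧
    (∀ j ≤ χ.natDegree, (cop χ ^ j) e ∈ degreeLT F (χ.natDegree + 1)) ∧
    ∀ j < χ.natDegree, (cop χ ^ j) e ∈ degreeLT F χ.natDegree := by
  let L : degreeLT F (χ.natDegree + 1) →ₗ[F] (Fin χ.natDegree → F) := LinearMap.pi fun j =>
    (lcoeff F χ.natDegree).comp ((cop χ ^ (j : ℕ)).comp (Submodule.subtype _))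
  have := (degreeLTEquiv F (χ.natDegree + 1)).symm.finiteDimensional
  obtain ⟨e, he, e0⟩ := Submodule.exists_mem_ne_zero_of_ne_bot
    (LinearMap.ker_ne_bot_of_finrank_lt (f := L) (by rw [finrank_dlt, finrank_fin_fun]; omega))
  have low : ∀ j < χ.natDegree, (cop χ ^ j) e.1 ∈ degreeLT F (χ.natDegree + 1) →
      (cop χ ^ j) e.1 ∈ degreeLT F χ.natDegree := fun j hj h => mem_dlt.2 fun k hk => by
    rcases hk.eq_or_lt with rfl | hk
    · exact congrFun (LinearMap.mem_ker.1 he) ⟨j, hj⟩
    · exact mem_dlt.1 h k hk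
  have up : ∀ j ≤ χ.natDegree, (cop χ ^ j) e.1 ∈ degreeLT F (χ.natDegree + 1) := by
    intro j hj
    induction j with
    | zero => exact e.2
    | succ j ih =>
      rw [pow_succ', End.mul_apply]
      exact X_mul_mem (zop_mem hm (low j hj (ih (by omega))))
  exact ⟨e.1, fun h => e0 (Subtype.ext h), up, fun j hj => low j hj (up j hj.le)⟩

theorem indep_cop {χ : F[X]} (hχ : Good χ) {e : F[X]} (he : e ≠ 0) (m : ℕ) :
    LinearIndependent F fun j : Fin m => (cop χ ^ (j : ℕ)) e := by
  refine Fintype.linearIndependent_iff.2 fun c hc i => ?_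
  have := torsion_free hχ (μ := ∑ j : Fin m, monomial j (c j)) (h := e) (by
    simpa [map_sum, aeval_monomial, LinearMap.sum_apply] using hc) he
  have := congrArg (coeff · i) this
  simpa [finset_sum_coeff, coeff_monomial, Fin.val_inj] using this

/-- The reversed companion operator of `p`, of degree `d + 1`. -/
noncomputable def pop (p : F[X]) (d : ℕ) : End F F[X] where
  toFun h := h.divX - C (h.coeff 0) * ∑ j ∈ Finset.range (d + 1), C (p.coeff j) * X ^ (d - j)
  map_add' a b := by rw [divX_add, coeff_add, map_add]; ring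
  map_smul' c a := by
    have : (c • a).divX = c • a.divX := by ext; simp
    rw [this]; simp [smul_eq_C_mul]; ring

theorem pop_apply (p : F[X]) (d : ℕ) (h : F[X]) : pop p d h =
    h.divX - C (h.coeff 0) * ∑ j ∈ Finset.range (d + 1), C (p.coeff j) * X ^ (d - j) := rfl

theorem pop_X_mul (p : F[X]) (d : ℕ) (h : F[X]) : pop p d (X * h) = h := by
  simp [pop_apply, divX_X_mul]

theorem pop_mem (p : F[X]) {d : ℕ} {h : F[X]} (hh : h ∈ degreeLT F (d + 1)) :
    pop p d h ∈ degreeLT F (d + 1) := by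
  rw [pop_apply, ← smul_eq_C_mul]
  refine sub_mem (mem_dlt.2 fun k hk => ?_) (Submodule.smul_mem _ _ (sum_mem fun j _ => ?_))
  · rw [coeff_divX]; exact mem_dlt.1 hh _ (by omega)
  · exact mem_dlt.2 fun k hk => by rw [coeff_C_mul, coeff_X_pow, if_neg (by omega), mul_zero]

theorem pop_pow (p : F[X]) (d j k : ℕ) : (pop p d ^ j) (X ^ (k + j)) = X ^ k := by
  induction j with
  | zero => rfl
  | succ j ih => rw [pow_succ, End.mul_apply, ← add_assoc, pow_succ', pop_X_mul, ih]

theorem aeval_pop {p : F[X]} (hp : p.Monic) {d : ℕ} (hd : p.natDegree = d + 1) :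
    aeval (pop p d) p (X ^ d) = 0 := by
  have h1 : ∀ j ∈ Finset.range (d + 1), (p.coeff j • pop p d ^ j) (X ^ d : F[X]) =
      C (p.coeff j) * X ^ (d - j) := fun j hj => by
    have := pop_pow p d j (d - j)
    rw [Nat.sub_add_cancel (by simpa [Nat.lt_succ_iff] using hj)] at this
    rw [LinearMap.smul_apply, this, smul_eq_C_mul]
  have h2 := pop_pow p d d 0
  rw [zero_add, pow_zero] at h2
  rw [aeval_eq_sum_range, hd, Finset.sum_range_succ, LinearMap.add_apply, LinearMap.sum_apply,
    Finset.sum_congr rfl h1, ← hd, coeff_natDegree, hp.leadingCoeff, one_smul, hd, pow_succ',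
    End.mul_apply, h2, pop_apply]
  simp

theorem eval_pop {p : F[X]} (hp : p.Monic) {d : ℕ} (hd : p.natDegree = d + 1) (h1 : p.eval 1 = 0)
    (h : F[X]) : (pop p d h).eval 1 = h.eval 1 := by
  rw [eval_eq_sum_range, hd, Finset.sum_range_succ, ← hd, coeff_natDegree, hp.leadingCoeff,
    hd] at h1
  conv_rhs => rw [← X_mul_divX_add h]
  simp only [pop_apply, eval_sub, eval_mul, eval_C, eval_finset_sum, eval_pow, eval_X, one_pow,
    eval_add, mul_one, one_mul] at h1 ⊢
  linear_combination -h.coeff 0 * h1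

theorem ed_split {Y : End F V} {c : F} {v : V} {φ : V →ₗ[F] F} (hv : Y v = c • v) (h1 : φ v = 1)
    (hB : ∀ x ∈ LinearMap.ker φ, Y x ∈ LinearMap.ker φ) :
    ed Y = (X - C c) ::ₘ ed (Y.restrict hB) := by
  have hA : ∀ x ∈ Submodule.span F {v}, Y x ∈ Submodule.span F {v} := fun x hx => by
    obtain ⟨a, rfl⟩ := Submodule.mem_span_singleton.1 hx
    rw [map_smul, hv, smul_smul]; exact Submodule.smul_mem _ _ (Submodule.mem_span_singleton_self v)
  have v0 : v ≠ 0 := by rintro rfl; simp at h1
  have hc : IsCompl (Submodule.span F {v}) (LinearMap.ker φ) := by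
    refine ⟨Submodule.disjoint_def.2 fun x hx hx' => ?_, codisjoint_iff.2 (eq_top_iff.2 fun x _ => ?_)⟩
    · obtain ⟨a, rfl⟩ := Submodule.mem_span_singleton.1 hx
      have : a = 0 := by simpa [h1] using hx'
      simp [this]
    · refine Submodule.mem_sup.2 ⟨φ x • v, Submodule.smul_mem _ _
        (Submodule.mem_span_singleton_self v), x - φ x • v, by simp [h1], by simp⟩
  rw [ed_eq_add_of_isCompl hc hA hB, ed_eq_edc (g := Y.restrict hA) (X_sub_C_ne_zero c)
    (sim_cyc_of_vec (v := ⟨v, Submodule.mem_span_singleton_self v⟩) ?_ (X_sub_C_ne_zero c) ?_ ?_)]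
  · simp
  · rintro ⟨w, hw⟩
    obtain ⟨a, rfl⟩ := Submodule.mem_span_singleton.1 hw
    exact ⟨C a, by ext; simp⟩
  · ext; simp [LinearMap.restrict_apply, hv]
  · rw [finrank_span_singleton v0, natDegree_X_sub_C]

end H60.Ore
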