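/- Commutators in `SL_n(q)`: the master lemma and the cyclic blocks. -/
import Cfsg.Agent.H60.OreML

set_option autoImplicit false

namespace H60.Ore
open Polynomial Module H53

universe u
variable {F : Type u} [Field F]
variable {V : Type*} [AddCommGroup V] [Module F V] [FiniteDimensional F V]

theorem core {g : End F V} {p χ : F[X]} {d : ℕ} (hdd : χ.natDegree = d) (b : Basis (Fin (d + 1)) F V)
    (hb : ∀ j : Fin d, g (b j.castSucc) = b j.succ) (hp : p.Monic) (hχ : Good χ)
    (hd : p.natDegree = d + 1) {β : F} (hβ : β * dt χ = dt p * LinearMap.det g)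
    (hc : χ.eval β ≠ 0 ∨ (β = 1 ∧ p.eval 1 = 0 ∧ ∃ x, x ≠ 0 ∧ g x = x)) :
    ∃ P Y : End F V, P * g = Y ∧ ed P = edc p ∧ ed Y = (X - C β) ::ₘ edc χ := by
  have hm := hχ.1
  obtain ⟨e, e0, up, low⟩ := exists_start hm
  rw [hdd] at up low
  have zm : ∀ h ∈ degreeLT F d, zop χ h ∈ degreeLT F d := fun h => hdd ▸ zop_mem hm
  have fin : ∀ n, FiniteDimensional F (degreeLT F n) := fun n =>
    (degreeLTEquiv F n).symm.finiteDimensional
  have rk : finrank F V = d + 1 := by rw [finrank_eq_card_basis b, Fintype.card_fin]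
  let ι : V →ₗ[F] F[X] := b.constr F fun j => (cop χ ^ (j : ℕ)) e
  have ιb : ∀ j, ι (b j) = (cop χ ^ (j : ℕ)) e := fun j => b.constr_basis F _ j
  have inj : Function.Injective ι := b.injective_constr_of_linearIndependent (indep_cop hχ e0 _)
  have rng : LinearMap.range ι = degreeLT F (d + 1) := by
    refine Submodule.eq_of_le_of_finrank_eq ?_ (by rw [LinearMap.finrank_range_of_inj inj, rk,
      finrank_dlt])
    rw [b.constr_range, Submodule.span_le]
    rintro _ ⟨j, rfl⟩
    exact up j (Nat.lt_succ_iff.1 j.2)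
  have ιm : ∀ x, ι x ∈ degreeLT F (d + 1) := fun x => rng ▸ LinearMap.mem_range_self ι x
  have sur : ∀ h ∈ degreeLT F (d + 1), ∃ x, ι x = h := fun h hh => by rwa [← rng] at hh
  obtain ⟨κ, hκ⟩ := ι.exists_leftInverse_of_injective (LinearMap.ker_eq_bot.2 inj)
  have κι : ∀ h ∈ degreeLT F (d + 1), ι (κ h) = h := fun h hh => by
    obtain ⟨x, rfl⟩ := sur h hh
    exact congrArg ι (LinearMap.congr_fun hκ x)
  let P : End F V := κ ∘ₗ pop p d ∘ₗ ι
  have ιP : ∀ x, ι (P x) = pop p d (ι x) := fun x => κι _ (pop_mem p (ιm x))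
  let φ : V →ₗ[F] F := b.coord (Fin.last d)
  have φb : φ (b (Fin.last d)) = 1 := by simp [φ]
  have kerφ : ∀ x, φ x = 0 → ι x ∈ degreeLT F d ∧ ι (g x) = cop χ (ι x) := fun x hx => by
    have hx' : x = ∑ j : Fin d, b.repr x j.castSucc • b j.castSucc := by
      conv_lhs => rw [← b.sum_repr x, Fin.sum_univ_castSucc]
      have : b.repr x (Fin.last d) = 0 := hx
      rw [this, zero_smul, add_zero]
    rw [hx']
    simp only [map_sum, map_smul, hb, ιb]
    refine ⟨sum_mem fun j _ => Submodule.smul_mem _ _ (low _ j.2), Finset.sum_congr rfl fun j _ => ?_⟩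
    rw [Fin.val_succ, pow_succ', End.mul_apply, Fin.val_castSucc]
  have rkφ : finrank F (LinearMap.ker φ) = d := by
    have := LinearMap.finrank_range_add_finrank_ker φ
    rw [LinearMap.range_eq_top.2 (fun c => ⟨c • b (Fin.last d), by rw [map_smul, φb]; simp⟩),
      finrank_top, finrank_self, rk] at this
    omega
  have φker : ∀ x, ι x ∈ degreeLT F d → φ x = 0 := fun x hx => by
    have : (LinearMap.ker φ).map ι = degreeLT F d := Submodule.eq_of_le_of_finrank_eq
      (by rintro _ ⟨y, hy, rfl⟩; exact (kerφ y hy).1)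
      (by rw [← (Submodule.equivMapOfInjective ι inj _).finrank_eq, rkφ, finrank_dlt])
    rw [← this] at hx
    obtain ⟨y, hy, e⟩ := hx
    exact inj e ▸ hy
  have sP : Sim P (cyc p) := by
    have hX : (X ^ d : F[X]) ∈ degreeLT F (d + 1) :=
      mem_dlt.2 fun k hk => by rw [coeff_X_pow, if_neg (by omega)]
    have ev : ∀ Q, ι (aeval P Q (κ (X ^ d))) = aeval (pop p d) Q (X ^ d) := fun Q => by
      rw [intertwine_aeval ι ιP, κι _ hX]
    refine sim_cyc_of_vec (v := κ (X ^ d)) (fun w => ?_) hp.ne_zero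
      (inj (by rw [ev, aeval_pop hp hd, map_zero])) (hd.trans rk.symm)
    refine ⟨∑ j ∈ Finset.range (d + 1), C ((ι w).coeff j) * X ^ (d - j), inj ?_⟩
    rw [ev]
    conv_rhs => rw [as_sum_range' (ι w) (d + 1) (by
      by_cases h0 : ι w = 0
      · simp [h0]
      · exact (natDegree_lt_iff_degree_lt h0).2 (mem_degreeLT.1 (ιm w)))]
    rw [map_sum, LinearMap.sum_apply]
    refine Finset.sum_congr rfl fun j hj => ?_
    have := pop_pow p d (d - j) j
    rw [Nat.add_sub_cancel' (by simpa [Nat.lt_succ_iff] using hj)] at this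
    rw [map_mul, aeval_C, aeval_X_pow, End.mul_apply, this, Module.algebraMap_end_apply,
      smul_X_eq_monomial]
  have ιY : ∀ x, φ x = 0 → ι ((P * g) x) = zop χ (ι x) := fun x hx => by
    rw [End.mul_apply, ιP, (kerφ x hx).2, cop_apply, pop_X_mul]
  have hB : ∀ x ∈ LinearMap.ker φ, (P * g) x ∈ LinearMap.ker φ := fun x hx =>
    φker _ (by rw [ιY x hx]; exact zm _ (kerφ x hx).1)
  have fχ := finite_adjoinRoot hm.ne_zero
  have sY : Sim ((P * g).restrict hB) (cyc χ) := by
    let ψ : LinearMap.ker φ →ₗ[F] AdjoinRoot χ :=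
      (AdjoinRoot.mkₐ χ).toLinearMap ∘ₗ ι ∘ₗ Submodule.subtype _
    have hi : Function.Injective ψ := (injective_iff_map_eq_zero _).2 fun x hx => by
      have : ι x.1 = 0 := eq_zero_of_dvd_of_degree_lt (AdjoinRoot.mk_eq_zero.1 hx) (by
        rw [degree_eq_natDegree hm.ne_zero, hdd]; exact mem_degreeLT.1 (kerφ _ x.2).1)
      exact Subtype.ext (inj (this.trans (map_zero ι).symm))
    refine ⟨LinearEquiv.ofBijective ψ ⟨hi, (LinearMap.injective_iff_surjective_of_finrank_eq_finrank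
      (by rw [rkφ, finrank_adjoinRoot hm.ne_zero, hdd])).1 hi⟩, fun x => ?_⟩
    show AdjoinRoot.mk χ (ι ((P * g) x.1)) = cyc χ (AdjoinRoot.mk χ (ι x.1))
    rw [ιY _ x.2, zop_apply, cyc_apply]
    simp
  have φY : ∀ x, φ ((P * g) x) = φ ((P * g) (b (Fin.last d))) * φ x := fun x => by
    have := hB (x - φ x • b (Fin.last d)) (by simp [φb])
    rw [LinearMap.mem_ker, map_sub, map_smul, map_sub, map_smul, sub_eq_zero] at this
    rw [this, smul_eq_mul, mul_comm]
  have dχ : dt χ ≠ 0 := mul_ne_zero (pow_ne_zero _ (neg_ne_zero.2 one_ne_zero)) hχ.2.1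
  have hq : φ ((P * g) (b (Fin.last d))) = β := by
    have h1 := LinearMap.det_eq_det_mul_det (LinearMap.ker φ) (P * g) hB
    have h2 : (LinearMap.ker φ).mapQ (LinearMap.ker φ) (P * g) hB =
        φ ((P * g) (b (Fin.last d))) • LinearMap.id := by
      refine Submodule.linearMap_qext _ (LinearMap.ext fun x => ?_)
      simp only [LinearMap.comp_apply, Submodule.mkQ_apply, Submodule.mapQ_apply,
        LinearMap.smul_apply, LinearMap.id_apply]
      rw [← Submodule.Quotient.mk_smul, Submodule.Quotient.eq, LinearMap.mem_ker, map_sub, φY x,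
        map_smul, smul_eq_mul, sub_self]
    have h3 : finrank F (V ⧸ LinearMap.ker φ) = 1 := by
      have := Submodule.finrank_quotient_add_finrank (LinearMap.ker φ)
      omega
    have h4 : LinearMap.det ((P * g).restrict hB) = dt χ := by
      rw [sY.det_eq, det_eq_dt, charpoly_cyc hm]
    have := finite_adjoinRoot hp.ne_zero
    rw [h2, LinearMap.det_smul, h3, map_mul, sP.det_eq, det_eq_dt (cyc p), charpoly_cyc hp, ← hβ,
      LinearMap.det_id] at h1
    refine mul_right_cancel₀ dχ ?_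
    rw [h1, pow_one, mul_one, mul_comm]
    exact congrArg (· * _) h4.symm
  rw [hq] at φY
  obtain ⟨v, hv, hv1⟩ : ∃ v, (P * g) v = β • v ∧ φ v = 1 := by
    rcases hc with hc | ⟨rfl, hp1, x, x0, hx⟩
    · have hk : kd ((P * g).restrict hB) (X - C β) = 0 := by
        rw [sY.kd_eq, kd_cyc_of_isCoprime hm.ne_zero
          ((irreducible_X_sub_C β).coprime_iff_not_dvd.2 (by rwa [dvd_iff_isRoot])).symm]
      have hs := LinearMap.injective_iff_surjective.1
        (LinearMap.ker_eq_bot.1 (Submodule.finrank_eq_zero.1 hk))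
      obtain ⟨y, hy⟩ := hs ⟨(P * g) (b (Fin.last d)) - β • b (Fin.last d), by
        rw [LinearMap.mem_ker, map_sub, hq, map_smul, φb, smul_eq_mul, mul_one, sub_self]⟩
      have hy' : (P * g) y.1 - β • y.1 = (P * g) (b (Fin.last d)) - β • b (Fin.last d) := by
        simpa [LinearMap.restrict_apply] using congrArg Subtype.val hy
      refine ⟨b (Fin.last d) - y.1, ?_, by rw [map_sub, φb, LinearMap.mem_ker.1 y.2, sub_zero]⟩
      rw [map_sub, smul_sub, sub_eq_sub_iff_sub_eq_sub, hy']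
    · have φx : φ x ≠ 0 := fun h => by
        have h1 := (kerφ x h).2
        rw [hx] at h1
        exact X_sub_C_ne_zero 1 (torsion_free hχ (μ := X - C 1) (h := ι x) (by simp [← h1])
          fun h0 => x0 (inj (h0.trans (map_zero ι).symm)))
      have hw : φ (P x - x) = 0 := by
        have := φY x
        rw [End.mul_apply, hx] at this
        rw [map_sub, this, one_mul, sub_self]
      obtain ⟨r, hr⟩ : X - C 1 ∣ ι (P x - x) := by
        rw [dvd_iff_isRoot, IsRoot, map_sub, ιP, eval_sub, eval_pop hp hd hp1, sub_self]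
      have hw' := (kerφ _ hw).1
      have hr1 : X * r ∈ degreeLT F d := by
        rw [hr, mem_degreeLT] at hw'
        rwa [mem_degreeLT, degree_mul, degree_X, ← degree_X_sub_C (1 : F), ← degree_mul]
      have hr2 : r ∈ degreeLT F d := mem_dlt.2 fun k hk => by
        rw [← coeff_X_mul]; exact mem_dlt.1 hr1 _ (by omega)
      obtain ⟨y, hy⟩ := sur r (degreeLT_mono (Nat.le_succ _) hr2)
      have φy : φ y = 0 := φker y (hy ▸ hr2)
      have hY : (P * g) (x - y) = x - y := by
        apply inj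
        rw [map_sub, map_sub, ιY y φy, End.mul_apply, hx, hy, zop_apply, hdd,
          mem_dlt.1 hr1 _ le_rfl, map_sub, hy]
        rw [map_sub] at hr
        simp only [map_zero, map_one] at hr ⊢
        linear_combination hr
      refine ⟨(φ x)⁻¹ • (x - y), by rw [map_smul, hY, one_smul], ?_⟩
      rw [map_smul, map_sub, φy, sub_zero, smul_eq_mul, inv_mul_cancel₀ φx]
  exact ⟨P, _, rfl, ed_eq_edc hp.ne_zero sP, by rw [ed_split hv hv1 hB, ed_eq_edc hm.ne_zero sY]⟩

theorem exists_basis_cyc {f : F[X]} (hf : f.Monic) {d : ℕ} (hd : f.natDegree = d + 1) :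
    ∃ b : Basis (Fin (d + 1)) F (AdjoinRoot f),
      ∀ j : Fin d, cyc f (b j.castSucc) = b j.succ := by
  refine ⟨(AdjoinRoot.powerBasis' hf).basis.reindex (finCongr hd), fun j => ?_⟩
  simp only [Basis.reindex_apply, PowerBasis.coe_basis, cyc_apply]
  exact (pow_succ' _ _).symm

theorem det_cyc {f : F[X]} (hf : f.Monic) : LinearMap.det (cyc f) = dt f := by
  have := finite_adjoinRoot hf.ne_zero
  rw [det_eq_dt, charpoly_cyc hf]

theorem ml {f p χ : F[X]} {β : F} (hf : f.Monic) (hp : p.Monic) (hχ : Good χ)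
    (h1 : f.natDegree = χ.natDegree + 1) (h2 : p.natDegree = f.natDegree)
    (h3 : β * dt χ = dt p * dt f) (h4 : χ.eval β ≠ 0 ∨ (β = 1 ∧ p.eval 1 = 0 ∧ f.eval 1 = 0)) :
    E (edc f) (edc p) ((X - C β) ::ₘ edc χ) (β * dt χ) True := by
  have := finite_adjoinRoot hf.ne_zero
  obtain ⟨b, hb⟩ := exists_basis_cyc hf h1
  obtain ⟨P, Y, e, eP, eY⟩ := core rfl b hb hp hχ (h2.trans h1) (h3.trans (by rw [det_cyc hf]))
    (h4.imp id fun ⟨a1, a2, a3⟩ => ⟨a1, a2, by
      obtain ⟨r, hr⟩ := dvd_iff_isRoot.2 a3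
      have r0 : r ≠ 0 := by rintro rfl; exact hf.ne_zero (by simpa using hr)
      refine ⟨AdjoinRoot.mk f r, fun h => ?_, ?_⟩
      · have := natDegree_le_of_dvd (AdjoinRoot.mk_eq_zero.1 h) r0
        rw [hr, natDegree_mul (X_sub_C_ne_zero 1) r0, natDegree_X_sub_C] at this
        omega
      · rw [cyc_apply, ← AdjoinRoot.mk_X, ← map_mul, AdjoinRoot.mk_eq_mk]
        exact ⟨1, by rw [mul_one]; conv_rhs => rw [hr]
                     simp; ring⟩⟩)
  refine E.intro (edc_eq hf.ne_zero).symm ⟨P, Y, e, by rw [eP, eY, add_comm], ?_,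
    fun _ => ⟨β, by simp [eY]⟩⟩
  rw [← dm_ed, eY, dm_cons, dt_lin, dm_edc hχ.1]

theorem ml' {f p χ : F[X]} {a : F} (hf : f.Monic) (f0 : f.coeff 0 ≠ 0) (hp : p.Monic)
    (hχ : Good χ) (h1 : f.natDegree = χ.natDegree + 1) (h2 : p.natDegree = f.natDegree)
    (h3 : a * dt χ * dt f = dt p) (h4 : χ.eval a ≠ 0) :
    E (edc f) ((X - C a) ::ₘ edc χ) (edc p) (dt p) False := by
  have := finite_adjoinRoot hf.ne_zero
  obtain ⟨b, hb⟩ := exists_basis_cyc hf h1
  have d0 : dt f ≠ 0 := mul_ne_zero (pow_ne_zero _ (neg_ne_zero.2 one_ne_zero)) f0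
  obtain ⟨u, hu⟩ : IsUnit (cyc f) :=
    (LinearMap.isUnit_iff_isUnit_det _).2 (by rw [det_cyc hf]; exact d0.isUnit)
  have hi : (u⁻¹).1 * cyc f = 1 := by rw [← hu, Units.inv_mul]
  have hdet : LinearMap.det (u⁻¹).1 * dt f = 1 := by
    rw [← det_cyc hf, ← map_mul, hi, map_one]
  obtain ⟨P, Y, e, eP, eY⟩ := core (g := (u⁻¹).1) (β := a) rfl (b.reindex Fin.revPerm) (fun j => by
      simp only [Basis.reindex_apply, Fin.revPerm_symm, Fin.revPerm_apply, Fin.rev_castSucc,
        Fin.rev_succ]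
      rw [← hb, ← End.mul_apply, hi, End.one_apply]) hp hχ (h2.trans h1)
    (by rw [← h3, mul_assoc, mul_assoc, mul_comm (dt f), hdet, mul_one]) (.inl h4)
  refine E.intro (edc_eq hf.ne_zero).symm ⟨Y, P, by rw [← e, mul_assoc, hi, mul_one],
    by rw [eP, eY, add_comm], by rw [← dm_ed, eP, dm_edc hp], False.elim⟩

theorem tr {f χ : F[X]} {a : F} (hf : f.Monic) (hχ : Good χ) (h1 : f.natDegree = χ.natDegree + 1)
    (h2 : χ.eval a ≠ 0) (h3 : χ.eval (dt f * a) ≠ 0) :
    E (edc f) {X - C a} {X - C (dt f * a)} (dt f * a * dt χ) True := by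
  refine (ml hf ((monic_X_sub_C a).mul hχ.1) hχ h1 ?_ ?_ (.inl h3)).congr ?_ rfl id
  · rw [(monic_X_sub_C a).natDegree_mul hχ.1, natDegree_X_sub_C, h1, add_comm]
  · rw [dt_mul (monic_X_sub_C a) hχ.1, dt_lin]; ring
  · rw [edc_lin_mul h2, ← Multiset.singleton_add, ← Multiset.singleton_add]; abel

theorem good_lin {z : F} (hz : z ≠ 0) : Good (X - C z) :=
  ⟨monic_X_sub_C z, by simpa, -C z, 1, by simp; ring, isCoprime_one_right⟩

theorem coprime_C {a : F} (ha : a ≠ 0) (e : F[X]) : IsCoprime e (C a) :=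
  ⟨0, C a⁻¹, by rw [zero_mul, zero_add, ← C_mul, inv_mul_cancel₀ ha, C_1]⟩

theorem exists_avoid [Fintype F] (s : Finset F) (h : s.card < Fintype.card F) : ∃ x, x ∉ s := by
  by_contra! h'
  rw [Finset.eq_univ_of_forall h', Finset.card_univ] at h
  exact lt_irrefl _ h

/-- A polynomial for the master lemma with given degree and constant term. -/
theorem exists_good [Fintype F] {k : ℕ} (hk : 2 ≤ k) {a c b : F} (ha : a ≠ 0) (hc : c ≠ 0)
    (hb : b ≠ 0) (hex : Fintype.card F = 3 → k = 2 → a = c) :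
    ∃ χ : F[X], Good χ ∧ χ.natDegree = k ∧ χ.coeff 0 = b ∧ χ.eval a ≠ 0 ∧ χ.eval c ≠ 0 := by
  classical
  have main : ∀ x y : F, (k = 2 → y = 0) → (Even k → x ≠ 0) → (Odd k → y = 0) →
      a ^ k + y * a ^ 2 + x * a + b ≠ 0 → c ^ k + y * c ^ 2 + x * c + b ≠ 0 →
      ∃ χ : F[X], Good χ ∧ χ.natDegree = k ∧ χ.coeff 0 = b ∧ χ.eval a ≠ 0 ∧ χ.eval c ≠ 0 := by
    intro x y h2 he ho h3 h4
    have hl : (C y * X ^ 2 + C x * X + C b : F[X]).degree < k := by
      rcases hk.eq_or_lt with rfl | hk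
      · rw [h2 rfl, C_0, zero_mul, zero_add]; exact degree_linear_lt
      · exact degree_quadratic_lt.trans_le (by exact_mod_cast hk)
    have c0 : (X ^ k + (C y * X ^ 2 + C x * X + C b) : F[X]).coeff 0 = b := by
      simp [coeff_X_pow, show 0 ≠ k by omega]
    refine ⟨X ^ k + (C y * X ^ 2 + C x * X + C b), ⟨monic_X_pow_add hl, by rwa [c0], ?_⟩, ?_, c0,
      by simpa [add_assoc] using h3, by simpa [add_assoc] using h4⟩
    · rcases Nat.even_or_odd k with h | h
      · obtain ⟨j, rfl⟩ := h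
        exact ⟨X ^ j + C y * X + C b, C x, by simp; ring, coprime_C (he ⟨j, rfl⟩) _⟩
      · have := ho h
        obtain ⟨j, rfl⟩ := h
        exact ⟨C b, X ^ j + C x, by simp [this]; ring, (coprime_C hb _).symm⟩
    · rw [natDegree_add_eq_left_of_degree_lt (by rwa [degree_X_pow]), natDegree_X_pow]
  have av : ∀ x z : F, z ≠ 0 → x ≠ -(z ^ k + b) / z → z ^ k + 0 * z ^ 2 + x * z + b ≠ 0 :=
    fun x z hz hx h => hx (by field_simp; linear_combination h)
  have c1 := Fintype.one_lt_card (α := F)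
  by_cases c2 : Fintype.card F = 2
  · have one : ∀ x : F, x ≠ 0 → x = 1 := fun x hx => by
      simpa [c2] using FiniteField.pow_card_sub_one_eq_one x hx
    have two : (2 : F) = 0 := by simpa [c2] using FiniteField.cast_card_eq_zero F
    have : (1 : F) ^ k + 0 * 1 ^ 2 + 1 * 1 + 1 ≠ 0 := fun h =>
      one_ne_zero (α := F) (by linear_combination (exp := 1) h - two - one_pow (M := F) k)
    obtain rfl := one a ha; obtain rfl := one c hc; obtain rfl := one b hb
    exact main 1 0 (fun _ => rfl) (fun _ => one_ne_zero) (fun _ => rfl) this this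
  rcases Nat.even_or_odd k with h | h
  · by_cases c3 : Fintype.card F = 3
    · by_cases k2 : k = 2
      · obtain rfl := hex c3 k2
        obtain ⟨x, hx⟩ := exists_avoid {0, -(a ^ k + b) / a} (Finset.card_le_two.trans_lt (by omega))
        simp only [Finset.mem_insert, Finset.mem_singleton, not_or] at hx
        exact main x 0 (fun _ => rfl) (fun _ => hx.1) (fun _ => rfl) (av _ _ ha hx.2) (av _ _ ha hx.2)
      · have sq : ∀ z : F, z ≠ 0 → z ^ k + (-1 - b) * z ^ 2 + 1 * z + b ≠ 0 := fun z hz e => by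
          have s : z ^ 2 = 1 := by simpa [c3] using FiniteField.pow_card_sub_one_eq_one z hz
          obtain ⟨j, rfl⟩ := h
          rw [← two_mul, pow_mul, s, one_pow] at e
          exact hz (by linear_combination e)
        exact main 1 (-1 - b) (fun e => absurd e k2) (fun _ => one_ne_zero)
          (fun o => absurd h (Nat.not_even_iff_odd.2 o)) (sq a ha) (sq c hc)
    · obtain ⟨x, hx⟩ := exists_avoid {0, -(a ^ k + b) / a, -(c ^ k + b) / c}
        (Finset.card_le_three.trans_lt (by omega))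
      simp only [Finset.mem_insert, Finset.mem_singleton, not_or] at hx
      exact main x 0 (fun _ => rfl) (fun _ => hx.1) (fun _ => rfl) (av _ _ ha hx.2.1)
        (av _ _ hc hx.2.2)
  · obtain ⟨x, hx⟩ := exists_avoid {-(a ^ k + b) / a, -(c ^ k + b) / c}
      (Finset.card_le_two.trans_lt (by omega))
    simp only [Finset.mem_insert, Finset.mem_singleton, not_or] at hx
    exact main x 0 (fun _ => rfl) (fun e => absurd e (Nat.not_even_iff_odd.2 h)) (fun _ => rfl)
      (av _ _ ha hx.1) (av _ _ hc hx.2)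

theorem flex [Fintype F] {f : F[X]} (hf : f.Monic) (f0 : f.coeff 0 ≠ 0) (h3 : 3 ≤ f.natDegree)
    (hex : ¬ (Fintype.card F = 3 ∧ f.natDegree = 3 ∧ dt f = -1)) : Flex (edc f) := by
  have d0 : dt f ≠ 0 := mul_ne_zero (pow_ne_zero _ (neg_ne_zero.2 one_ne_zero)) f0
  rw [Flex, dm_edc hf]
  refine ⟨d0, fun a ω ha hω => ?_⟩
  have s0 : ((-1 : F) ^ (f.natDegree - 1)) ≠ 0 := pow_ne_zero _ (neg_ne_zero.2 one_ne_zero)
  obtain ⟨χ, g, h1, h2, h4, h5⟩ := exists_good (k := f.natDegree - 1) (by omega) ha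
    (mul_ne_zero d0 ha) (div_ne_zero hω (mul_ne_zero (mul_ne_zero d0 ha) s0)) fun c3 k2 => by
      have s : dt f ^ 2 = 1 := by simpa [c3] using FiniteField.pow_card_sub_one_eq_one _ d0
      rcases mul_self_eq_one_iff.1 ((pow_two _).symm.trans s) with e | e
      · rw [e, one_mul]
      · exact absurd ⟨c3, by omega, e⟩ hex
  refine (tr hf g (by omega) h4 h5).congr rfl ?_ id
  rw [show dt χ = _ * _ from rfl, h1, h2]; field_simp

theorem jobKit : JobKit.{u} := fun _ _ _ =>
  ⟨fun _ _ _ _ => ml, fun _ _ _ _ => ml', fun _ _ _ => tr, fun f a z hf h2 hz h3 h4 => by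
    simpa using tr (a := a) hf (good_lin hz) (by rw [h2, natDegree_X_sub_C])
      (by simpa [sub_eq_zero] using h3.symm) (by simpa [sub_eq_zero] using h4.symm),
    fun _ => flex⟩

end H60.Ore
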