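/- Tower RV (row S5207), slot N: three radical lines for `p = 5` and `p = 13`. -/
import Cfsg.Agent.H9.RVKit

set_option autoImplicit false
set_option linter.unusedSectionVars false

namespace H60.RvN

open H9.RV Subgroup

/-- matrices as tuples -/
abbrev M4 (p : ℕ) : Type := ZMod p × ZMod p × ZMod p × ZMod p

variable {p : ℕ}

/-- the product -/
def mm (x y : M4 p) : M4 p := (x.1 * y.1 + x.2.1 * y.2.2.1, x.1 * y.2.1 + x.2.1 * y.2.2.2,
  x.2.2.1 * y.1 + x.2.2.2 * y.2.2.1, x.2.2.1 * y.2.1 + x.2.2.2 * y.2.2.2)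

/-- the entries -/
def tm (B : G2 p) : M4 p := (B 0 0, B 0 1, B 1 0, B 1 1)

/-- the value of a word -/
def ev (gs : List (M4 p)) (w : List ℕ) : M4 p := w.foldr (fun i m => mm (gs.getD i (1, 0, 0, 1)) m) (1, 0, 0, 1)

/-- a nonscalar matrix with a double eigenvalue -/
def Par (m : M4 p) : Prop :=
  (m.1 + m.2.2.2) * (m.1 + m.2.2.2) = 4 * (m.1 * m.2.2.2 - m.2.1 * m.2.2.1) ∧ (m.2.1 ≠ 0 ∨ m.2.2.1 ≠ 0)

instance (m : M4 p) : Decidable (Par m) := by unfold Par; infer_instance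

/-- the tuple is an element of `W` -/
def In (W : Subgroup (G2 p)) (m : M4 p) : Prop := ∃ B ∈ W, tm B = m

/-- torus elements at `(1, c)` -/
def T (g k c t : ZMod p) : M4 p := (k - t * c, t, k * c - (g * g + t * c) * c, g * g + t * c)

/-- the six lines -/
def R0 (x y : ZMod p) : Prop := ¬ (x = 0 ∧ y = 0) ∧ (x = 0 ∨ y = 0 ∨ x ^ 4 = y ^ 4)

instance (x y : ZMod p) : Decidable (R0 x y) := by unfold R0; infer_instance

/-- the finite checks -/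
structure Ck (g k t0 : ZMod p) (L1 L2 L3 : List (List ℕ)) (ws : List ℕ) : Prop where
  gk : g * k = 1
  ne : g * g ≠ k
  k1 : ∀ t, t = t0 ∨ ∃ w ∈ L1, Par (ev [(k, 0, 0, g * g), T g k 1 t] w)
  k2 : ∀ c t, c = 0 ∨ c ^ 4 = 1 ∨ ∃ w ∈ L2, Par (ev [(k, 0, 0, g * g), T g k 1 t0, T g k c t] w)
  ln : ∀ x y, R0 x y → ∃ w ∈ L3, (ev [(k, 0, 0, g * g), T g k 1 t0] w).1 * y =
    (ev [(k, 0, 0, g * g), T g k 1 t0] w).2.2.1 * x
  sc : ev [(k, 0, 0, g * g), T g k 1 t0] ws = (g, 0, 0, g)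
  gen : ∀ t : ZMod p, t ≠ 0 → ∃ n < 12, t = g ^ n
  rt : ∀ e : ZMod p, e ^ 4 = 1 → ∃ n < 4, e = (g * (g * g)) ^ n

theorem tm_mul (A B : G2 p) : tm (A * B) = mm (tm A) (tm B) := by
  simp [tm, mm, Matrix.mul_apply, Fin.sum_univ_two]

theorem tm_one : tm (1 : G2 p) = (1, 0, 0, 1) := by simp [tm]

theorem tm_inj {A B : G2 p} (h : tm A = tm B) : A = B := by
  simp only [tm, Prod.mk.injEq] at h
  refine Units.ext (Matrix.ext fun i j => ?_)
  fin_cases i <;> fin_cases j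
  exacts [h.1, h.2.1, h.2.2.1, h.2.2.2]

variable {W W' : Subgroup (G2 p)} {R R' : Set (V2 p)}

theorem In.mul {x y : M4 p} (h : In W x) (k : In W y) : In W (mm x y) := by
  obtain ⟨A, hA, rfl⟩ := h
  obtain ⟨B, hB, rfl⟩ := k
  exact ⟨A * B, W.mul_mem hA hB, tm_mul A B⟩

theorem In.one : In W (1, 0, 0, 1) := ⟨1, W.one_mem, tm_one⟩

theorem In.ev {gs : List (M4 p)} (h : ∀ m ∈ gs, In W m) : ∀ w, In W (ev gs w)
  | [] => .one
  | i :: w => by
    refine In.mul ?_ (In.ev h w)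
    rw [List.getD_eq_getElem?_getD]
    cases e : gs[i]? with
    | none => exact .one
    | some m => exact h m (List.mem_of_getElem? e)

theorem In.pow {a b : ZMod p} (h : In W (a, 0, 0, b)) : ∀ n : ℕ, In W (a ^ n, 0, 0, b ^ n)
  | 0 => by simpa using In.one
  | n + 1 => by simpa [mm, pow_succ] using (h.pow n).mul h

variable [Fact p.Prime]

theorem not_par (h2 : p ≠ 2) (a : Adm p W R) {m : M4 p} (h : In W m) : ¬ Par m := by
  obtain ⟨B, hB, rfl⟩ := h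
  rintro ⟨h1, h3⟩
  simp only [tm] at h1 h3
  have two := two_ne h2
  obtain ⟨l, hl⟩ : ∃ l, B 0 0 + B 1 1 = 2 * l := ⟨(B 0 0 + B 1 1) / 2, by field_simp⟩
  have hd : l * l = B 0 0 * B 1 1 - B 0 1 * B 1 0 :=
    mul_left_cancel₀ (mul_ne_zero two two) (by rw [hl] at h1; linear_combination h1)
  have l0 : l ≠ 0 := fun e => dt_ne B (by rw [dt_eq, ← hd, e, mul_zero])
  have key : ∀ n : ℕ, l * (tm (B ^ n)).1 = l ^ n * (l + n * (B 0 0 - l)) ∧ l * (tm (B ^ n)).2.1 = l ^ n * n * B 0 1 ∧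
      l * (tm (B ^ n)).2.2.1 = l ^ n * n * B 1 0 ∧ l * (tm (B ^ n)).2.2.2 = l ^ n * (l + n * (B 1 1 - l)) := by
    intro n
    induction n with
    | zero => simp [tm_one]
    | succ n ih =>
      obtain ⟨e1, e2, e3, e4⟩ := ih
      rw [pow_succ B, tm_mul]
      generalize tm (B ^ n) = x at *
      simp only [mm, tm]
      push_cast
      refine ⟨?_, ?_, ?_, ?_⟩
      · linear_combination B 0 0 * e1 + B 1 0 * e2 + l ^ n * n * hd + l ^ n * n * B 0 0 * hl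
      · linear_combination B 0 1 * e1 + B 1 1 * e2 + l ^ n * n * B 0 1 * hl
      · linear_combination B 0 0 * e3 + B 1 0 * e4 + l ^ n * n * B 1 0 * hl
      · linear_combination B 0 1 * e3 + B 1 1 * e4 + l ^ n * n * hd + l ^ n * n * B 1 1 * hl
  have hn : ((Nat.card W : ℕ) : ZMod p) ≠ 0 := fun e => a.cop ((ZMod.natCast_eq_zero_iff _ _).1 e)
  have h4 : B ^ Nat.card W = 1 := congrArg Subtype.val (pow_card_eq_one' (x := (⟨B, hB⟩ : W)))
  obtain ⟨-, e2, e3, -⟩ := key (Nat.card W)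
  rw [h4, tm_one, mul_zero] at e2 e3
  have h5 := mul_ne_zero (pow_ne_zero (Nat.card W) l0) hn
  exact h3.elim (fun e => mul_ne_zero h5 e e2.symm) fun e => mul_ne_zero h5 e e3.symm

theorem tor {g k c : ZMod p} (gk : g * k = 1) (a : Adm p W R) (h : ![1, c] ∈ R) : ∃ t, In W (T g k c t) := by
  obtain ⟨A, hA, e1, e2⟩ := a.tor _ h g (left_ne_zero_of_mul_eq_one gk)
  rw [← eq_inv_of_mul_eq_one_right gk] at e1
  have e3 := congrFun e1 0
  have e4 := congrFun e1 1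
  rw [act_apply0] at e3
  rw [act_apply1] at e4
  rw [dt_eq] at e2
  simp at e3 e4
  have e5 : A 1 1 = g * g + A 0 1 * c := by
    linear_combination g * e2 - g * A 1 1 * e3 + g * A 0 1 * e4 - (A 1 1 - A 0 1 * c) * gk
  refine ⟨A 0 1, A, hA, ?_⟩
  simp only [tm, T, Prod.mk.injEq, true_and]
  exact ⟨by linear_combination e3, by linear_combination e4 - c * e5, e5⟩

/-- the normal form -/
structure Nm (g k t0 : ZMod p) (W : Subgroup (G2 p)) (R : Set (V2 p)) : Prop where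
  adm : Adm p W R
  d : In W (k, 0, 0, g * g)
  a : In W (T g k 1 t0)
  e : ![1, 0] ∈ R

variable {g k t0 : ZMod p} {L1 L2 L3 : List (List ℕ)} {ws : List ℕ}

theorem Nm.gens (n : Nm g k t0 W R) : ∀ m ∈ [(k, 0, 0, g * g), T g k 1 t0], In W m := by
  simpa using ⟨n.d, n.a⟩

theorem Nm.sub (h2 : p ≠ 2) (c : Ck g k t0 L1 L2 L3 ws) (n : Nm g k t0 W R) {v : V2 p} (h : v ∈ R) :
    R0 (v 0) (v 1) := by
  refine ⟨fun e => n.adm.ne v h (funext fun i => by fin_cases i; exacts [e.1, e.2]), ?_⟩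
  by_contra hn
  push Not at hn
  have h1 := n.adm.smul v h (v 0)⁻¹ (inv_ne_zero hn.1)
  rw [show (v 0)⁻¹ • v = ![1, v 1 / v 0] from funext fun i => by
    fin_cases i <;> simp [hn.1, div_eq_inv_mul]] at h1
  obtain ⟨t, ht⟩ := tor c.gk n.adm h1
  rcases c.k2 (v 1 / v 0) t with e | e | ⟨w, -, e⟩
  · exact div_ne_zero hn.2.1 hn.1 e
  · rw [div_pow, div_eq_one_iff_eq (pow_ne_zero 4 hn.1)] at e
    exact hn.2.2 e.symm
  · exact not_par h2 n.adm (In.ev (by simpa using ⟨n.d, n.a, ht⟩) w) e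

theorem Nm.line (c : Ck g k t0 L1 L2 L3 ws) (n : Nm g k t0 W R) (n' : Nm g k t0 W' R') {v : V2 p}
    (h : R0 (v 0) (v 1)) : ∃ C ∈ W, C ∈ W' ∧ ∃ t : ZMod p, v = t • act C ![1, 0] := by
  obtain ⟨w, -, e⟩ := c.ln _ _ h
  obtain ⟨C, h1, e1⟩ := In.ev n.gens w
  obtain ⟨C', h2, e2⟩ := In.ev n'.gens w
  obtain rfl := tm_inj (e1.trans e2.symm)
  refine ⟨C, h1, h2, (om_eq_zero fun e0 => ?_).1 ?_⟩
  · simpa using congrFun (act_eq_zero.1 e0) 0
  · rw [← e1] at e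
    simpa [om, act_apply0, act_apply1, sub_eq_zero, tm] using e

theorem Nm.sup (c : Ck g k t0 L1 L2 L3 ws) (n : Nm g k t0 W R) {v : V2 p} (h : R0 (v 0) (v 1)) : v ∈ R := by
  obtain ⟨C, hC, -, t, rfl⟩ := n.line c n h
  exact n.adm.smul _ (n.adm.inv C hC _ n.e) t fun e => h.1 (by simp [e])

theorem Nm.le (h2 : p ≠ 2) (c : Ck g k t0 L1 L2 L3 ws) (n : Nm g k t0 W R) (n' : Nm g k t0 W' R') : W ≤ W' := by
  intro B0 hB0
  obtain ⟨C, h1, h3, t, e⟩ := n.line c n' (n.sub h2 c (n.adm.inv B0 hB0 _ n.e))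
  obtain ⟨B, rfl⟩ : ∃ B, B0 = C * B := ⟨C⁻¹ * B0, by simp⟩
  have hB : B ∈ W := (W.mul_mem_cancel_left h1).1 hB0
  refine W'.mul_mem h3 ?_
  rw [act_mul, ← act_smul] at e
  have e1 : B 1 0 = 0 := by simpa [act_apply1] using congrFun (act_inj C e) 1
  have hd := dt_ne B
  rw [dt_eq, e1, mul_zero, sub_zero] at hd
  have ha := left_ne_zero_of_mul hd
  have hd' := right_ne_zero_of_mul hd
  have g0 := left_ne_zero_of_mul_eq_one c.gk
  have k0 := right_ne_zero_of_mul_eq_one c.gk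
  obtain ⟨D, hD, eD⟩ := n.d
  have e2 : B 0 1 = 0 := by
    have hY := not_par h2 n.adm ⟨_, W.mul_mem (W.mul_mem hB hD) (W.inv_mem (W.mul_mem hD hB)), rfl⟩
    have e3 := tm_mul (B * D * (D * B)⁻¹) (D * B)
    rw [inv_mul_cancel_right, tm_mul, tm_mul D, eD] at e3
    generalize tm (B * D * (D * B)⁻¹) = y at hY e3
    simp only [mm, tm, e1, Prod.mk.injEq, mul_zero, add_zero, zero_mul, zero_add] at e3
    obtain ⟨f1, f2, f3, f4⟩ := e3
    have y0 : y.1 = 1 := mul_right_cancel₀ (mul_ne_zero k0 ha) (by linear_combination -f1)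
    have y2 : y.2.2.1 = 0 := (mul_eq_zero.1 f3.symm).resolve_right (mul_ne_zero k0 ha)
    have y3 : y.2.2.2 = 1 := mul_right_cancel₀ (mul_ne_zero (mul_ne_zero g0 g0) hd') (by
      rw [y2] at f4; linear_combination -f4)
    have y1 : y.2.1 = 0 := by_contra fun e => hY ⟨by rw [y0, y2, y3]; ring, Or.inl e⟩
    rw [y0, y1] at f2
    exact (mul_eq_zero.1 (show B 0 1 * (g * g - k) = 0 by linear_combination f2)).resolve_right
      (sub_ne_zero.2 c.ne)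
  have h4 := (n.sub h2 c (n.adm.inv B hB _ (n.sup c (v := ![1, 1]) ⟨by simp, by simp⟩))).2
  simp [act_apply0, act_apply1, e1, e2, ha, hd'] at h4
  obtain ⟨i, -, ei⟩ := c.gen _ ha
  obtain ⟨j, -, ej⟩ := c.rt (B 1 1 / B 0 0) (by rw [div_pow, h4, div_self (pow_ne_zero 4 hd')])
  have hS : In W' (g, 0, 0, g) := c.sc ▸ In.ev n'.gens ws
  have hJ : In W' (1, 0, 0, g * (g * g)) := by simpa [mm, c.gk] using hS.mul n'.d
  obtain ⟨B', hB', e'⟩ := (hS.pow i).mul (hJ.pow j)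
  rw [← ei, ← ej] at e'
  rwa [tm_inj (A := B) (B := B') (by rw [e']; simp [mm, tm, e1, e2, mul_div_cancel₀ _ ha])]

theorem exists_nm (h2 : p ≠ 2) (c : Ck g k t0 L1 L2 L3 ws) (a : Adm p W R) (h : Thr R) :
    ∃ W' R', Cj W R W' R' ∧ Nm g k t0 W' R' := by
  obtain ⟨u, hu, v, hv, w, hw, e1, e2, e3⟩ := h
  obtain ⟨P, p1, p2, -⟩ := exists_cols e1
  obtain ⟨W1, R1, c1, c2⟩ := exists_cj P⁻¹ W R
  have j1 : Cj W R W1 R1 := ⟨_, c1, c2⟩
  have a1 := j1.adm a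
  have u1 : ![1, 0] ∈ R1 := by rw [← act_inv_act P ![1, 0], p1]; exact (c2 u).1 hu
  have v1 : ![0, 1] ∈ R1 := by rw [← act_inv_act P ![0, 1], p2]; exact (c2 v).1 hv
  have w1 := (c2 w).1 hw
  rw [← p1, ← act_act_inv P w, om_act] at e2
  rw [← p2, ← act_act_inv P w, om_act] at e3
  generalize act P⁻¹ w = x at w1 e2 e3
  have x1 : x 1 ≠ 0 := by simpa [om] using right_ne_zero_of_mul e2
  have x0 : x 0 ≠ 0 := by simpa [om] using right_ne_zero_of_mul e3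
  obtain ⟨t, A, hA, eA⟩ := tor c.gk a1 u1
  obtain ⟨β, hβ⟩ : ∃ β, t = β * (g * g - k) := ⟨t / (g * g - k), (div_mul_cancel₀ _ (sub_ne_zero.2 c.ne)).symm⟩
  obtain ⟨z, hz, z1, z0⟩ : ∃ z ∈ R1, z 1 ≠ 0 ∧ z 0 - β * z 1 ≠ 0 := by
    by_cases e : β = 0
    exacts [⟨x, w1, x1, by simpa [e] using x0⟩, ⟨_, v1, by simp, by simpa using e⟩]
  obtain ⟨Q, hQ⟩ := exists_mat (z 0 - β * z 1) (β * z 1) 0 (z 1) (by simpa using ⟨z0, z1⟩)
  obtain ⟨W2, R2, d1, d2⟩ := exists_cj Q⁻¹ W1 R1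
  have j2 : Cj W1 R1 W2 R2 := ⟨_, d1, d2⟩
  have a2 := j2.adm a1
  have q : ∀ y, act Q y ∈ R1 → y ∈ R2 := fun y hy => by simpa using (d2 _).1 hy
  have q1 : ![1, 0] ∈ R2 := q _ (by
    rw [show act Q ![1, 0] = (z 0 - β * z 1) • ![1, 0] from funext fun i => by
      fin_cases i <;> simp [act_apply0, act_apply1, hQ]]
    exact a1.smul _ u1 _ z0)
  have q2 : ![1, 1] ∈ R2 := q _ (by
    rwa [show act Q ![1, 1] = z from funext fun i => by fin_cases i <;> simp [act_apply0, act_apply1, hQ]])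
  have hD : In W2 (k, 0, 0, g * g) := by
    obtain ⟨D, eD⟩ := exists_mat k 0 0 (g * g) (by
      simpa using ⟨right_ne_zero_of_mul_eq_one c.gk, left_ne_zero_of_mul_eq_one c.gk⟩)
    have eD' : tm D = (k, 0, 0, g * g) := by simp [tm, eD]
    have : A * Q = Q * D := tm_inj (by
      rw [tm_mul, tm_mul, eA, eD']
      simp only [mm, tm, T, hQ, hβ]
      simp
      constructor <;> ring_nf
      trivial)
    refine ⟨D, ?_, eD'⟩
    have h5 := (d1 A).1 hA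
    rwa [inv_inv, mul_assoc, this, inv_mul_cancel_left] at h5
  obtain ⟨s, hs⟩ := tor c.gk a2 q2
  rcases c.k1 s with rfl | ⟨w, -, e⟩
  · exact ⟨W2, R2, j1.trans j2, a2, hD, hs, q1⟩
  · exact absurd e (not_par h2 a2 (In.ev (by simpa using ⟨hD, hs⟩) w))

theorem main (h2 : p ≠ 2) (c : Ck g k t0 L1 L2 L3 ws) : JobN p := by
  intro W W' R R' a h a' h'
  obtain ⟨W1, R1, j1, n1⟩ := exists_nm h2 c a h
  obtain ⟨W2, R2, j2, n2⟩ := exists_nm h2 c a' h'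
  obtain rfl := le_antisymm (n1.le h2 c n2) (n2.le h2 c n1)
  obtain rfl : R1 = R2 := Set.ext fun v => ⟨fun e => n2.sup c (n1.sub h2 c e), fun e => n1.sup c (n2.sub h2 c e)⟩
  exact j1.trans j2.symm

theorem ck5 : Ck (2 : ZMod 5) 3 2 [[0, 0, 0, 1, 1, 0, 1, 1]] []
    [[], [1], [0, 1], [1, 1], [0, 0, 1], [0, 0, 0, 1]] [0, 0, 1, 0, 0, 1] := by
  constructor <;> decide +kernel

theorem ck13 : Ck (2 : ZMod 13) 7 8
    [[0, 0, 0, 1, 0, 1], [0, 0, 0, 1, 0, 1, 1, 1], [0, 1], [0, 0, 0, 1], [0, 0, 0, 1, 0, 0, 1, 1, 0, 1],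
      [0, 0, 0, 1, 0, 1, 0, 0, 1, 1]]
    [[0, 0, 0, 2, 0, 2], [0, 2], [0, 0, 0, 2], [0, 1, 1, 2], [0, 0, 1, 2], [0, 1, 0, 2], [1, 2], [0, 0, 1, 1, 2, 2],
      [0, 2, 1, 1]]
    [[], [1], [0, 1], [1, 1], [0, 0, 1], [0, 0, 0, 1]] [0, 0, 0, 0, 0, 0, 0, 0, 0, 0, 1, 0, 0, 1] := by
  constructor <;> decide +kernel

theorem jobN5 : JobN 5 := haveI : Fact (Nat.Prime 5) := ⟨by norm_num⟩; main (by decide) ck5

theorem jobN13 : JobN 13 := haveI : Fact (Nat.Prime 13) := ⟨by norm_num⟩; main (by decide) ck13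

end H60.RvN
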