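/- SPIN tower (row S4578), slot TwoA + GAn. -/
import Cfsg.Agent.H2.SpSpec

set_option autoImplicit false

namespace H60.Sp

open Cfsg Equiv H2.Sp Subgroup H28 H38 H40.Sn H40.An

theorem commute_of_three {Ω : Type} {g f1 f2 f3 : Perm Ω} (h12 : f1.Disjoint f2) (h13 : f1.Disjoint f3)
    (h23 : f2.Disjoint f3) (c2 : Commute g (f1 * f2)) (c3 : Commute g (f1 * f3)) : Commute g f1 := by
  have k : ∀ x, f1 x = x ↔ (f1 * f2) x = x ∨ (f1 * f3) x = x := fun x => by
    rw [h12.mul_apply_eq_iff, h13.mul_apply_eq_iff]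
    have := h23 x
    tauto
  have e : ∀ {s : Perm Ω}, Commute g s → ∀ x, s (g x) = g (s x) := fun c x => (congrArg (· x) c.eq).symm
  have k2 : ∀ x, f1 (g x) = g x ↔ f1 x = x := fun x => by
    rw [k, k, e c2, e c3, g.injective.eq_iff, g.injective.eq_iff]
  refine Equiv.ext fun x => ?_
  show g (f1 x) = f1 (g x)
  by_cases h : f1 x = x
  · rw [h, (k2 x).2 h]
  · have := e c2 x
    rwa [Perm.mul_apply, Perm.mul_apply, (h12 x).resolve_left h, (h12 _).resolve_left (mt (k2 x).1 h),
      eq_comm] at this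

theorem twoA (hZ : PZ) (hE : PE) : TwoA := by
  intro w hw P
  have : Fact (Nat.Prime 2) := ⟨Nat.prime_two⟩
  obtain ⟨-, c, w', hc, h1, h2⟩ := hZ _ 2 Nat.prime_two _ P.isPGroup'
  have all : ∀ a, c a ≠ a := fun a => (h2 a).2 (by_contra fun h => P.not_dvd_index (by
    refine Dvd.dvd.trans ?_ (index_dvd_of_le (show P.toSubgroup ≤ MulAction.stabilizer _ a from
      fun d hd => by_contra fun k => h ⟨d, hd, k⟩))
    rw [MulAction.index_stabilizer_of_transitive]
    simp))
  obtain rfl : w = w' := by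
    have := card_support_eq hc
    rw [Finset.eq_univ_of_forall fun a => Perm.mem_support.2 (all a)] at this
    simpa using this
  obtain ⟨e1, e2, -, e4, e5⟩ := hE _ 2 Nat.prime_two c w hc
  have hP : Ec c ≤ P.toSubgroup := (H98.isSyl_top_iff.2 ⟨P, rfl⟩).le_of_le_normalizer (.of_card e1) le_top
    fun d hd => e4 d (h1 d hd).symm
  have hcard : c.cycleFactorsFinset.card = w := by
    have := congrArg Multiset.card hc
    simpa [Perm.cycleType_def] using this
  have sg : ∀ f ∈ c.cycleFactorsFinset, Perm.sign f = -1 := fun f hf => by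
    have hf' := (Perm.mem_cycleFactorsFinset_iff.1 hf).1
    rw [hf'.sign, ← hf'.orderOf, orderOf_factor hc hf]
    rfl
  have cen : ∀ g, (∀ e ∈ Ec c ⊓ alternatingGroup _, Commute g e) → g ∈ Ec c := fun g hg => by
    refine e5 g (fun f hf => ?_) fun a _ => all a
    obtain ⟨f2, h3, f3, h4, h5⟩ := Finset.one_lt_card.1
      (show 1 < (c.cycleFactorsFinset.erase f).card by rw [Finset.card_erase_of_mem hf]; omega)
    obtain ⟨n2, m2⟩ := Finset.mem_erase.1 h3
    obtain ⟨n3, m3⟩ := Finset.mem_erase.1 h4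
    have dj := c.cycleFactorsFinset_pairwise_disjoint
    have mem : ∀ s ∈ c.cycleFactorsFinset, f * s ∈ Ec c ⊓ alternatingGroup _ := fun s hs =>
      ⟨mul_mem (subset_closure hf) (subset_closure hs), Perm.mem_alternatingGroup.2 (by simp [sg f hf, sg s hs])⟩
    exact commute_of_three (dj hf m2 n2.symm) (dj hf m3 n3.symm) (dj m2 m3 h5) (hg _ (mem _ m2)) (hg _ (mem _ m3))
  obtain ⟨f, hf⟩ := Finset.card_pos.1 (show 0 < c.cycleFactorsFinset.card by omega)
  have c0 := (two_mul_card_inf (P := Ec c) (subset_closure hf) (sg f hf)).trans e1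
  have c1 := (two_mul_card_inf (hP (subset_closure hf)) (sg f hf)).trans (card_sylow P)
  have le0 : Ec c ⊓ alternatingGroup _ ≤ P.toSubgroup ⊓ alternatingGroup _ := inf_le_inf_right _ hP
  have key : ¬ ∀ g ∈ P.toSubgroup ⊓ alternatingGroup _, ∀ e ∈ Ec c ⊓ alternatingGroup _, Commute g e := fun h => by
    have h3 := card_le_of_le (show P.toSubgroup ⊓ alternatingGroup _ ≤ Ec c ⊓ alternatingGroup _ from
      fun g hg => ⟨cen g (h g hg), hg.2⟩)
    have h4 := (Nat.prime_two.dvd_iff_one_le_factorization w.factorial_ne_zero).1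
      (Nat.prime_two.dvd_factorial.2 (by omega))
    have h5 := Nat.pow_lt_pow_right (a := 2) (by omega) (show w < w.factorial.factorization 2 + w by omega)
    omega
  refine ⟨fun h => key fun g hg e he => congrArg Subtype.val (h.is_comm.comm ⟨g, hg⟩ ⟨e, le0 he⟩), ?_⟩
  have hz : (center ↥(P.toSubgroup ⊓ alternatingGroup _)).map (Subgroup.subtype _) ≤
      Ec c ⊓ alternatingGroup _ := by
    rintro _ ⟨z, hz, rfl⟩
    exact ⟨cen _ fun e he => (congrArg Subtype.val (mem_center_iff.1 hz ⟨e, le0 he⟩)).symm, z.2.2⟩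
  obtain ⟨v, rfl⟩ : ∃ v, w = v + 1 := ⟨w - 1, by omega⟩
  have c2 : Nat.card ↥(Ec c ⊓ alternatingGroup _) = 2 ^ v := by rw [pow_succ] at c0; omega
  obtain ⟨k, hk, e⟩ := (Nat.dvd_prime_pow Nat.prime_two).1 (c2 ▸ card_dvd_of_le hz)
  have hkv : k ≠ v := by
    rintro rfl
    refine key fun g hg e' he => ?_
    obtain ⟨z, hz', rfl⟩ := (eq_of_le_of_card_ge hz (by rw [e, c2])).ge he
    exact congrArg Subtype.val (mem_center_iff.1 hz' ⟨g, hg⟩)
  rw [← card_subtype, e, show 4 * 2 ^ k = 2 ^ (k + 2) by ring]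
  exact pow_dvd_pow 2 (by omega)

theorem gAn (hA : TwoA) : GAn := by
  intro n M hM b hb D hD θ hθ
  classical
  have : Fact (Nat.Prime 2) := ⟨Nat.prime_two⟩
  have := hM.2.1
  obtain ⟨χ, ho⟩ := exists_over (Subgroup.subtype_injective (alternatingGroup (Fin n))) θ
  have hB := H34.isPBlock_blockOf (M := M) χ
  have hχ := H34.self_mem_blockOf (M := M) χ
  obtain ⟨r, δ, m, w, γ, h, hγ⟩ := exists_core (p := 2) (stair1_val n) (by simp) χ
  obtain ⟨Q, hQ, h1⟩ := Cfsg.Agent.S4438.result 2 M hM _ b hb (D.map (Subgroup.subtype _))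
    (Subgroup.map_subtype_le _) (by
      rwa [Subgroup.subgroupOf, Subgroup.comap_map_eq_self_of_injective (Subgroup.subtype_injective _)])
    _ hB ⟨χ, hχ, θ, hθ, ho⟩
  obtain ⟨e, P, rfl⟩ := h.defect_struct hM hB hχ hγ hQ
  have E : D ≃* ((P : Subgroup _) ⊓ alternatingGroup (Fin (2 * w)) : Subgroup _) :=
    (D.equivMapOfInjective _ (Subgroup.subtype_injective _)).trans ((MulEquiv.subgroupCongr (by
      rw [← h1]
      ext x
      constructor
      · rintro ⟨⟨y, hy, rfl⟩, h2⟩
        exact ⟨y, ⟨hy, Perm.mem_alternatingGroup.2 ((sign_viaEmbedding e y).symm.trans h2)⟩, rfl⟩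
      · rintro ⟨y, hy, rfl⟩
        exact ⟨⟨y, hy.1, rfl⟩, Perm.mem_alternatingGroup.2 ((sign_viaEmbedding e y).trans hy.2)⟩)).trans
      (Subgroup.equivMapOfInjective _ _ (Perm.viaEmbeddingHom_injective e)).symm)
  by_cases hw : w ≤ 2
  · refine fin2 hM hb hD hθ ?_
    rw [Nat.card_congr E.toEquiv]
    have h2 := (card_dvd_of_le (inf_le_left (a := P.toSubgroup) (b := alternatingGroup _))).trans (card_sylow P).dvd
    interval_cases w
    · exact h2.trans (by simp)
    · exact h2.trans (by simp)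
    · have h3 := card_inf_dvd P
      have h4 : (Nat.factorial 2).factorization 2 = 1 := Nat.prime_two.factorization_self
      rw [h4] at h2
      exact Nat.dvd_gcd h2 (Nat.dvd_of_mul_dvd_mul_left (k := 2) (n := 12) (by omega) h3)
  obtain ⟨n1, n2⟩ := hA w (by omega) P
  have hn := h.card
  rw [Fintype.card_fin] at hn
  have : Nontrivial (Fin n) := Fin.nontrivial_iff_two_le.2 (by omega)
  have d1 := Nat.factorization_le_factorization_of_dvd_right (a := 2) ((dvd_mul_left _ _).trans
    (charDegree_dvd_of_over χ.2 θ.2 ho)) (H35.deg_ne_zero θ) (H35.deg_ne_zero χ)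
  have d2 := h.nu_deg Nat.prime_two hγ
  have d3 := phi_one_dvd h.st hγ.fi hγ.sm
  have d4 := Nat.factorization_le_factorization_of_dvd_right (a := 2) d3
    (ne_zero_of_dvd_ne_zero w.factorial_ne_zero d3) w.factorial_ne_zero
  have d5 := nu_factorial_mul (p := 2) w
  have d6 := congrArg (·.factorization 2) (two_mul_nat_card_alternatingGroup (α := Fin n))
  have d7 := Nat.factorization_le_factorization_of_dvd_right (a := 2) n2 (by simp) (by simp)
  rw [← Nat.card_congr (Subgroup.centerCongr E).toEquiv, Nat.factorization_mul (by omega) Nat.card_pos.ne',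
    show 4 = 2 ^ 2 from rfl] at d7
  simp only [Nat.factorization_mul two_ne_zero Nat.card_pos.ne'] at d6
  simp only [Finsupp.add_apply, Nat.prime_two.factorization_pow, Finsupp.single_eq_same,
    Nat.prime_two.factorization_self] at d6 d7
  exact fin1 hM hb hD hθ (fun _ => by omega) fun k => absurd
    ⟨⟨fun x y => E.symm.injective (by rw [map_mul, map_mul, k.is_comm.comm])⟩⟩ n1

end H60.Sp
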