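import Cfsg.Agent.H30.SQSpec

/-! Tower SQ (S4132): job CL, the strongly closed subgroup `E`. -/

set_option autoImplicit false

open Cfsg Subgroup

namespace H60.SqCL

open H30.SQ

universe u

theorem isConj_cj {G : Type*} [Group G] (g x : G) : IsConj x (g * x * g⁻¹) :=
  isConj_iff.mpr ⟨g, rfl⟩

theorem jobCL : JobCL.{u} := by
  intro G _ _ T U₀ n z ν v H F E hEU hzE hE2 hE hh
  -- the conjugates of `z` in `T` centralise `U₀`
  have hW : ∀ t ∈ WS T z, ∀ u ∈ U₀, Commute t u := by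
    intro t ht u hu
    by_cases e : t = z
    · rw [e]; exact (F.zc.2 u (F.le hu)).symm
    · exact ((F.cS t ht e u (F.le hu)).mpr (Or.inl hu)).symm
  -- transport to an extremal conjugate
  have hX : ∀ x : G, Ext T x → ∀ y ∈ U₀, IsConj y x → (y ∈ E ↔ x ∈ E) := by
    intro x hx y hy hc
    obtain ⟨h, e, hs⟩ := hx.2 y (F.le hy) hc
    have := hE h (fun t ht => hs t ht.1 (hW t ht y hy)) y (F.le hy) (by rw [e]; exact hx.1)
    rwa [e] at this
  have hA : ∀ f ∈ E, ∀ f' ∈ U₀, IsConj f f' → f' ∈ E := by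
    intro f hf f' hf' hc
    obtain ⟨g, -, hx⟩ := H.br f (F.le (hEU hf))
    exact (hX _ hx f' hf' (hc.symm.trans (isConj_cj g f))).mpr
      ((hX _ hx f (hEU hf) (isConj_cj g f)).mp hf)
  refine ⟨hEU.trans F.le, fun f hf g hT => ?_⟩
  have hc : IsConj f (g * f * g⁻¹) := isConj_cj g f
  have h2 : g * f * g⁻¹ * (g * f * g⁻¹) = 1 := by
    rw [show g * f * g⁻¹ * (g * f * g⁻¹) = g * (f * f) * g⁻¹ by group, hE2 f hf]; group
  generalize g * f * g⁻¹ = f' at hT hc h2 ⊢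
  by_cases hν : Commute f' ν
  · exact hA f hf f' (F.iv f' hT h2 hν) hc
  exfalso
  have hc1 : IsConj f (f' * z) := by
    rw [← F.mv f' hT hν]; exact hc.trans (isConj_cj ν f')
  obtain ⟨k, -, hx⟩ := H.br f (F.le (hEU hf))
  have hxE : k * f * k⁻¹ ∈ E := (hX _ hx f (hEU hf) (isConj_cj k f)).mp hf
  obtain ⟨h, e, hs⟩ := hx.2 f' hT (hc.symm.trans (isConj_cj k f))
  generalize k * f * k⁻¹ = x at hxE e
  have ht : h * z * h⁻¹ ∈ WS T z := ⟨hs z F.zc.1 (F.zc.2 f' hT).symm, isConj_cj h z⟩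
  have hc2 : IsConj f (x * (h * z * h⁻¹)) := by
    rw [← e, show h * f' * h⁻¹ * (h * z * h⁻¹) = h * (f' * z) * h⁻¹ by group]
    exact hc1.trans (isConj_cj h _)
  have hc3 : IsConj f (x * z) := by
    by_cases e1 : h * z * h⁻¹ = z
    · rwa [e1] at hc2
    · obtain ⟨h', hf', e'⟩ := hh _ ht e1
      refine hc2.trans (IsConj.symm ?_)
      rw [← e', ← mul_assoc, ← mul_assoc, (hf' x hxE).eq, mul_assoc h' x z]
      exact isConj_cj h' _
  have := hA f hf _ (U₀.mul_mem (hEU hxE) F.zU) hc3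
  exact hzE ((E.mul_mem_cancel_left hxE).mp this)

end H60.SqCL
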