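/- VC tower (row S4070): the counting pieces CNT and REG. -/
import Cfsg.Agent.H91.VCSpec

set_option autoImplicit false

namespace H60.Vc

open H91.VC H33.Solv Subgroup MulAction

theorem ncard_iUnion_le {ι V : Type} [Finite ι] (f : ι → Set V) {b : ℕ} (h : ∀ i, (f i).ncard ≤ b) :
    (⋃ i, f i).ncard ≤ Nat.card ι * b := by
  have := Fintype.ofFinite ι
  refine (Set.ncard_iUnion_le_of_fintype f).trans ?_
  simpa using Finset.sum_le_card_nsmul Finset.univ _ b fun i _ => h i

theorem jobCNT : JobCNT := by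
  intro G V _ _ _ _ S c
  induction c generalizing S with
  | zero =>
    intro h
    obtain ⟨v, -, hv⟩ := Set.exists_mem_notMem_of_ncard_lt_ncard (t := Set.univ) (s := S)
      (by simpa using h)
    exact ⟨fun _ => v, fun _ _ => hv, fun j hj k hk _ _ => by omega⟩
  | succ c ih =>
    intro h
    obtain ⟨v, -, hv⟩ := Set.exists_mem_notMem_of_ncard_lt_ncard (t := Set.univ) (s := S)
      (by rw [Set.ncard_univ]; omega)
    have h1 : (orbit G v).ncard ≤ Nat.card G := by
      have := Set.ncard_image_le (s := Set.univ) (f := fun g : G => g • v)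
      rwa [Set.image_univ, Set.ncard_univ] at this
    obtain ⟨u, h2, h3⟩ := ih (S ∪ orbit G v) (by
      have := Set.ncard_union_le S (orbit G v)
      rw [add_mul, one_mul] at h
      omega)
    refine ⟨fun j => if j ≤ c then u j else v, fun j _ => ?_, fun j hj k hk g e => ?_⟩
    · beta_reduce
      split_ifs with k
      exacts [fun e => h2 j k (Or.inl e), hv]
    · beta_reduce at e
      split_ifs at e with k1 k2 k2
      · exact h3 j k1 k k2 g e
      · exact absurd (Or.inr ⟨g⁻¹, by simp [← e]⟩) (h2 j k1)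
      · exact absurd (Or.inr ⟨g, e⟩) (h2 k k2)
      · omega

theorem jobREG : JobREG := by
  intro K G V W _ _ _ _ _ _ _ _ _ _ _ _ _ s N π _ b h
  classical
  let f : G → Set V := fun g => if g ∈ centralizer (s.ι.range : Set G) ∧ g ∉ s.ι.range then fix V g else ∅
  have hf : ∀ g, (f g).ncard ≤ b := fun g => by
    simp only [f]
    split_ifs with k
    exacts [h g k.1 k.2, by simp]
  refine (Set.ncard_le_ncard (t := insert 0 (⋃ g, f g)) fun v hv => ?_).trans
    ((Set.ncard_insert_le _ _).trans (Nat.add_le_add_right (ncard_iUnion_le f hf) 1))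
  obtain ⟨⟨g, h1, h2⟩, h3⟩ := ne_bot_iff_exists_ne_one.1 hv
  by_cases hz : g ∈ s.ι.range
  · by_contra h0
    exact h3 (Subtype.ext ((s.fpf g hz v h2).resolve_right fun e => h0 (Or.inl e)))
  · exact Or.inr (Set.mem_iUnion.2 ⟨g, by simp only [f]; rw [if_pos ⟨h1, hz⟩]; exact h2⟩)

end H60.Vc
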